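import Cfsg.Agent.J4T.A1s

/-! Step A1b of the `J₄` recognition: isometries normalising `⟨ω⟩` that satisfy the relations of `M22:2` modulo `⟨ω⟩`
generate, together with `ω`, a unitary conjugate of `Xs` (`a1b`). (helper3) -/

set_option autoImplicit false

namespace Cfsg.Agent.J4T
open Cfsg.Agent.Comp Subgroup

local notation "W" => zpowers wA

variable {a b c d a' b' c' d' u x y x' y' : MulAut (XV 12)} {n : ℕ}

def Nw : Subgroup (MulAut (XV 12)) := OQ ⊓ normalizer (W : Set (MulAut (XV 12)))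
def Cw : Subgroup (MulAut (XV 12)) := centralizer (W : Set (MulAut (XV 12)))

theorem wA_ne : wA ≠ 1 := fun e => absurd (isCanon_IR.canon IR_wA (e ▸ isGrp_IR.one)) (by decide +kernel)
theorem Nw.conj (hu : u ∈ Nw) (hx : x ∈ W) : u * x * u⁻¹ ∈ W := (mem_normalizer_iff.1 hu.2 x).1 hx
theorem Nw.conj' (hu : u ∈ Nw) (hx : x ∈ W) : u⁻¹ * x * u ∈ W := by simpa using Nw.conj (inv_mem hu) hx
theorem mem_Cw : x ∈ Cw ↔ x * wA = wA * x :=
  ⟨fun h => (h _ (mem_zpowers _)).symm, fun h _ ⟨k, e⟩ => e ▸ (Commute.zpow_left h.symm k).eq⟩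
theorem mem_Nw (h : x ∈ OQ) (h' : x * wA * x⁻¹ ∈ W) : x ∈ Nw :=
  ⟨h, mem_normalizer_fintype fun _ ⟨k, e⟩ => e ▸ (by simpa only [conj_zpow, SetLike.mem_coe] using zpow_mem h' k)⟩
theorem mem_Nw' (h : x ∈ OQ) (h' : x ∈ Cw) : x ∈ Nw := ⟨h, centralizer_le_normalizer _ h'⟩
theorem W_le_Cw : W ≤ Cw := zpowers_le.2 (mem_Cw.2 rfl)
theorem W3 (hx : x ∈ W) : x ^ 3 = 1 := by
  obtain ⟨k, rfl⟩ := hx
  simp only [← zpow_natCast, ← zpow_mul, mul_comm k]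
  rw [zpow_mul, zpow_natCast, wA3, one_zpow]
theorem Nw.cases (hu : u ∈ Nw) : u * wA = wA * u ∨ u * wA = wA * wA * u :=
  ((mem_W.1 (Nw.conj hu (mem_zpowers _))).resolve_left (by simpa using wA_ne)).imp mul_inv_eq_iff_eq_mul.1
    mul_inv_eq_iff_eq_mul.1
theorem ww4 : wA * wA * (wA * wA) = wA := by
  rw [show wA * wA * (wA * wA) = wA ^ 3 * wA by simp only [pow_succ, pow_zero, one_mul, mul_assoc], wA3, one_mul]
theorem Nw.mul_mem_Cw (hx : x * wA = wA * wA * x) (hy : y * wA = wA * wA * y) : x * y ∈ Cw := mem_Cw.2 (by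
  rw [mul_assoc, hy, ← mul_assoc, ← mul_assoc, hx, mul_assoc _ x, hx, ← mul_assoc, ww4, mul_assoc])
theorem mem_Cw_of_odd (hx : x ∈ Nw) (h : x ^ (2 * n + 1) ∈ W) : x ∈ Cw := by
  have : x * x ∈ Cw := (Nw.cases hx).elim (fun e => mul_mem (mem_Cw.2 e) (mem_Cw.2 e)) fun e => Nw.mul_mem_Cw e e
  rw [pow_succ, pow_mul, sq] at h
  exact (mul_mem_cancel_left (pow_mem this n)).1 (W_le_Cw h)

/-- congruence modulo `⟨ω⟩`. -/
def Cg (x y : MulAut (XV 12)) : Prop := x * y⁻¹ ∈ W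
theorem Cg.rfl : Cg x x := by simp [Cg]
theorem Cg.symm (h : Cg x y) : Cg y x := by simpa [Cg] using inv_mem h
theorem Cg.trans (h : Cg x y) (h' : Cg y u) : Cg x u := by simpa [Cg, mul_assoc] using mul_mem h h'
theorem Cg.mul (hx : x ∈ Nw) (h : Cg x x') (h' : Cg y y') : Cg (x * y) (x' * y') := by
  simpa [Cg, mul_assoc] using mul_mem (Nw.conj hx h') h
theorem Cg.inv (hx : x ∈ Nw) (h : Cg x y) : Cg x⁻¹ y⁻¹ := by simpa [Cg, mul_assoc] using Nw.conj' hx h.symm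
theorem Cg.pow (hx : x ∈ Nw) (h : Cg x y) (n : ℕ) : Cg (x ^ n) (y ^ n) := by
  induction n with
  | zero => simp [Cg]
  | succ n ih => rw [pow_succ', pow_succ']; exact h.mul hx ih
theorem Cg.mem (h : Cg x y) (hy : y ∈ W) : x ∈ W := by simpa using mul_mem h hy
theorem Cg.conj (hu : u ∈ Nw) (h : Cg x y) : Cg (u⁻¹ * x * u) (u⁻¹ * y * u) := by
  simpa [Cg, mul_assoc] using Nw.conj' hu h
theorem Cg.of_pow (h : x ^ n ∈ W) (k : ℕ) : Cg (x ^ (n * k + 1)) x := by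
  simpa [Cg, pow_succ, pow_mul] using pow_mem h k
theorem pow_pow_eq (h : x ^ n ∈ W) (k : ℕ) : (x ^ (3 * k)) ^ n = 1 := by
  rw [← pow_mul, mul_comm, pow_mul, pow_mul, W3 h, one_pow]
theorem Cg.eq (h : Cg x y) (hy : y ∈ Cw) (hn : n.Coprime 3) (e : x ^ n = 1) (e' : y ^ n = 1) : x = y := by
  have : (x * y⁻¹) ^ n = 1 := by
    rw [← mul_one (_ ^ n), ← e', ← Commute.mul_pow (hy _ h), inv_mul_cancel_right, e, e']
  exact mul_inv_eq_one.1 (orderOf_eq_one_iff.1 (Nat.eq_one_of_dvd_coprimes hn (orderOf_dvd_of_pow_eq_one this)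
    (orderOf_dvd_of_pow_eq_one (W3 h))))

theorem cl_le (ha : Cg a a') (hb : Cg b b') (hc : Cg c c') (hd : Cg d d') :
    closure {a, b, c, d, wA} ≤ closure {a', b', c', d', wA} := by
  have l : W ≤ closure {a', b', c', d', wA} := zpowers_le.2 (subset_closure (by simp))
  have f : ∀ {x y}, Cg x y → y ∈ ({a', b', c', d', wA} : Set _) → x ∈ closure {a', b', c', d', wA} := fun h hy => by
    simpa using mul_mem (l h) (subset_closure hy)
  rw [closure_le]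
  rintro _ (rfl | rfl | rfl | rfl | rfl)
  exacts [f ha (by simp), f hb (by simp), f hc (by simp), f hd (by simp), f .rfl (by simp)]
theorem cl_eq (ha : Cg a a') (hb : Cg b b') (hc : Cg c c') (hd : Cg d d') :
    closure {a, b, c, d, wA} = closure {a', b', c', d', wA} :=
  (cl_le ha hb hc hd).antisymm (cl_le ha.symm hb.symm hc.symm hd.symm)

theorem cj_mul : u⁻¹ * x * u * (u⁻¹ * y * u) = u⁻¹ * (x * y) * u := by group
theorem cj_pow : (u⁻¹ * x * u) ^ n = u⁻¹ * x ^ n * u := by simpa using conj_pow (a := u⁻¹) (b := x) (i := n)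

structure Rel (a b c d : MulAut (XV 12)) : Prop where
  ha : a ∈ Nw
  hb : b ∈ Nw
  hc : c ∈ Nw
  hd : d ∈ Nw
  aw : a ∈ Cw
  bw : b ∈ Cw
  cw : c ∈ Cw
  a1 : a ≠ 1
  r1 : a ^ 11 = 1
  r2 : b ^ 5 = 1
  r3 : b * a = a ^ 4 * b
  r4 : c * b = b * b * c
  r5 : c ^ 4 = 1
  r6 : (a * c) ^ 5 ∈ W
  r7 : d * a = a ^ 10 * d
  r8 : d * b = b * d
  r9 : (c * d) ^ 4 ∈ W

def Good (a b c d : MulAut (XV 12)) : Prop :=
  ∃ u ∈ Nw, closure {u⁻¹ * a * u, u⁻¹ * b * u, u⁻¹ * c * u, u⁻¹ * d * u, wA} = Xs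

theorem Rel.conj (h : Rel a b c d) (hu : u ∈ Nw) : Rel (u⁻¹ * a * u) (u⁻¹ * b * u) (u⁻¹ * c * u) (u⁻¹ * d * u) := by
  have f : ∀ {x}, x ∈ Nw → u⁻¹ * x * u ∈ Nw := fun hx => mul_mem (mul_mem (inv_mem hu) hx) hu
  have g : ∀ {x}, x ∈ Cw → u⁻¹ * x * u ∈ Cw := fun {x} hx s hs => by
    rw [show s = u⁻¹ * (u * s * u⁻¹) * u by group, cj_mul, cj_mul, hx _ (Nw.conj hu hs)]
  refine ⟨f h.ha, f h.hb, f h.hc, f h.hd, g h.aw, g h.bw, g h.cw, by simpa [mul_assoc, inv_mul_eq_iff_eq_mul] using h.a1,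
    ?_, ?_, ?_, ?_, ?_, ?_, ?_, ?_, ?_⟩ <;> simp only [cj_mul, cj_pow, h.r1, h.r2, h.r3, h.r4, h.r5, h.r7, h.r8, mul_one,
      inv_mul_cancel]
  exacts [Nw.conj' hu h.r6, Nw.conj' hu h.r9]

theorem Good.of_conj (hu : u ∈ Nw) (h : Good (u⁻¹ * a * u) (u⁻¹ * b * u) (u⁻¹ * c * u) (u⁻¹ * d * u)) : Good a b c d :=
  let ⟨v, hv, e⟩ := h; ⟨u * v, mul_mem hu hv, by simpa only [mul_inv_rev, mul_assoc] using e⟩

theorem Xs_eq : closure {s11, s5, s4, t2, wA} = Xs := by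
  refine congrArg Subgroup.closure (Set.ext fun g => ⟨?_, ?_⟩)
  · rintro (rfl | rfl | rfl | rfl | rfl)
    exacts [⟨_, by simp [LX], IR_s11⟩, ⟨_, by simp [LX], IR_s5⟩, ⟨_, by simp [LX], IR_s4⟩, ⟨_, by simp [LX], IR_t2⟩,
      ⟨_, by simp [LX], IR_wA⟩]
  · rintro ⟨c, hc, h⟩
    simp only [LX, List.mem_cons, List.not_mem_nil, or_false] at hc
    rcases hc with rfl | rfl | rfl | rfl | rfl
    exacts [.inl (isCanon_IR.func h IR_s11), .inr (.inl (isCanon_IR.func h IR_s5)),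
      .inr (.inr (.inl (isCanon_IR.func h IR_s4))), .inr (.inr (.inr (.inl (isCanon_IR.func h IR_t2)))),
      .inr (.inr (.inr (.inr (isCanon_IR.func h IR_wA))))]

theorem comm_of_IR {p q : ℕ} (hp : IR p x) (hq : IR q y) (e : Nat.beq (mulM p q) (mulM q p) = true) : x * y = y * x :=
  eq_of_IR (isGrp_IR.mul hp hq) (isGrp_IR.mul hq hp) (nbeq.1 e)
theorem t2_w : t2 * wA = wA * wA * t2 :=
  eq_of_IR (isGrp_IR.mul IR_t2 IR_wA) (isGrp_IR.mul IR_wA2 IR_t2) (by decide +kernel)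
theorem t2_N : t2 ∈ Nw := mem_Nw IR_t2.2 (by
  rw [t2_w, mul_inv_cancel_right]; exact mul_mem (mem_zpowers _) (mem_zpowers _))
theorem s11_C : s11 ∈ Cw := mem_Cw.2 (comm_of_IR IR_s11 IR_wA (by decide +kernel))
theorem s5_N : s5 ∈ Nw := mem_Nw' IR_s5.2 (mem_Cw.2 (comm_of_IR IR_s5 IR_wA (by decide +kernel)))
theorem uU_N : uU ∈ Nw := mem_Nw' IR_uU.2 (mem_Cw.2 (comm_of_IR IR_uU IR_wA (by decide +kernel)))

theorem cj_of_comm (h : x * u = u * x) : (u ^ n)⁻¹ * x * u ^ n = x := by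
  rw [mul_assoc, (Commute.pow_right h n).eq, inv_mul_cancel_left]

theorem good4 (h : Rel s11 s5 s4 d) : Good s11 s5 s4 d := by
  obtain ⟨s, hs, rfl⟩ := scan_d h.hd.1 (Nw.cases h.hd) h.r7 h.r8 h.r9
  exact ⟨1, one_mem _, by
    simpa only [inv_one, one_mul, mul_one] using (cl_eq .rfl .rfl .rfl (Nw.conj t2_N hs)).trans Xs_eq⟩

theorem good3 (h : Rel s11 s5 c d) : Good s11 s5 c d := by
  obtain ⟨k, e⟩ := scan_c h.hc.1 (mem_Cw.1 h.cw) h.r4 h.r5 h.r6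
  have h' := h.conj (pow_mem uU_N k)
  refine Good.of_conj (pow_mem uU_N k) ?_
  rw [cj_of_comm (comm_of_IR IR_s11 IR_uU (by decide +kernel)), cj_of_comm (comm_of_IR IR_s5 IR_uU (by decide +kernel)),
    show (uU ^ k)⁻¹ * c * uU ^ k = s4 by rw [e]; group] at h' ⊢
  exact good4 h'

theorem good2 (h : Rel s11 b c d) : Good s11 b c d := by
  obtain ⟨k, e⟩ := scan_b h.hb.1 (mem_Cw.1 h.bw) h.r2 h.r3
  have h' := h.conj (pow_mem h.ha k)
  refine Good.of_conj (pow_mem h.ha k) ?_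
  rw [cj_of_comm rfl, show (s11 ^ k)⁻¹ * b * s11 ^ k = s5 by rw [e]; group] at h' ⊢
  exact good3 h'

theorem ord_s11 : orderOf s11 = 11 :=
  haveI : Fact (Nat.Prime 11) := ⟨by norm_num⟩
  orderOf_eq_prime (eq_of_IR (isGrp_IR.pow IR_s11 11) isGrp_IR.one (by decide +kernel))
    fun e => absurd (isCanon_IR.canon IR_s11 (e ▸ isGrp_IR.one)) (by decide +kernel)

theorem good1 (h : Rel a b c d) : Good a b c d := by
  classical
  haveI : Fact (Nat.Prime 11) := ⟨by norm_num⟩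
  obtain ⟨g, hg, e⟩ := exists_conj_le_sylow (K := OQ ⊓ Cw) (P := zpowers s11) (Q := zpowers a) (p := 11) (k := 1) Fact.out
    (zpowers_le.2 ⟨IR_s11.2, s11_C⟩) (zpowers_le.2 ⟨h.ha.1, h.aw⟩) (by rw [Nat.card_zpowers, ord_s11, pow_one]) rfl
    (fun d => absurd (card_aut 12 ▸ d.trans (card_subgroup_dvd_card _)) (by decide +kernel))
    (IsPGroup.of_card (n := 1) (by rw [Nat.card_zpowers, orderOf_eq_prime h.r1 h.a1, pow_one]))
  obtain ⟨i, hi, e⟩ := Finset.mem_image.1 (mem_zpowers_iff_mem_range_orderOf.1 (e a (mem_zpowers a)))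
  rw [ord_s11, Finset.mem_range] at hi
  have key : allLt 11 (fun i => bor (Nat.beq i 0) (anyLt 5 fun j => anyLt 2 fun k =>
      force (mulM (powC mulM one12 c5 j) (powC mulM one12 c2 k)) fun t =>
        Nat.beq (mulM (powC mulM one12 c11 i) t) (mulM t c11))) = true := by decide +kernel
  have k := allLt_iff.1 key i hi
  simp only [bor_eq, Bool.or_eq_true, anyLt_iff, force_eq, nbeq] at k
  obtain rfl | ⟨j, -, k, -, e'⟩ := k
  · exact (h.a1 (by simpa using e.symm)).elim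
  have t := isGrp_IR.mul (isGrp_IR.pow IR_s5 j) (isGrp_IR.pow IR_t2 k)
  have e' := eq_of_IR (isGrp_IR.mul (isGrp_IR.pow IR_s11 i) t) (isGrp_IR.mul t IR_s11) e'
  have hu : g⁻¹ * (s5 ^ j * t2 ^ k) ∈ Nw := mul_mem (inv_mem (mem_Nw' hg.1 hg.2)) (mul_mem (pow_mem s5_N j) (pow_mem t2_N k))
  have h' := h.conj hu
  refine Good.of_conj hu ?_
  generalize s5 ^ j * t2 ^ k = t at e' h' ⊢
  rw [show (g⁻¹ * t)⁻¹ * a * (g⁻¹ * t) = s11 by
    rw [show (g⁻¹ * t)⁻¹ * a * (g⁻¹ * t) = t⁻¹ * (g * a * g⁻¹ * t) by group, ← e, e', inv_mul_cancel_left]] at h' ⊢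
  exact good2 h'

theorem cl_conj (hu : u ∈ Nw) (h : u ∈ closure {a, b, c, d, wA}) :
    closure {u⁻¹ * a * u, u⁻¹ * b * u, u⁻¹ * c * u, u⁻¹ * d * u, wA} = closure {a, b, c, d, wA} := by
  refine le_antisymm ((closure_le _).2 ?_) fun g hg => ?_
  · have f : ∀ x ∈ ({a, b, c, d, wA} : Set _), u⁻¹ * x * u ∈ closure {a, b, c, d, wA} := fun x hx =>
      mul_mem (mul_mem (inv_mem h) (subset_closure hx)) h
    rintro _ (rfl | rfl | rfl | rfl | rfl)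
    exacts [f _ (by simp), f _ (by simp), f _ (by simp), f _ (by simp), subset_closure (by simp)]
  have : ∀ y ∈ closure {a, b, c, d, wA},
      u⁻¹ * y * u ∈ closure {u⁻¹ * a * u, u⁻¹ * b * u, u⁻¹ * c * u, u⁻¹ * d * u, wA} := fun y hy => by
    induction hy using closure_induction with
    | mem y hy =>
      rcases hy with rfl | rfl | rfl | rfl | rfl
      exacts [subset_closure (by simp), subset_closure (by simp), subset_closure (by simp), subset_closure (by simp),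
        zpowers_le.2 (subset_closure (by simp)) (Nw.conj' hu (mem_zpowers _))]
    | one => simp
    | mul x y _ _ h1 h2 => exact cj_mul ▸ mul_mem h1 h2
    | inv x _ h1 => simpa [mul_assoc] using inv_mem h1
  simpa [mul_assoc] using this _ (mul_mem (mul_mem h hg) (inv_mem h))

theorem a1b (hO : ∀ x ∈ [a, b, c, d], x ∈ OQ ∧ x * wA * x⁻¹ ∈ zpowers wA) (a0 : a ∉ zpowers wA)
    (r1 : a ^ 11 ∈ zpowers wA) (r2 : b ^ 5 ∈ zpowers wA) (r3 : b * a * b⁻¹ * (a ^ 4)⁻¹ ∈ zpowers wA)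
    (r4 : c * b * c⁻¹ * (b ^ 2)⁻¹ ∈ zpowers wA) (r5 : c ^ 4 ∈ zpowers wA) (r6 : (a * c) ^ 5 ∈ zpowers wA)
    (r7 : d * a * d⁻¹ * a ∈ zpowers wA) (r8 : d * b * d⁻¹ * b⁻¹ ∈ zpowers wA) (r9 : (c * d) ^ 4 ∈ zpowers wA) :
    ∃ u ∈ OQ, Commute u wA ∧ closure {u⁻¹ * a * u, u⁻¹ * b * u, u⁻¹ * c * u, u⁻¹ * d * u, wA} = Xs := by
  have N : ∀ x ∈ [a, b, c, d], x ∈ Nw := fun x hx => mem_Nw (hO x hx).1 (hO x hx).2
  have ha := N a (by simp)
  have hb := N b (by simp)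
  have hc := N c (by simp)
  have hd := N d (by simp)
  have aw := mem_Cw_of_odd (n := 5) ha r1
  have bw := mem_Cw_of_odd (n := 2) hb r2
  have cw := (mul_mem_cancel_left aw).1 (mem_Cw_of_odd (n := 2) (mul_mem ha hc) r6)
  have ea : Cg (a ^ 12) a := .of_pow r1 1
  have eb : Cg (b ^ 6) b := .of_pow r2 1
  have ec : Cg (c ^ 9) c := .of_pow r5 2
  have pa : (a ^ 12) ^ 11 = 1 := pow_pow_eq r1 4
  have pb : (b ^ 6) ^ 5 = 1 := pow_pow_eq r2 2
  have pc : (c ^ 9) ^ 4 = 1 := pow_pow_eq r5 3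
  have ha' := pow_mem ha 12
  have hb' := pow_mem hb 6
  have hc' := pow_mem hc 9
  have aw' := pow_mem aw 12
  have bw' := pow_mem bw 6
  have cw' := pow_mem cw 9
  generalize a ^ 12 = a', b ^ 6 = b', c ^ 9 = c' at *
  have f : ∀ {x x' y y' z z' n}, x' ∈ Nw → y' ∈ Nw → Cg x' x → Cg y' y → Cg z' z → Cg (x * y * x⁻¹) z → z' ∈ Cw →
      n.Coprime 3 → y' ^ n = 1 → z' ^ n = 1 → x' * y' = z' * x' := fun hx hy ex ey ez e hz hn py pz =>
    mul_inv_eq_iff_eq_mul.1 (((((ex.mul hx ey).mul (mul_mem hx hy) (ex.inv hx)).trans e).trans ez.symm).eq hz hn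
      (by rw [conj_pow, py, mul_one, mul_inv_cancel]) pz)
  obtain ⟨u, hu, e⟩ := good1 (a := a') (b := b') (c := c') (d := d) ⟨ha', hb', hc', hd, aw', bw', cw',
    fun e => a0 (ea.symm.mem (e ▸ one_mem _)), pa, pb,
    f hb' ha' eb ea (ea.pow ha' 4) r3 (pow_mem aw' 4) (by decide) pa (by rw [← pow_mul, mul_comm, pow_mul, pa, one_pow]),
    sq b' ▸ f hc' hb' ec eb (eb.pow hb' 2) r4 (pow_mem bw' 2) (by decide) pb
      (by rw [← pow_mul, mul_comm, pow_mul, pb, one_pow]), pc,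
    ((ea.mul ha' ec).pow (mul_mem ha' hc') 5).mem r6,
    (show a'⁻¹ = a' ^ 10 from inv_eq_of_mul_eq_one_right (by rw [← pow_succ', pa])) ▸
      f hd ha' .rfl ea (ea.inv ha') (by simpa [Cg] using r7) (inv_mem aw') (by decide) pa (by rw [inv_pow, pa, inv_one]),
    f hd hb' .rfl eb eb r8 bw' (by decide) pb pb, ((ec.mul hc' .rfl).pow (mul_mem hc' hd) 4).mem r9⟩
  rw [cl_eq (ea.conj hu) (eb.conj hu) (ec.conj hu) .rfl] at e
  rcases Nw.cases hu with k | k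
  · exact ⟨u, hu.1, k, e⟩
  · refine ⟨u * t2, mul_mem hu.1 t2_N.1, mem_Cw.1 (Nw.mul_mem_Cw k t2_w), ?_⟩
    simpa only [mul_inv_rev, mul_assoc] using (cl_conj t2_N (e ▸ Xs_eq ▸ subset_closure (by simp))).trans e

end Cfsg.Agent.J4T
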