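import Cfsg.Agent.J4T.Data

/-! Scans for step A1b: an isometry intertwining two given maps is determined by the images of cyclic vectors
(`kry`, `Cor`, `code_eq`); the results `scan_b`, `scan_c`, `scan_d`. (helper3) -/

set_option autoImplicit false

namespace Cfsg.Agent.J4T
open Cfsg.Agent.Comp Subgroup

/-- the columns `t, g t, …, g^(n-1) t` followed by those of `z`. -/
def kry (g n z : ℕ) : ℕ → ℕ :=
  Nat.rec (motive := fun _ => ℕ → ℕ) (fun _ => z) (fun _ ih t => force t fun t => Nat.add (Nat.mul 4096 (ih (app g t))) t) n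

def Cor (x M N : ℕ) : Prop := ∀ j, col M j = app x (col N j)

theorem cor_zero (x : ℕ) : Cor x 0 0 := fun j => by simp [col, get_zero, app_zero]

theorem Cor.kry {x A B z z' : ℕ} (h : ∀ v < 4096, app x (app A v) = app B (app x v)) (hz : Cor x z z') (n : ℕ) :
    ∀ t < 4096, Cor x (kry B n z (app x t)) (kry A n z' t) := by
  induction n with
  | zero => exact fun _ _ => hz
  | succ n ih =>
    intro t ht j
    have e : ∀ g z t, J4T.kry g (n + 1) z t = 4096 * J4T.kry g n z (app g t) + t := fun g z t =>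
      force_eq t fun t => Nat.add (Nat.mul 4096 (J4T.kry g n z (app g t))) t
    rw [e, e]
    cases j with
    | zero => rw [col_zero, col_zero, Nat.mul_add_mod, Nat.mul_add_mod, Nat.mod_eq_of_lt ht, Nat.mod_eq_of_lt (app_lt ..)]
    | succ j => rw [col_succ ht, col_succ (app_lt ..), ← h t ht]; exact ih _ (app_lt ..) j

variable {x A B : ℕ} {g α β a b c d : MulAut (XV 12)}

theorem code_eq {M N Ni : ℕ} (hx : IR x g) (h : Cor x M N) (hN : mulM N Ni = one12) (hi : Ni < 2 ^ (12 * 12)) :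
    x = mulM M Ni :=
  col_ext hx.1.1 (mulM_lt _ hi) fun j hj => by
    have := lin_ext (n := 12) (f := app M) (g := fun u => app x (app N u)) (fun _ _ _ _ => app_xor ..)
      (fun _ _ _ _ => by simp only [app_xor]) (fun i hi => by simp only [app_pow _ hi, h i]) _ (col_lt Ni j)
    rw [col_mulM _ _ hj, this, ← col_mulM _ _ hj, hN, ← app_pow one12 hj, one12_eq, app_oneN le_rfl _ (pow_lt12 hj),
      app_pow _ hj]

theorem intertw (hx : IR x g) (hA : IR A α) (hB : IR B β) (e : g * α = β * g) :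
    ∀ v < 4096, app x (app A v) = app B (app x v) := fun v hv => by
  rw [← app_mulM _ _ hv, ← app_mulM _ _ hv, isCanon_IR.canon (isGrp_IR.mul hx hA) (e ▸ isGrp_IR.mul hB hx)]

theorem IR.congr {y : ℕ} (hx : IR x g) (e : Nat.beq x y = true) : IR y g := nbeq.1 e ▸ hx

def LW : List ℕ := [one12, cW, 0x400c001003000400c001003000400c001003]
theorem IR_wA2 : IR 0x400c001003000400c001003000400c001003 (wA * wA) :=
  (isGrp_IR.mul IR_wA IR_wA).congr (by decide +kernel)

theorem mem_W : g ∈ zpowers wA ↔ g = 1 ∨ g = wA ∨ g = wA * wA := by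
  refine ⟨fun ⟨k, e⟩ => ?_, by rintro (rfl | rfl | rfl); exacts [one_mem _, mem_zpowers _, mul_mem (mem_zpowers _) (mem_zpowers _)]⟩
  have h3 : wA ^ (3 : ℤ) = 1 := by exact_mod_cast wA3
  have : k % 3 = 0 ∨ k % 3 = 1 ∨ k % 3 = 2 := by omega
  simp only at e
  rw [← e, zpow_eq_zpow_emod k h3]
  rcases this with h | h | h <;> simp [h, zpow_ofNat, pow_two]

theorem memLW (hx : IR x g) (h : g ∈ zpowers wA) : memL x LW = true := by
  rcases mem_W.1 h with rfl | rfl | rfl
  exacts [isCanon_IR.canon hx isGrp_IR.one ▸ by decide +kernel, isCanon_IR.canon hx IR_wA ▸ by decide +kernel,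
    isCanon_IR.canon hx IR_wA2 ▸ by decide +kernel]

theorem of_memLW (h : x ∈ LW) : ∃ g ∈ zpowers wA, IR x g := by
  simp only [LW, List.mem_cons, List.not_mem_nil, or_false] at h
  rcases h with rfl | rfl | rfl
  exacts [⟨_, one_mem _, isGrp_IR.one⟩, ⟨_, mem_zpowers _, IR_wA⟩, ⟨_, mul_mem (mem_zpowers _) (mem_zpowers _), IR_wA2⟩]

def cU : ℕ := 0xc00800200100080040020010008004002001
noncomputable def s11 : MulAut (XV 12) := el c11
noncomputable def s5 : MulAut (XV 12) := el c5
noncomputable def s4 : MulAut (XV 12) := el c4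
noncomputable def t2 : MulAut (XV 12) := el c2
noncomputable def uU : MulAut (XV 12) := el cU
theorem IR_s11 : IR c11 s11 := IR_el (by decide +kernel)
theorem IR_s5 : IR c5 s5 := IR_el (by decide +kernel)
theorem IR_s4 : IR c4 s4 := IR_el (by decide +kernel)
theorem IR_t2 : IR c2 t2 := IR_el (by decide +kernel)
theorem IR_uU : IR cU uU := IR_el (by decide +kernel)

theorem eq_of_IR {y : ℕ} {h : MulAut (XV 12)} (hx : IR x g) (hy : IR y h) (e : x = y) : g = h :=
  isCanon_IR.func hx (e ▸ hy)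

def imp (a b : Bool) : Bool := Bool.rec true b a
theorem imp_iff {a b : Bool} : imp a b = true ↔ (a = true → b = true) := by cases a <;> simp [imp]

def gA : ℕ := 0xc0080039a2753a92572ee19916e3d91e639d
def gN : ℕ := 0xdfb9528271b77c306565ea60ed8e415fa953
theorem IR_gA : IR gA (s11 * wA) := (by decide +kernel : mulM c11 cW = gA) ▸ isGrp_IR.mul IR_s11 IR_wA

theorem code_cyc (hx : IR x g) (hB : IR B β) (e : g * (s11 * wA) = β * g) : x = mulM (kry B 12 0 (app x 1025)) gN :=
  code_eq hx ((cor_zero x).kry (intertw hx IR_gA hB e) 12 1025 (by decide)) (by decide +kernel) (by decide +kernel)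

theorem scan_b (hb : b ∈ OQ) (hw : b * wA = wA * b) (h5 : b ^ 5 = 1) (h : b * s11 = s11 ^ 4 * b) :
    ∃ k : ℕ, b = s11 ^ k * s5 * (s11 ^ k)⁻¹ := by
  obtain ⟨x, hx⟩ := exists_IR hb
  have hB : IR 0xc0080003d02b02501f08004020010002e019 (s11 ^ 4 * wA) :=
    (isGrp_IR.mul (isGrp_IR.pow IR_s11 4) IR_wA).congr (by decide +kernel)
  have e := code_cyc hx hB (by rw [← mul_assoc, h, mul_assoc, hw, mul_assoc])
  have key := all4096 (f := fun t => force (mulM (kry 0xc0080003d02b02501f08004020010002e019 12 0 t) gN) fun M =>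
    imp (isoB M) (imp (Nat.beq (powC mulM one12 M 5) one12) (anyLt 11 fun k => force (powC mulM one12 c11 k) fun p =>
      Nat.beq M (mulM (mulM p c5) (invM p))))) (by decide +kernel) (fun _ h => h) _ (app_lt x 1025)
  simp only [force_eq, ← e, imp_iff, nbeq, anyLt_iff] at key
  obtain ⟨k, -, e⟩ := key ((isoB_iff hx.1).2 hb) (isCanon_IR.canon (isGrp_IR.pow hx 5) (h5 ▸ isGrp_IR.one))
  exact ⟨k, eq_of_IR hx (isGrp_IR.mul (isGrp_IR.mul (isGrp_IR.pow IR_s11 k) IR_s5) (isGrp_IR.pow IR_s11 k).inv) e⟩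

theorem scan_d (hd : d ∈ OQ) (hw : d * wA = wA * d ∨ d * wA = wA * wA * d) (h : d * s11 = s11 ^ 10 * d)
    (h5 : d * s5 = s5 * d) (h4 : (s4 * d) ^ 4 ∈ zpowers wA) : ∃ s ∈ zpowers wA, d = t2 * s := by
  obtain ⟨x, hx⟩ := exists_IR hd
  have iso := (isoB_iff hx.1).2 hd
  rcases hw with hw | hw
  · have hB : IR 0xc008003da2b517b3e62551ff17e3e919537f (s11 ^ 10 * wA) :=
      (isGrp_IR.mul (isGrp_IR.pow IR_s11 10) IR_wA).congr (by decide +kernel)
    have e := code_cyc hx hB (by rw [← mul_assoc, h, mul_assoc, hw, mul_assoc])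
    have key := all4096 (f := fun t => imp (isoB (mulM (kry 0xc008003da2b517b3e62551ff17e3e919537f 12 0 t) gN)) false)
      (by decide +kernel) (fun _ h => h) _ (app_lt x 1025)
    simp [← e, imp_iff, iso] at key
  · have hB : IR 0x400c0016f3da29d17b3aa25529717e2ea195 (s11 ^ 10 * (wA * wA)) :=
      (isGrp_IR.mul (isGrp_IR.pow IR_s11 10) IR_wA2).congr (by decide +kernel)
    have e := code_cyc hx hB (by rw [← mul_assoc, h, mul_assoc, hw, mul_assoc _ (wA * wA) d])
    have key := all4096 (f := fun t => force (mulM (kry 0x400c0016f3da29d17b3aa25529717e2ea195 12 0 t) gN) fun M =>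
      imp (isoB M) (imp (Nat.beq (mulM M c5) (mulM c5 M)) (force (powC mulM one12 (mulM c4 M) 4) fun p =>
        imp (memL p LW) (anyL LW fun s => Nat.beq M (mulM c2 s))))) (by decide +kernel) (fun _ h => h) _ (app_lt x 1025)
    simp only [force_eq, ← e, imp_iff, nbeq, anyL_iff] at key
    obtain ⟨s, hs, e⟩ := key iso (isCanon_IR.canon (isGrp_IR.mul hx IR_s5) (h5 ▸ isGrp_IR.mul IR_s5 hx))
      (memLW (isGrp_IR.pow (isGrp_IR.mul IR_s4 hx) 4) h4)
    obtain ⟨s, h1, h2⟩ := of_memLW hs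
    exact ⟨s, h1, eq_of_IR hx (isGrp_IR.mul IR_t2 h2) e⟩

def c55 : ℕ := 0x8004000bc0682481c433c2281d03b0002001
def LF : List ℕ := [0, 1, 2, 3, 1024, 1025, 1026, 1027, 2048, 2049, 2050, 2051, 3072, 3073, 3074, 3075]
theorem mem_LF : ∀ v < 4096, app c55 v = v → v ∈ LF :=
  all4096 (f := fun v => imp (Nat.beq (app c55 v) v) (memL v LF)) (by decide +kernel) fun v h e =>
    memL_iff.1 (imp_iff.1 h (nbeq.2 e))

theorem scan_c (hc : c ∈ OQ) (hw : c * wA = wA * c) (h : c * s5 = s5 * s5 * c) (h4 : c ^ 4 = 1)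
    (h5 : (s11 * c) ^ 5 ∈ zpowers wA) : ∃ k : ℕ, c = uU ^ k * s4 * (uU ^ k)⁻¹ := by
  obtain ⟨x, hx⟩ := exists_IR hc
  have h55 : IR c55 (s5 * s5) := (by decide +kernel : mulM c5 c5 = c55) ▸ isGrp_IR.mul IR_s5 IR_s5
  have hA : IR 0xc0080012431c0f80a42f01a02c8184003002 (s5 * wA) :=
    (isGrp_IR.mul IR_s5 IR_wA).congr (by decide +kernel)
  have hB : IR 0xc008000d40bc38c24811433c2601d0003002 (s5 * s5 * wA) :=
    (isGrp_IR.mul h55 IR_wA).congr (by decide +kernel)
  have iw := intertw hx IR_wA IR_wA hw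
  have i5 := intertw hx IR_s5 h55 h
  have e := code_eq (Ni := 0x8004000ef0bc0bf0330d80b0021001200100) hx
    ((((cor_zero x).kry iw 2 1024 (by decide)).kry iw 2 1 (by decide)).kry
    (intertw hx hA hB (by rw [← mul_assoc, h, mul_assoc, hw, mul_assoc _ wA])) 8 4 (by decide))
    (by decide +kernel) (by decide +kernel)
  have key : allL LF (fun t₂ => allL LF fun t₃ => force (app cW t₂) fun u₂ => force (app cW t₃) fun u₃ =>
    imp (Nat.beq (bt t₂ t₂) 1) (imp (Nat.beq (bt t₃ t₃) 1) (imp (Nat.beq (bf t₂ t₃) 0) (imp (Nat.beq (bf t₂ u₃) 0)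
      (force (kry cW 2 (kry cW 2 0 t₃) t₂) fun z => allLt 64 fun a => allLt 64 fun b =>
        force (Nat.add (Nat.mul 64 a) b) fun t => imp (Nat.beq (bf t t₂) 0) (imp (Nat.beq (bf t u₂) 0)
          (imp (Nat.beq (bf t t₃) 0) (imp (Nat.beq (bf t u₃) 0)
            (force (mulM (kry 0xc008000d40bc38c24811433c2601d0003002 8 z t) 0x8004000ef0bc0bf0330d80b0021001200100)
              fun M => imp (isoB M) (imp (Nat.beq (powC mulM one12 M 4) one12)
                (force (powC mulM one12 (mulM c11 M) 5) fun p => imp (memL p LW) (anyLt 3 fun k =>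
                  force (powC mulM one12 cU k) fun p => Nat.beq M (mulM (mulM p c4) (invM p)))))))))))))) = true := by
    decide +kernel
  have f : ∀ v < 4096, app c5 v = v → app x v ∈ LF := fun v hv e => mem_LF _ (app_lt ..) (by rw [← i5 v hv, e])
  have k1 := allL_iff.1 (allL_iff.1 key _ (f 1 (by decide) (by decide +kernel))) _ (f 1024 (by decide) (by decide +kernel))
  rw [← iw 1 (by decide), ← iw 1024 (by decide)] at k1
  simp only [force_eq (app x _), force_eq (kry cW 2 _ _), imp_iff, nbeq] at k1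
  have k2 := all4096 (k1 ((hx.1.q hc (by decide)).trans (by decide +kernel)) ((hx.1.q hc (by decide)).trans (by decide +kernel))
    ((hx.1.bf hc (by decide) (by decide)).trans (by decide +kernel))
    ((hx.1.bf hc (by decide) (app_lt ..)).trans (by decide +kernel))) (fun _ h => h) _ (app_lt x 4)
  simp only [force_eq, ← e, imp_iff, nbeq, anyLt_iff] at k2
  obtain ⟨k, -, e⟩ := k2 ((hx.1.bf hc (by decide) (by decide)).trans (by decide +kernel))
    ((hx.1.bf hc (by decide) (app_lt ..)).trans (by decide +kernel))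
    ((hx.1.bf hc (by decide) (by decide)).trans (by decide +kernel))
    ((hx.1.bf hc (by decide) (app_lt ..)).trans (by decide +kernel))
    ((isoB_iff hx.1).2 hc) (isCanon_IR.canon (isGrp_IR.pow hx 4) (h4 ▸ isGrp_IR.one))
    (memLW (isGrp_IR.pow (isGrp_IR.mul IR_s11 hx) 5) h5)
  exact ⟨k, eq_of_IR hx (isGrp_IR.mul (isGrp_IR.mul (isGrp_IR.pow IR_uU k) IR_s4) (isGrp_IR.pow IR_uU k).inv) e⟩

end Cfsg.Agent.J4T
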