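import Cfsg.Agent.J4T.B1
import Mathlib.GroupTheory.Transfer

/-! Step A2: two groups with the data `Bt … 3` and an element acting on `V` as `cY` have isomorphic centralisers
`C(z)`, by an isomorphism matching the coordinates `ν` of `V` (`a2`). -/

set_option autoImplicit false

namespace Cfsg.Agent.J4T
open Cfsg.Agent.Comp Subgroup

theorem a2_split {P : Type*} [Group P] [Finite P] {C T D : Subgroup P} [hn : D.Normal] {c : P} (hcc : c * c = 1)
    (hz : ∀ q, Commute q c) (hc : c ∉ C) (hT : ∀ q ∈ T, q ∈ C ∨ q * c ∈ C) (hodd : Odd T.index) (hD : D ≤ C) :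
    ∃ V : P →* ℤˣ, V c = -1 ∧ ∀ d ∈ D, V d = 1 := by
  classical
  have k : ∀ a b : P, a * c * (b * c) = a * b := fun a b => by
    rw [mul_assoc, ← mul_assoc c, ← (hz b).eq, mul_assoc b, hcc, mul_one]
  let S : Subgroup P :=
    { carrier := {q | q ∈ C ∨ q * c ∈ C}
      mul_mem' := fun {a b} ha hb => by
        rcases ha with ha | ha <;> rcases hb with hb | hb
        · exact .inl (mul_mem ha hb)
        · exact .inr (mul_assoc a b c ▸ mul_mem ha hb)
        · refine .inr ?_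
          rw [mul_assoc, (hz b).eq, ← mul_assoc]; exact mul_mem ha hb
        · exact .inl (k a b ▸ mul_mem ha hb)
      one_mem' := .inl (one_mem _)
      inv_mem' := fun {a} ha => by
        rcases ha with ha | ha
        · exact .inl (inv_mem ha)
        · refine .inr ?_
          have := inv_mem ha
          rwa [mul_inv_rev, inv_eq_of_mul_eq_one_right hcc, ← (hz _).eq] at this }
  let χ : S →* ℤˣ := MonoidHom.mk' (fun q => if q.1 ∈ C then 1 else -1) fun a b => by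
    by_cases ha : a.1 ∈ C <;> by_cases hb : b.1 ∈ C
    · simp [ha, hb, mul_mem ha hb]
    · simp [ha, hb, mul_mem_cancel_left ha]
    · simp [ha, hb, mul_mem_cancel_right hb]
    · have := k a.1 b.1 ▸ mul_mem (a.2.resolve_left ha) (b.2.resolve_left hb)
      simp [ha, hb, this]
  have hχ : ∀ q : S, χ q = if q.1 ∈ C then 1 else -1 := fun _ => rfl
  obtain ⟨m, hm⟩ : Odd S.index := hodd.of_dvd_nat (index_dvd_of_le (H := T) (K := S) hT)
  refine ⟨MonoidHom.transfer χ, ?_, fun d hd => ?_⟩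
  · rw [MonoidHom.transfer_eq_pow χ c fun k g _ => by
      rw [mul_assoc, ← ((hz g).pow_right k).eq, inv_mul_cancel_left], hχ, if_neg]
    show c ^ S.index ∉ C
    rwa [hm, pow_succ, pow_mul, pow_two, hcc, one_pow, one_mul]
  · have := Fintype.ofFinite (Quotient (MulAction.orbitRel (zpowers d) (P ⧸ S)))
    rw [MonoidHom.transfer_eq_prod_quotient_orbitRel_zpowers_quot]
    refine Finset.prod_eq_one fun q _ => ?_
    rw [hχ, if_pos]
    exact hD (hn.conj_mem' _ (pow_mem hd _) _)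

theorem a2_dih {Q : Type*} [Group Q] {a b c : Q} (ha : a * a = 1) (hb : b * b = 1) (hc : c * c = 1)
    (hac : a * c * (a * c) = 1) (hbc : b * c * (b * c) = 1) (hab : a * b * (a * b) * (a * b * (a * b)) = 1) {q : Q}
    (hq : q ∈ closure ({a, b, c} : Set Q)) : ∃ i < 4, ∃ j < 2, ∃ k < 2, q = (a * b) ^ i * a ^ j * c ^ k := by
  have cm : ∀ {a b : Q}, a * a = 1 → b * b = 1 → a * b * (a * b) = 1 → Commute a b := fun {a b} h1 h2 h3 => by
    rw [Commute, SemiconjBy, eq_inv_of_mul_eq_one_left h3, mul_inv_rev, inv_eq_of_mul_eq_one_right h1,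
      inv_eq_of_mul_eq_one_right h2]
  have c1 := cm ha hc hac
  have c2 := cm hb hc hbc
  have r4 : (a * b) ^ 4 = 1 := by rw [← hab]; simp only [pow_succ, pow_zero, one_mul, mul_assoc]
  have s1 : SemiconjBy a (a * b) ((a * b) ^ 3) := by
    have : (a * b) ^ 3 = (a * b)⁻¹ := eq_inv_of_mul_eq_one_left (by rw [← pow_succ, r4])
    rw [SemiconjBy, this, ← mul_assoc, ha, mul_inv_rev, inv_eq_of_mul_eq_one_right ha, inv_eq_of_mul_eq_one_right hb,
      mul_assoc, ha, one_mul, mul_one]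
  let p : Q → Prop := fun q => ∃ i j k : ℕ, q = (a * b) ^ i * a ^ j * c ^ k
  have pa : ∀ y, p y → p (a * y) := fun y ⟨i, j, k, e⟩ => ⟨3 * i, j + 1, k, by
    rw [e, ← mul_assoc, ← mul_assoc, (s1.pow_right i).eq, pow_mul, pow_succ' a, mul_assoc _ a]⟩
  have pb : ∀ y, p y → p (b * y) := fun y ⟨i, j, k, e⟩ => by
    have := pa _ ⟨i + 1, j, k, rfl⟩
    rwa [pow_succ', mul_assoc, mul_assoc, mul_assoc, ← mul_assoc a a, ha, one_mul, ← mul_assoc _ _ (c ^ k), ← e] at this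
  have pc : ∀ y, p y → p (c * y) := fun y ⟨i, j, k, e⟩ => ⟨i, j, k + 1, by
    rw [e, ← mul_assoc, ← (((c1.mul_left c2).pow_left i).mul_left (c1.pow_left j)).eq, pow_succ', mul_assoc]⟩
  have key : p q := by
    induction hq using closure_induction_left with
    | one => exact ⟨0, 0, 0, by simp⟩
    | mul_left x hx y _ h =>
      rcases hx with rfl | rfl | rfl
      exacts [pa _ h, pb _ h, pc _ h]
    | inv_mul_cancel x hx y _ h =>
      rcases hx with rfl | rfl | rfl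
      exacts [(inv_eq_of_mul_eq_one_right ha).symm ▸ pa _ h, (inv_eq_of_mul_eq_one_right hb).symm ▸ pb _ h,
        (inv_eq_of_mul_eq_one_right hc).symm ▸ pc _ h]
  obtain ⟨i, j, k, e⟩ := key
  exact ⟨i % 4, Nat.mod_lt _ (by norm_num), j % 2, Nat.mod_lt _ two_pos, k % 2, Nat.mod_lt _ two_pos, by
    rw [e, ← pow_eq_pow_mod i r4, ← pow_eq_pow_mod j (by rw [pow_two, ha]), ← pow_eq_pow_mod k (by rw [pow_two, hc])]⟩

theorem a2_cos {P : Type*} [Group P] {D : Subgroup P} {a b c : P} (na : a ∈ normalizer (D : Set P))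
    (nb : b ∈ normalizer (D : Set P)) (nc : c ∈ normalizer (D : Set P)) (ha : a * a ∈ D) (hb : b * b ∈ D)
    (hc : c * c ∈ D) (hac : a * c * (a * c) ∈ D) (hbc : b * c * (b * c) ∈ D)
    (hab : a * b * (a * b) * (a * b * (a * b)) ∈ D) {q : P} (hq : q ∈ D ⊔ closure ({a, b, c} : Set P)) :
    ∃ i < 4, ∃ j < 2, ∃ k < 2, q⁻¹ * ((a * b) ^ i * a ^ j * c ^ k) ∈ D := by
  let N := normalizer (D : Set P)
  have : (D.subgroupOf N).Normal := (normal_subgroupOf_iff_le_normalizer le_normalizer).2 le_rfl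
  let π := QuotientGroup.mk' (D.subgroupOf N)
  have k1 : ∀ x : N, x.1 ∈ D → π x = 1 := fun x h => (QuotientGroup.eq_one_iff x).2 h
  have : D ⊔ closure ({a, b, c} : Set P) ≤
      ((closure ({π ⟨a, na⟩, π ⟨b, nb⟩, π ⟨c, nc⟩} : Set _)).comap π).map N.subtype := by
    refine sup_le (fun d hd => ⟨⟨d, le_normalizer hd⟩, ?_, rfl⟩) ((closure_le _).2 ?_)
    · refine mem_comap.2 ?_
      rw [k1 ⟨d, le_normalizer hd⟩ hd]; exact one_mem _
    · rintro x (rfl | rfl | rfl)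
      exacts [⟨⟨_, na⟩, subset_closure (by simp), rfl⟩, ⟨⟨_, nb⟩, subset_closure (by simp), rfl⟩,
        ⟨⟨_, nc⟩, subset_closure (by simp), rfl⟩]
  obtain ⟨x, hx, rfl⟩ := this hq
  obtain ⟨i, hi, j, hj, k, hk, e⟩ := a2_dih (by rw [← map_mul]; exact k1 _ ha) (by rw [← map_mul]; exact k1 _ hb)
    (by rw [← map_mul]; exact k1 _ hc) (by simp only [← map_mul]; exact k1 _ hac)
    (by simp only [← map_mul]; exact k1 _ hbc) (by simp only [← map_mul]; exact k1 _ hab) hx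
  simp only [← map_mul, ← map_pow] at e
  exact ⟨i, hi, j, hj, k, hk, (QuotientGroup.eq (s := D.subgroupOf N)).1 e⟩

variable {G : Type*} [Group G] {z p : G} {θ : ℕ → G} {μ : centralizer ({z} : Set G) →* MulAut (XV 12)}
  {G' : Type*} [Group G'] {z' p' : G'} {θ' : ℕ → G'} {μ' : centralizer ({z'} : Set G') →* MulAut (XV 12)}

/-- pairs inducing the same automorphism of `E`. -/
def A2F (S : St z p θ μ) (_ : St z' p' θ' μ') : Subgroup (G × G') where
  carrier := {q | q.1 ∈ centralizer ({z} : Set G) ∧ q.2 ∈ centralizer ({z'} : Set G') ∧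
    ∀ t < 8192, ∀ u < 8192, q.1 * θ t * q.1⁻¹ = θ u ↔ q.2 * θ' t * q.2⁻¹ = θ' u}
  mul_mem' := fun {a b} ha hb => ⟨mul_mem ha.1 hb.1, mul_mem ha.2.1 hb.2.1, fun t ht u hu => by
    obtain ⟨c, hc⟩ := S.exists_IR ⟨b.1, hb.1⟩
    obtain ⟨s, hs, e⟩ : ∃ s < 8192, b.1 * θ t * b.1⁻¹ = θ s := by
      rcases S.act _ c hc.1 t ht with e | e
      exacts [⟨_, app_lt' _ _, e⟩, ⟨_, xlt (app_lt' _ _) (by norm_num), e⟩]
    have := ha.2.2 s hs u hu
    rw [← e, ← (hb.2.2 t ht s hs).1 e] at this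
    simpa [mul_assoc] using this⟩
  one_mem' := ⟨one_mem _, one_mem _, fun t ht u hu => by
    simp only [Prod.fst_one, Prod.snd_one, one_mul, inv_one, mul_one]
    exact ⟨fun e => by rw [S.inj t ht u hu e], fun e => by rw [‹St z' p' θ' μ'›.inj t ht u hu e]⟩⟩
  inv_mem' := fun {a} ha => ⟨inv_mem ha.1, inv_mem ha.2.1, fun t ht u hu => by
    have := ha.2.2 u hu t ht
    rw [mul_inv_eq_iff_eq_mul, mul_inv_eq_iff_eq_mul] at this
    simp only [Prod.fst_inv, Prod.snd_inv, inv_inv, mul_assoc, inv_mul_eq_iff_eq_mul]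
    exact ⟨fun e => (this.1 e.symm).symm, fun e => (this.2 e.symm).symm⟩⟩

section
variable (S : St z p θ μ) (S' : St z' p' θ' μ')

theorem A2F.swap {g : G} {g' : G'} (h : (g, g') ∈ A2F S S') : (g', g) ∈ A2F S' S :=
  ⟨h.2.1, h.1, fun t ht u hu => (h.2.2 t ht u hu).symm⟩

theorem A2F.of {g : G} {g' : G'} (h : g ∈ centralizer ({z} : Set G)) (h' : g' ∈ centralizer ({z'} : Set G'))
    (e : ∀ t < 8192, ∃ u < 8192, g * θ t * g⁻¹ = θ u ∧ g' * θ' t * g'⁻¹ = θ' u) : (g, g') ∈ A2F S S' :=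
  ⟨h, h', fun t ht u hu => by
    obtain ⟨v, hv, e1, e2⟩ := e t ht
    show g * θ t * g⁻¹ = θ u ↔ g' * θ' t * g'⁻¹ = θ' u
    rw [e1, e2]
    exact ⟨fun e => by rw [S.inj v hv u hu e], fun e => by rw [S'.inj v hv u hu e]⟩⟩

theorem A2F.th {t : ℕ} (ht : t < 8192) : (θ t, θ' t) ∈ A2F S S' :=
  A2F.of S S' (S.θH ht) (S'.θH ht) fun u hu =>
    ⟨_, xlt hu (sh_lt (bf_lt _ _)), S.toFr.conjE ht hu, S'.toFr.conjE ht hu⟩

theorem A2F.c : ((1 : G), z') ∈ A2F S S' :=
  A2F.of S S' (one_mem _) S'.zH fun u hu => ⟨u, hu, by simp, by rw [← (S'.toFr.cz hu).eq]; simp⟩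

variable [Finite G] [Finite G']

theorem A2F.KR {c : ℕ} {g : G} {g' : G'} (h : KR p μ c g) (h' : KR p' μ' c g') : (g, g') ∈ A2F S S' :=
  A2F.of S S' h.1 h'.1 fun _ hu => ⟨_, kact_lt _ _, S.KR_act h hu, S'.KR_act h' hu⟩

omit [Finite G] in
theorem A2F.ker {g' : G'} (h : ((1 : G), g') ∈ A2F S S') : g' = 1 ∨ g' = z' :=
  S'.eq_of_cent fun t ht => (h.2.2 t ht t ht).1 (by simp)

theorem A2F.surj {g : G} (h : g ∈ centralizer ({z} : Set G)) : ∃ g', (g, g') ∈ A2F S S' := by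
  obtain ⟨t, ht, k, hk, -, e⟩ := S.decomp ⟨g, h⟩
  obtain ⟨c, hc⟩ := S.exists_IR k
  obtain ⟨k', hk', e'⟩ := S'.frat _ (S.μ_mem k)
  refine ⟨θ' t * k', ?_⟩
  rw [show g = θ t * k from e]
  exact mul_mem (A2F.th S S' ht) (A2F.KR S S' ⟨k.2, hk, hc⟩ ⟨k'.2, hk', e' ▸ hc⟩)
end

/-- `y = actE e · act w` is conjugate to `actE e0` (with `θ e0` an involution), and `z ∉ [V, y]`. -/
noncomputable def a2chk (w : List ℕ) (e e0 : ℕ) (u : List ℕ) : Bool :=
  force (mulM (actE e) (evalW mulM (invN 11) one11 (LV 3) w)) fun y =>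
  force (evalW mulM (invN 11) one11 [cD, cK 3, cP, cY] u) fun U =>
    band (band (band (Nat.blt e 4096) (Nat.blt e0 4096)) (Nat.beq (bt e0 e0) 0))
      (band (Nat.beq (mulM U (actE e0)) (mulM y U)) (allLt 32 fun a => allLt 64 fun b =>
        force (Nat.add (Nat.mul 64 a) b) fun v => not (Nat.beq (Nat.xor (app y v) v) 64)))

variable [Finite G] {x : ℕ → G} {ν : XV 11 →* G} [Finite G'] {x' : ℕ → G'} {ν' : XV 11 →* G'}

theorem Bt.a2_sq (B : Bt z p θ μ x ν 3) (hy : ∃ y, VR ν cY y) {w u : List ℕ} {e e0 : ℕ} (h : a2chk w e e0 u = true) :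
    ∃ v : XV 11, θ e * wordG x w * (θ e * wordG x w) =
      ν (XV.mk' 11 (app (mulM (actE e) (evalW mulM (invN 11) one11 (LV 3) w)) v.val) * v) := by
  simp only [a2chk, force_eq, band_eq, Bool.and_eq_true, nblt, nbeq] at h
  obtain ⟨⟨⟨he, he0⟩, hq⟩, hU, -⟩ := h
  have hg := isGrp_VR.mul (B.VR_E he) (isGrp_VR.evalW B.hv w)
  generalize θ e * wordG x w = g at *
  obtain ⟨y, hy⟩ := hy
  obtain ⟨n, -, hn⟩ := (isGrp_VR (ν := ν)).evalW_mem (K := ⊤) (L := [cD, cK 3, cP, cY]) (fun c hc => by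
    simp only [List.mem_cons, List.not_mem_nil, or_false] at hc
    rcases hc with rfl | rfl | rfl | rfl
    exacts [⟨_, mem_top _, B.hv 0⟩, ⟨_, mem_top _, B.hv 1⟩, ⟨_, mem_top _, B.hv 2⟩, ⟨_, mem_top _, hy⟩]) u
  obtain ⟨v, hv⟩ := B.mem_of_VR (isGrp_VR.mul hg hn) (hU ▸ isGrp_VR.mul hn (B.VR_E he0))
  obtain ⟨v1, hv1⟩ := (mem_normalizer_iff.1 hn.norm _).1 ⟨v, rfl⟩
  have h1 : θ e0 * θ e0 = 1 := by rw [B.toFr.sq (by omega), hq, pow_zero]
  have h2 : g = n * θ e0 * n⁻¹ * ν v1 := by rw [hv1, hv]; group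
  have h3 := hg.act v1.lt
  have h4 : ν v1 * ν v1 = 1 := by rw [← map_mul, ← pow_two, XV.sq, map_one]
  refine ⟨v1, ?_⟩
  rw [map_mul, ← h3, XV.mk'_self, h2]
  have h5 : (θ e0)⁻¹ = θ e0 := inv_eq_of_mul_eq_one_right h1
  simp only [mul_inv_rev, inv_inv, h5, mul_assoc, mul_inv_cancel_left]

theorem a2_δ (B : Bt z p θ μ x ν 3) (B' : Bt z' p' θ' μ' x' ν' 3) (a : XV 11) : (ν a, ν' a) ∈ A2F B.toSt B'.toSt := by
  rw [B.hν, B'.hν]
  exact mul_mem (A2F.th _ _ (ut_lt _)) (A2F.KR _ _ (KR_rho B.hx _) (KR_rho B'.hx _))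

theorem a2_word (B : Bt z p θ μ x ν 3) (B' : Bt z' p' θ' μ' x' ν' 3) (w : List ℕ) :
    (wordG x w, wordG x' w) ∈ A2F B.toSt B'.toSt :=
  A2F.KR _ _ (isGrp_KR.evalW B.hx w) (isGrp_KR.evalW B'.hx w)

theorem a2_sq (B : Bt z p θ μ x ν 3) (B' : Bt z' p' θ' μ' x' ν' 3) (hy : ∃ y, VR ν cY y) (hy' : ∃ y, VR ν' cY y)
    {w u : List ℕ} {e e0 : ℕ} (h : a2chk w e e0 u = true) :
    e < 8192 ∧ ∃ a, θ e * wordG x w * (θ e * wordG x w) = ν a ∧ θ' e * wordG x' w * (θ' e * wordG x' w) = ν' a := by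
  obtain ⟨v, hv⟩ := B.a2_sq hy h
  obtain ⟨v', hv'⟩ := B'.a2_sq hy' h
  simp only [a2chk, force_eq, band_eq, Bool.and_eq_true, nblt, nbeq, allLt_iff] at h
  obtain ⟨⟨⟨he, -⟩, -⟩, -, hn⟩ := h
  obtain ⟨A, hA, -⟩ := isGrp_VR.mul (B.VR_E he) (isGrp_VR.evalW B.hv w)
  generalize mulM (actE e) _ = y at *
  have he' : e < 8192 := by omega
  have h1 := mul_mem (A2F.th B.toSt B'.toSt he') (a2_word B B' w)
  have h2 := mul_mem (inv_mem (a2_δ B B' (XV.mk' 11 (app y v.val) * v))) (mul_mem h1 h1)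
  simp only [Prod.mk_mul_mk, Prod.inv_mk, hv, hv', inv_mul_cancel] at h2
  refine ⟨he', _, hv, ?_⟩
  rcases A2F.ker _ _ h2 with h3 | h3
  · rw [hv', ← inv_mul_eq_one.1 h3]
  · rw [← B'.νz, ← map_inv, ← map_mul] at h3
    have h4 := congrArg XV.val (B'.injν h3)
    have l : (v * v').val < 2048 := (v * v').lt
    have h5 := hn ((v * v').val / 64) (by omega) ((v * v').val % 64) (by omega)
    rw [show Nat.add (Nat.mul 64 ((v * v').val / 64)) ((v * v').val % 64) = (v * v').val from Nat.div_add_mod _ 64] at h5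
    simp only [XV.inv_eq, XV.mul_val, XV.mk'_val (hA.app_lt v.lt), XV.mk'_val (hA.app_lt v'.lt),
      XV.mk'_val (show 64 < 2 ^ 11 by norm_num)] at h4
    rw [Bool.not_eq_true', ← Bool.not_eq_true, nbeq, XV.mul_val, app_xor] at h5
    refine (h5 (Eq.trans ?_ h4)).elim
    show app y v.val ^^^ app y v'.val ^^^ (v.val ^^^ v'.val) = _
    ac_rfl

def a2wa : List ℕ := [2, 2, 2, 4]
def a2wb : List ℕ := [2, 0, 0, 2, 2, 2, 2, 4, 2, 0]
def a2wc : List ℕ := [2, 0, 4, 12, 2, 2, 0, 2, 0, 2, 0, 0]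

theorem a2_V (B : Bt z p θ μ x ν 3) (B' : Bt z' p' θ' μ' x' ν' 3) (hy : ∃ y, VR ν cY y) (hy' : ∃ y, VR ν' cY y) :
    ∃ V : A2F B.toSt B'.toSt →* ℤˣ, V ⟨_, A2F.c _ _⟩ = -1 ∧ ∀ t (ht : t < 8192), V ⟨_, A2F.th _ _ ht⟩ = 1 := by
  have S := B.toSt
  have S' := B'.toSt
  let F := A2F B.toSt B'.toSt
  let D : Subgroup F :=
    { carrier := {q | ∃ t < 8192, q.1 = (θ t, θ' t)}
      mul_mem' := fun {a b} ⟨t, ht, e⟩ ⟨u, hu, e'⟩ => ⟨_, emul_lt ht hu, by
        rw [coe_mul, e, e', Prod.mk_mul_mk, S.mul t ht u hu, S'.mul t ht u hu]⟩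
      one_mem' := ⟨0, by norm_num, by rw [S.toFr.θ0, S'.toFr.θ0]; rfl⟩
      inv_mem' := fun {a} ⟨t, ht, e⟩ => ⟨_, einv_lt ht, by
        rw [coe_inv, e, Prod.inv_mk, S.toFr.inv ht, S'.toFr.inv ht]⟩ }
  have hD : ∀ q : F, q ∈ D ↔ ∃ t < 8192, q.1 = (θ t, θ' t) := fun _ => Iff.rfl
  have hn : D.Normal := ⟨fun d ⟨t, ht, e⟩ g => by
    obtain ⟨s, hs, e'⟩ := (S.core _).1 (S.le.conj_mem (mem_centralizer_singleton_iff.1 g.2.1) (S.θE ht))
    refine ⟨s, hs, ?_⟩
    rw [coe_mul, coe_mul, coe_inv, e]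
    exact Prod.ext e'.symm ((g.2.2.2 t ht s hs).1 e'.symm)⟩
  let δ : XV 11 →* F := (ν.prod ν').codRestrict F (a2_δ B B')
  have hδ : ∀ a, (δ a).1 = (ν a, ν' a) := fun _ => rfl
  let W : List ℕ → F := fun w => ⟨_, a2_word B B' w⟩
  have hW : ∀ v w, W (v ++ w) = W v * W w := fun v w => Subtype.ext (Prod.ext (wordG_append ..) (wordG_append ..))
  let c : F := ⟨_, A2F.c B.toSt B'.toSt⟩
  let π : F →* MulAut (XV 12) := μ.comp (((MonoidHom.fst G G').comp F.subtype).codRestrict _ fun q => q.2.1)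
  have hπ : ∀ q : F, π q = μ ⟨q.1.1, q.2.1⟩ := fun _ => rfl
  have nW : ∀ w, W w ∈ normalizer ((D ⊔ δ.range : Subgroup F) : Set F) := fun w =>
    normalizer_inf_normalizer_le_normalizer_sup _ _ ⟨by rw [normalizer_eq_top]; trivial,
      mem_normalizer_fintype fun _ ⟨v, e⟩ => ⟨XV.mk' 11 (app (evalW mulM (invN 11) one11 (LV 3) w) v.val), by
        have h1 := (isGrp_VR.evalW B.hv w).act v.lt
        have h2 := (isGrp_VR.evalW B'.hv w).act v.lt
        rw [XV.mk'_self] at h1 h2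
        rw [← e]; exact Subtype.ext (Prod.ext h1.symm h2.symm)⟩⟩
  have sq : ∀ w e e0 u, a2chk w e e0 u = true → W w * W w ∈ D ⊔ δ.range := fun w e e0 u h => by
    obtain ⟨he, a, h1, h2⟩ := a2_sq B B' hy hy' h
    let d : F := ⟨_, A2F.th B.toSt B'.toSt he⟩
    have hd : d ∈ D := ⟨e, he, rfl⟩
    have : d * W w * (d * W w) = δ a := Subtype.ext (Prod.ext h1 h2)
    have h3 : W w * W w = (W w * d⁻¹ * (W w)⁻¹ * d⁻¹) * δ a := by rw [← this]; group
    rw [h3]
    exact mul_mem (mem_sup_left (mul_mem (hn.conj_mem _ (inv_mem hd) _) (inv_mem hd))) (mem_sup_right ⟨a, rfl⟩)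
  have πW : ∀ w, IR (evalW mulM invM one12 LB w) (π (W w)) := fun w => (isGrp_KR.evalW B.hx w).2.2
  have πa : IR cta (π (W a2wa)) := by have := πW a2wa; rwa [show evalW _ _ _ _ _ = cta by decide +kernel] at this
  have πb : IR ctb (π (W a2wb)) := by have := πW a2wb; rwa [show evalW _ _ _ _ _ = ctb by decide +kernel] at this
  have πc : IR ctc (π (W a2wc)) := by have := πW a2wc; rwa [show evalW _ _ _ _ _ = ctc by decide +kernel] at this
  have πD : ∀ d ∈ D, π d = 1 := fun d ⟨t, ht, e⟩ => by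
    rw [hπ, S.ker]; show d.1.1 ∈ _; rw [e]; exact S.θE ht
  have ker : ∀ q, π q = 1 → q ∈ D ∨ q * c ∈ D := fun q h => by
    obtain ⟨t, ht, e⟩ := (S.core _).1 ((S.ker _).1 h)
    have h1 := mul_mem (inv_mem (A2F.th B.toSt B'.toSt ht)) q.2
    have e' : θ t = q.1.1 := e
    rw [show q.1 = (q.1.1, q.1.2) from rfl, Prod.inv_mk, Prod.mk_mul_mk, e', inv_mul_cancel] at h1
    rcases A2F.ker _ _ h1 with h2 | h2
    · exact .inl ⟨t, ht, Prod.ext e'.symm (inv_mul_eq_one.1 h2).symm⟩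
    · refine .inr ⟨t, ht, Prod.ext (by simp [c, e']) ?_⟩
      show q.1.2 * z' = θ' t
      rw [inv_mul_eq_iff_eq_mul.1 h2, mul_assoc, S'.toFr.zz, mul_one]
  have hcc : c * c = 1 := Subtype.ext (Prod.ext (mul_one _) S'.toFr.zz)
  have hz : ∀ q, Commute q c := fun q =>
    Subtype.ext (Prod.ext (Commute.one_right _).eq (mem_centralizer_singleton_iff.1 q.2.2.1))
  obtain ⟨V, h1, h2⟩ := a2_split (C := D ⊔ δ.range ⊔ closure {W a2wa, W a2wb, W a2wc}) (T := Ts.comap π) (D := D)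
    hcc hz (fun hc => by
      obtain ⟨i, hi, j, hj, k, hk, h⟩ := a2_cos (nW _) (nW _) (nW _) (sq _ 4 36 [0, 2, 2, 6] (by decide +kernel))
        (sq _ 19 19 [6] (by decide +kernel)) (sq _ 9 18 [6] (by decide +kernel))
        (hW _ _ ▸ sq _ 45 19 [0, 2, 2, 6] (by decide +kernel)) (hW _ _ ▸ sq _ 1 40 [6] (by decide +kernel))
        (hW _ _ ▸ hW _ _ ▸ sq _ 45 67 [6] (by decide +kernel)) hc
      have h3 : (D ⊔ δ.range).map π ≤ Rs := by
        rw [map_le_iff_le_comap]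
        exact sup_le (fun d hd => mem_comap.2 (πD d hd ▸ one_mem _)) fun _ ⟨a, e⟩ => e ▸ B.μν_mem a
      obtain ⟨n, hn', h4⟩ := listsR _ (h3 ⟨_, h, rfl⟩)
      have h5 := isGrp_IR.mul (isGrp_IR.mul (isGrp_IR.pow (isGrp_IR.mul πa πb) i) (isGrp_IR.pow πa j))
        (isGrp_IR.pow πc k)
      have h6 : π c = 1 := map_one μ
      simp only [map_mul, map_inv, map_pow, h6, inv_one, one_mul] at h4
      have h7 : ∀ i < 4, ∀ j < 2, ∀ k < 2, memL (mulM (mulM (powC mulM one12 (mulM cta ctb) i) (powC mulM one12 cta j))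
        (powC mulM one12 ctc k)) LR = true → i + j + k = 0 := by decide +kernel
      have h8 := h7 i hi j hj k hk (memL_iff.2 (isCanon_IR.canon h4 h5 ▸ hn'))
      obtain ⟨rfl, rfl, rfl⟩ : i = 0 ∧ j = 0 ∧ k = 0 := by omega
      simp only [pow_zero, mul_one] at h
      obtain ⟨d, ⟨t, ht, e⟩, _, ⟨a, rfl⟩, e'⟩ := mem_sup_of_normal_left.1 (inv_mem_iff.1 h)
      have e1 : θ t * ν a = 1 := by have := congrArg (·.1.1) e'; simpa [e, hδ, c] using this
      have e2 : θ' t * ν' a = z' := by have := congrArg (·.1.2) e'; simpa [e, hδ, c] using this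
      have l := B.V_inter_E (v := a) (by rw [eq_inv_of_mul_eq_one_right e1]; exact inv_mem (S.θE ht))
      rw [← XV.mk'_self a, B.νU l, S.mul _ ht _ (ut_lt _), ← S.toFr.θ0] at e1
      rw [← XV.mk'_self a, B'.νU l, S'.mul _ ht _ (ut_lt _), S.inj _ (emul_lt ht (ut_lt _)) _ (by norm_num) e1,
        S'.toFr.θ0] at e2
      exact S'.toFr.z1 e2.symm)
    (fun q hq => by
      have h3 : Ts ≤ (D ⊔ δ.range ⊔ closure {W a2wa, W a2wb, W a2wc}).map π := (closure_le _).2 fun g ⟨n, hn', hg⟩ => by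
        have r : ∀ m < 16, ∀ g, IR (rcode m) g → g ∈ (D ⊔ δ.range ⊔ closure {W a2wa, W a2wb, W a2wc}).map π :=
          fun m hm g hg => ⟨δ (XV.mk' 11 (128 * m)), mem_sup_left (mem_sup_right ⟨_, rfl⟩), by
            have := B.μν (XV.mk' 11 (128 * m))
            rw [XV.mk'_val (by omega), show 128 * m / 128 = m by omega] at this
            exact isCanon_IR.func this hg⟩
        simp only [LTg, List.mem_cons, List.not_mem_nil, or_false] at hn'
        rcases hn' with rfl | rfl | rfl | rfl | rfl | rfl | rfl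
        exacts [⟨_, mem_sup_right (subset_closure (by simp)), isCanon_IR.func πa hg⟩,
          ⟨_, mem_sup_right (subset_closure (by simp)), isCanon_IR.func πb hg⟩,
          ⟨_, mem_sup_right (subset_closure (by simp)), isCanon_IR.func πc hg⟩,
          r 1 (by norm_num) g ((show rcode 1 = cr1 by decide +kernel) ▸ hg),
          r 2 (by norm_num) g ((show rcode 2 = cr2 by decide +kernel) ▸ hg),
          r 4 (by norm_num) g ((show rcode 4 = cr3 by decide +kernel) ▸ hg),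
          r 8 (by norm_num) g ((show rcode 8 = cr4 by decide +kernel) ▸ hg)]
      obtain ⟨γ, hγ, e⟩ := h3 hq
      rcases ker (γ⁻¹ * q) (by rw [map_mul, map_inv, e, inv_mul_cancel]) with h | h
      · exact .inl ((mul_mem_cancel_left (inv_mem hγ)).1 (mem_sup_left (mem_sup_left h)))
      · exact .inr ((mul_mem_cancel_left (inv_mem hγ)).1 (mem_sup_left (mem_sup_left (mul_assoc _ q c ▸ h)))))
    (by
      have h3 : π.range = Xs := le_antisymm (fun _ ⟨q, e⟩ => e ▸ S.μ_mem _) fun g hg => by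
        obtain ⟨h, rfl⟩ := S.range.ge hg
        obtain ⟨g', e⟩ := A2F.surj B.toSt B'.toSt h.2
        exact ⟨⟨_, e⟩, rfl⟩
      have h4 := (Ts.subgroupOf Xs).index_mul_card
      rw [Nat.card_congr (subgroupOfEquivOfLe (Ts_le.trans Bs_le)).toEquiv, card_Ts, S.card_Xs] at h4
      rw [index_comap, h3, relIndex, Nat.eq_of_mul_eq_mul_right (show 0 < 256 by norm_num)
        (h4.trans (show 2661120 = 10395 * 256 by norm_num))]
      exact ⟨5197, by norm_num⟩)
    (le_sup_left.trans le_sup_left)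
  exact ⟨V, h1, fun t ht => h2 _ ⟨t, ht, rfl⟩⟩

theorem a2 (B : Bt z p θ μ x ν 3) (B' : Bt z' p' θ' μ' x' ν' 3) (hy : ∃ y, VR ν cY y) (hy' : ∃ y, VR ν' cY y) :
    ∃ φ : centralizer ({z} : Set G) ≃* centralizer ({z'} : Set G'), ∀ a, (φ ⟨ν a, B.νH a⟩ : G') = ν' a := by
  have S := B.toSt
  have S' := B'.toSt
  obtain ⟨V, hc, hθ⟩ := a2_V B B' hy hy'
  let F := A2F B.toSt B'.toSt
  let δ : XV 11 →* F := (ν.prod ν').codRestrict F (a2_δ B B')
  let χ := V.comp δ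
  have u2 : ∀ s : ℤˣ, s * s = 1 := Int.units_mul_self
  have χU : ∀ a < 128, χ (XV.mk' 11 a) = 1 := fun a ha =>
    (congrArg V (Subtype.ext (Prod.ext (B.νU ha) (B'.νU ha)))).trans (hθ _ (ut_lt a))
  have χD : ∀ a < 2048, χ (XV.mk' 11 (app cD a)) = χ (XV.mk' 11 a) := fun a ha => by
    let k : F := ⟨_, A2F.KR B.toSt B'.toSt (B.hx 0) (B'.hx 0)⟩
    have : δ (XV.mk' 11 (app cD a)) = k * δ (XV.mk' 11 a) * k⁻¹ :=
      Subtype.ext (Prod.ext ((B.hv 0).act ha).symm ((B'.hv 0).act ha).symm)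
    show V _ = V _
    rw [this, map_mul, map_mul, map_inv, mul_right_comm, mul_inv_cancel, one_mul]
  have χx : ∀ a < 2 ^ 11, ∀ b < 2 ^ 11, χ (XV.mk' 11 (a ^^^ b)) = χ (XV.mk' 11 a) * χ (XV.mk' 11 b) :=
    fun a ha b hb => by rw [mk'_xor ha hb, map_mul]
  have k1 := χD 128 (by norm_num); have k2 := χD 256 (by norm_num); have k3 := χD 512 (by norm_num)
  have k4 := χD 1024 (by norm_num)
  rw [show app cD 128 = 256 by decide +kernel] at k1
  rw [show app cD 256 = 512 by decide +kernel, k1] at k2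
  rw [show app cD 512 = 1024 by decide +kernel, k2] at k3
  rw [show app cD 1024 = 128 ^^^ 256 ^^^ (512 ^^^ 1024) by decide +kernel, χx _ (by decide) _ (by decide),
    χx _ (by decide) _ (by decide), χx _ (by decide) _ (by decide), k1, k2, k3, u2] at k4
  have hχ : ∀ a, V (δ a) = 1 := fun a => by
    have := xind (n := 11) (P := fun a => χ (XV.mk' 11 a) = 1) (χU 0 (by norm_num)) (fun i hi => by
      by_cases h : i < 7
      · exact χU _ (Nat.pow_lt_pow_right (n := 7) one_lt_two h)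
      · have : i = 7 ∨ i = 8 ∨ i = 9 ∨ i = 10 := by omega
        rcases this with rfl | rfl | rfl | rfl
        exacts [k4.symm, k1.trans k4.symm, k2.trans k4.symm, k3.trans k4.symm])
      (fun a ha b hb h h' => by simp only [χx a ha b hb, h, h', mul_one]) a.val a.lt
    rwa [XV.mk'_self] at this
  let e1 : V.ker →* centralizer ({z} : Set G) :=
    (((MonoidHom.fst G G').comp F.subtype).codRestrict _ fun q => q.2.1).comp V.ker.subtype
  let e2 : V.ker →* centralizer ({z'} : Set G') :=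
    (((MonoidHom.snd G G').comp F.subtype).codRestrict _ fun q => q.2.2.1).comp V.ker.subtype
  let c : F := ⟨_, A2F.c B.toSt B'.toSt⟩
  let c' : F := ⟨_, A2F.swap _ _ (A2F.c B'.toSt B.toSt)⟩
  have hc' : V c' = -1 := by
    have : c' = ⟨_, A2F.th B.toSt B'.toSt (show 4096 < 8192 by norm_num)⟩ * c :=
      Subtype.ext (Prod.ext (by simp [c, c', S.hz]) (by simp [c, c', S'.hz, S'.toFr.zz]))
    rw [this, map_mul, hθ _ (by norm_num), hc, one_mul]
  have b1 : Function.Bijective e1 := ⟨(injective_iff_map_eq_one _).2 fun q h => by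
      have h1 : q.1.1.1 = 1 := congrArg Subtype.val h
      have h2 : (1, q.1.1.2) ∈ F := h1 ▸ q.1.2
      rcases A2F.ker _ _ h2 with h3 | h3
      · exact Subtype.ext (Subtype.ext (Prod.ext h1 h3))
      · have h4 : V q.1 = 1 := q.2
        rw [show q.1 = c from Subtype.ext (Prod.ext h1 h3), hc] at h4
        exact absurd h4 (by decide), fun h => by
      obtain ⟨g', e⟩ := A2F.surj B.toSt B'.toSt h.2
      rcases Int.units_eq_one_or (V ⟨_, e⟩) with h1 | h1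
      · exact ⟨⟨⟨_, e⟩, h1⟩, rfl⟩
      · exact ⟨⟨⟨_, e⟩ * c, by rw [MonoidHom.mem_ker, map_mul, h1, hc]; decide⟩, Subtype.ext (mul_one _)⟩⟩
  have b2 : Function.Bijective e2 := ⟨(injective_iff_map_eq_one _).2 fun q h => by
      have h1 : q.1.1.2 = 1 := congrArg Subtype.val h
      have h2 : (q.1.1.1, 1) ∈ F := h1 ▸ q.1.2
      rcases A2F.ker _ _ (A2F.swap _ _ h2) with h3 | h3
      · exact Subtype.ext (Subtype.ext (Prod.ext h3 h1))
      · have h4 : V q.1 = 1 := q.2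
        rw [show q.1 = c' from Subtype.ext (Prod.ext h3 h1), hc'] at h4
        exact absurd h4 (by decide), fun h => by
      obtain ⟨g', e⟩ := A2F.surj B'.toSt B.toSt h.2
      have e := A2F.swap _ _ e
      rcases Int.units_eq_one_or (V ⟨_, e⟩) with h1 | h1
      · exact ⟨⟨⟨_, e⟩, h1⟩, rfl⟩
      · exact ⟨⟨⟨_, e⟩ * c', by rw [MonoidHom.mem_ker, map_mul, h1, hc']; decide⟩, Subtype.ext (mul_one _)⟩⟩
  refine ⟨(MulEquiv.ofBijective e1 b1).symm.trans (MulEquiv.ofBijective e2 b2), fun a => ?_⟩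
  have : (⟨ν a, B.νH a⟩ : centralizer ({z} : Set G)) = MulEquiv.ofBijective e1 b1 ⟨δ a, hχ a⟩ := rfl
  rw [this, MulEquiv.trans_apply, MulEquiv.symm_apply_apply]; rfl

end Cfsg.Agent.J4T
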