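import Cfsg.Agent.J4T.XsF

/-! `St.uniq`: an elementary abelian subgroup of order `≥ 2^11` of `C(z)` with image in `Ts` has image in `Rs` and
centralises `U`. -/

set_option autoImplicit false

namespace Cfsg.Agent.J4T
open Cfsg.Agent.Comp Subgroup

namespace B2
def rangeL (n : ℕ) : List ℕ := Nat.rec (motive := fun _ => List ℕ) [] (fun i ih => i :: ih) n
theorem mem_rangeL {n a : ℕ} (h : a < n) : a ∈ rangeL n := by
  induction n with
  | zero => omega
  | succ n ih =>
    show a ∈ n :: rangeL n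
    rcases (Nat.lt_succ_iff.1 h).eq_or_lt with h | h
    · exact h ▸ List.mem_cons_self
    · exact List.mem_cons_of_mem _ (ih h)
def SL : List ℕ := filterL (fun v => Nat.beq (bt v v) 0) (rangeL 4096)
def fxL (c : ℕ) (l : List ℕ) : List ℕ := filterL (fun v => Nat.beq (app c v) v) l
def LI : List ℕ := filterL (fun c => Nat.beq (mulM c c) one12) LT
def chk (S I : List ℕ) (a : ℕ) : Bool := forceL (fxL a S) fun Fa => forceL (filterL (commC mulM a) I) fun C =>
  forceL (mapL (fun b => countL (fun v => Nat.beq (app b v) v) Fa) C) fun f =>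
    band (Nat.blt (lenL f) 64) (band (Nat.blt (countL (Nat.ble 32) f) 32) (Nat.blt (countL (Nat.ble 64) f) 16))

theorem chk_ok : forceL SL (fun S => forceL LI fun I => allL I fun a => bor (memL a LR) (chk S I a)) = true := by
  decide +kernel
theorem ut_mod : ∀ u < 128, ut u % 4096 = ut (u % 64) % 4096 := by decide +kernel
end B2
open B2

variable {G : Type*} [Group G] [Finite G] {z p : G} {θ : ℕ → G} {μ : centralizer ({z} : Set G) →* MulAut (XV 12)}

theorem St.uniq' (S : St z p θ μ) {A : Subgroup G} (hA : A ≤ centralizer {z}) (hz : z ∈ A) (h2 : ∀ a ∈ A, a * a = 1)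
    (hc : 2 ^ 11 ≤ Nat.card A) (hT : ∀ a : centralizer ({z} : Set G), a.1 ∈ A → μ a ∈ Ts) :
    (∀ a : centralizer ({z} : Set G), a.1 ∈ A → μ a ∈ Rs) ∧ ∀ u < 128, θ (ut u) ∈ A := by
  have F := S.toFr
  have hab : ∀ a ∈ A, ∀ b ∈ A, a * b = b * a := fun a ha b hb => by
    have s : ∀ x ∈ A, x⁻¹ = x := fun x hx => inv_eq_of_mul_eq_one_right (h2 x hx)
    rw [← s _ (mul_mem ha hb), mul_inv_rev, s a ha, s b hb]
  have hmod : ∀ x < 8192, θ x ∈ A ↔ θ (x % 4096) ∈ A := fun x hx => by
    rcases split_z hx with h | ⟨v, h, rfl⟩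
    · rw [Nat.mod_eq_of_lt h]
    · rw [F.θz (by omega), mul_mem_cancel_right hz, show 4096 = 2 ^ 12 from rfl, Nat.xor_mod_two_pow,
        Nat.mod_self, Nat.xor_zero, Nat.mod_eq_of_lt h]
  set B := A ⊓ twoCoreOfCentralizer z with hB
  have cnt : ∀ l : List ℕ, (∀ v < 4096, θ v ∈ A → v ∈ l) → Nat.card B ≤ 2 * l.length := fun l hl => by
    have := ncard_le_length_of_func (R := fun c g => g = θ c) (l := l ++ l.map (· + 4096)) (S := (B : Set G))
      (fun _ _ _ a b => a.trans b.symm) fun g hg => by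
        obtain ⟨x, hx, rfl⟩ := (S.core _).1 hg.2
        have h1 := hl _ (Nat.mod_lt x (by norm_num)) ((hmod x hx).1 hg.1)
        refine ⟨x, ?_, rfl⟩
        rw [List.mem_append, List.mem_map]
        by_cases h : x < 4096
        · left; rwa [Nat.mod_eq_of_lt h] at h1
        · exact .inr ⟨_, h1, by omega⟩
    rw [List.length_append, List.length_map, ← two_mul] at this
    exact this
  have hsing : ∀ v < 4096, θ v ∈ A → v ∈ SL := fun v hv h => by
    rw [SL, filterL_eq, List.mem_filter, nbeq]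
    refine ⟨mem_rangeL hv, ?_⟩
    have h1 := h2 _ h
    rw [F.sq (by omega)] at h1
    have := bt_lt v v
    generalize bt v v = b at *
    interval_cases b
    · rfl
    · exact absurd (by simpa using h1) F.z1
  have hfix : ∀ (a : centralizer ({z} : Set G)) (c : ℕ), a.1 ∈ A → IR c (μ a) → ∀ v < 4096, θ v ∈ A → app c v = v :=
    fun a c ha hc v hv h => by
      obtain ⟨b, hb, e⟩ := S.act' a hc.1 (show v < 8192 by omega)
      have e' : a.1 * θ v * a.1⁻¹ = θ (app c v) * z ^ b := e
      rw [hab _ ha _ h, mul_inv_cancel_right] at e'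
      exact (F.cancel (app_lt _ _) hv hb two_pos (by rw [← e', pow_zero, mul_one])).1
  set Ab := (A.subgroupOf (centralizer {z})).map μ with hAb
  have hcard : Nat.card A = Nat.card Ab * Nat.card B := by
    have h1 := card_ker_mul (μ.domRestrict (A.subgroupOf (centralizer {z})))
    rw [MonoidHom.domRestrict_range, Nat.card_congr (subgroupOfEquivOfLe hA).toEquiv] at h1
    rw [← h1]
    congr 1
    refine Nat.card_congr ⟨fun x => ⟨x.1.1.1, x.1.2, (S.ker _).1 x.2⟩, fun x => ⟨⟨⟨x.1, hA x.2.1⟩, x.2.1⟩, (S.ker _).2 x.2.2⟩,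
      fun _ => rfl, fun _ => rfl⟩
  obtain ⟨k, -, hk⟩ := (Nat.dvd_prime_pow Nat.prime_two).1
    (show Nat.card B ∣ 2 ^ 13 from (card_dvd_of_le inf_le_right).trans (by rw [S.card_E]; norm_num))
  have hk7 : k ≤ 7 := by
    have h1 := S.es.card_cent (A := B) inf_le_right ⟨hz, S.es.zQ⟩
    have h3 : Nat.card B ≤ Nat.card (twoCoreOfCentralizer z ⊓ centralizer (B : Set G) : Subgroup G) :=
      card_le_of_le (le_inf inf_le_right fun a ha b hb => hab b hb.1 a ha.1)
    have h4 := Nat.mul_le_mul_left (Nat.card B) h3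
    rw [h1, S.card_E, hk, ← pow_add] at h4
    have := (Nat.pow_le_pow_iff_right one_lt_two).1 (h4.trans_eq (show _ = 2 ^ 14 by norm_num))
    omega
  rw [hcard, hk] at hc
  have hR : ∀ a : centralizer ({z} : Set G), a.1 ∈ A → μ a ∈ Rs := fun a ha => by
    have hI : ∀ (b : centralizer ({z} : Set G)), b.1 ∈ A → ∃ c ∈ LI, IR c (μ b) := fun b hb => by
      obtain ⟨c, h1, h3⟩ := listsT _ (hT b hb)
      refine ⟨c, ?_, h3⟩
      rw [LI, filterL_eq, List.mem_filter, nbeq]
      refine ⟨h1, isCanon_IR.canon (isGrp_IR.mul h3 h3) ?_⟩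
      rw [← map_mul, show b * b = 1 from Subtype.ext (h2 _ hb), map_one]
      exact isGrp_IR.one
    obtain ⟨c, hcI, hc'⟩ := hI a ha
    have h1 := chk_ok
    simp only [forceL_eq] at h1
    have h3 := allL_iff.1 h1 c hcI
    rw [bor_eq, Bool.or_eq_true, memL_iff] at h3
    rcases h3 with h3 | h3
    · obtain ⟨g, hg, h4⟩ := codesR c h3
      exact isCanon_IR.func h4 hc' ▸ hg
    exfalso
    simp only [chk, forceL_eq, band_eq, Bool.and_eq_true, nblt, lenL_eq, mapL_eq, List.length_map, countL_eq,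
      List.countP_map] at h3
    have key : ∀ w, 2 * w ≤ 2 ^ k → Nat.card Ab ≤ List.countP (Nat.ble w ∘ fun b =>
        List.countP (fun v => Nat.beq (app b v) v) (fxL c SL)) (filterL (commC mulM c) LI) := fun w hw => by
      rw [List.countP_eq_length_filter]
      refine ncard_le_length_of_func (R := IR) (S := (Ab : Set _)) isCanon_IR.func ?_
      rintro _ ⟨b, hb, rfl⟩
      obtain ⟨d, hdI, hd⟩ := hI b hb
      refine ⟨d, ?_, hd⟩
      rw [List.mem_filter, filterL_eq, List.mem_filter, ← commC_iff isGrp_IR isCanon_IR hc' hd, ← map_mul, ← map_mul,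
        Function.comp_apply, nble, List.countP_eq_length_filter]
      refine ⟨⟨hdI, congrArg μ (Subtype.ext (hab _ ha _ hb))⟩, ?_⟩
      have := cnt ((fxL c SL).filter fun v => Nat.beq (app d v) v) fun v hv h => by
        rw [List.mem_filter, fxL, filterL_eq, List.mem_filter, nbeq, nbeq]
        exact ⟨⟨hsing v hv h, hfix a c ha hc' v hv h⟩, hfix b d hb hd v hv h⟩
      omega
    have h4 := (key 0 (Nat.zero_le _)).trans List.countP_le_length
    obtain ⟨h5, h6, h7⟩ := h3
    by_cases hk5 : k ≤ 5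
    · have := Nat.mul_le_mul (h4.trans_lt h5).le (Nat.pow_le_pow_right two_pos hk5)
      have h8 := Nat.mul_le_mul (Nat.le_sub_one_of_lt (h4.trans_lt h5)) (Nat.pow_le_pow_right two_pos hk5)
      omega
    have : k = 6 ∨ k = 7 := by omega
    rcases this with rfl | rfl
    · have := key 32 (by norm_num); omega
    · have := key 64 (by norm_num); omega
  refine ⟨hR, fun u hu => ?_⟩
  have hle : Ab ≤ Rs := by rintro _ ⟨b, hb, rfl⟩; exact hR b hb
  have h16 := card_le_of_le hle
  rw [card_Rs] at h16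
  have hk' : k = 7 := by
    by_contra h
    have := Nat.mul_le_mul h16 (Nat.pow_le_pow_right two_pos (show k ≤ 6 by omega))
    omega
  subst hk'
  have hE : Ab = Rs := eq_of_le_of_card_ge hle (by rw [card_Rs]; omega)
  by_contra hn
  have := cnt (((List.range 64).erase (u % 64)).map fun a => ut a % 4096) fun v hv h => by
    have h1 : inU v = true := allL_iff.2 fun c hc => nbeq.2 (by
      obtain ⟨g, hg, h3⟩ := codesRg c hc
      obtain ⟨b, hb, rfl⟩ := hE ▸ hg
      exact hfix b c hb h3 v hv h)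
    have h3 := ut_of_inU v hv h1
    refine List.mem_map.2 ⟨_, (List.mem_erase_of_ne fun e => hn ?_).2 (List.mem_range.2 (ucoord_lt v)), h3⟩
    rwa [hmod _ (ut_lt u), ut_mod u hu, ← e, h3]
  rw [List.length_map, List.length_erase_of_mem (List.mem_range.2 (Nat.mod_lt _ (by norm_num))), List.length_range] at this
  omega

theorem St.uniq (S : St z p θ μ) {A : Subgroup G} (hA : A ≤ centralizer {z}) (h2 : ∀ a ∈ A, a * a = 1)
    (hc : 2 ^ 11 ≤ Nat.card A) (hT : ∀ a : centralizer ({z} : Set G), a.1 ∈ A → μ a ∈ Ts) :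
    ∀ a : centralizer ({z} : Set G), a.1 ∈ A → μ a ∈ Rs ∧ ∀ u < 128, Commute a.1 (θ (uel u)) := by
  have zz := S.toFr.zz
  have cz : ∀ a ∈ A, a * z = z * a := fun a ha => mem_centralizer_singleton_iff.1 (hA ha)
  have cz' : ∀ a, a * z ∈ A → a * z = z * a := fun a ha => by
    have := cz _ ha
    rw [← mul_assoc] at this
    exact mul_right_cancel this
  let A' : Subgroup G :=
    { carrier := {g | g ∈ A ∨ g * z ∈ A}
      one_mem' := .inl A.one_mem
      mul_mem' := by
        rintro a b (ha | ha) (hb | hb)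
        · exact .inl (mul_mem ha hb)
        · exact .inr (by rw [mul_assoc]; exact mul_mem ha hb)
        · exact .inr (by rw [mul_assoc, cz b hb, ← mul_assoc]; exact mul_mem ha hb)
        · refine .inl ?_
          have := mul_mem ha hb
          rwa [cz' b hb, mul_assoc, ← mul_assoc z, zz, one_mul] at this
      inv_mem' := by
        rintro a (ha | ha)
        · exact .inl (inv_mem ha)
        · refine .inr ?_
          have := inv_mem ha
          rwa [cz' a ha, mul_inv_rev, inv_eq_of_mul_eq_one_right zz] at this }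
  have hle : A ≤ A' := fun _ h => .inl h
  have h2' : ∀ a ∈ A', a * a = 1 := by
    rintro a (ha | ha)
    · exact h2 a ha
    · have := h2 _ ha
      rwa [mul_assoc, ← mul_assoc z, ← cz' a ha, mul_assoc a, zz, mul_one] at this
  obtain ⟨h3, h4⟩ := S.uniq' (A := A') (by
      rintro a (ha | ha)
      exacts [hA ha, mem_centralizer_singleton_iff.2 (cz' a ha)]) (.inr (by rw [zz]; exact A.one_mem)) h2'
    (hc.trans (card_le_of_le hle)) (by
      rintro a (ha | ha)
      · exact hT a ha
      · have := hT (a * ⟨z, S.zH⟩) ha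
        rwa [map_mul, (S.ker ⟨z, S.zH⟩).2 S.es.zQ, mul_one] at this)
  refine fun a ha => ⟨h3 a (hle ha), fun u hu => ?_⟩
  have s : ∀ x ∈ A', x⁻¹ = x := fun x hx => inv_eq_of_mul_eq_one_right (h2' x hx)
  rw [← ut_eq u hu, Commute, SemiconjBy, ← s _ (mul_mem (hle ha) (h4 u hu)), mul_inv_rev, s _ (hle ha), s _ (h4 u hu)]

end Cfsg.Agent.J4T
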