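import Cfsg.Agent.J4T.CV
import Cfsg.Agent.Spor.J4F
import Cfsg.Agent.Spor.J4R

/-! `J4` is the universal completion of the amalgam of `2^11:M24` and the involution centraliser (helper23). -/

set_option maxRecDepth 100000

namespace Cfsg.Agent.J4T.C

open Cfsg.Agent.Spor Equiv

section
variable {G : Type} [Group G] (ψ : K →* G) (τ : G)

/-- The diagonal subgroup. -/
noncomputable def Dg : Subgroup (G × Cfsg.Spor.J4) :=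
  Subgroup.closure (Set.range (ψ.prod ι) ∪ {(τ, T)})

noncomputable def ιD : K →* Dg ψ τ := (ψ.prod ι).codRestrict _ fun k => Subgroup.subset_closure (Or.inl ⟨k, rfl⟩)

noncomputable def TD : Dg ψ τ := ⟨(τ, T), Subgroup.subset_closure (Or.inr rfl)⟩

noncomputable def πD : Dg ψ τ →* Cfsg.Spor.J4 := (MonoidHom.snd _ _).comp (Dg ψ τ).subtype

theorem genD (S : Subgroup (Dg ψ τ)) (h : ∀ k, ιD ψ τ k ∈ S) (hT : TD ψ τ ∈ S) : S = ⊤ := by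
  refine eq_top_iff.2 fun g _ => ?_
  have : Dg ψ τ ≤ S.map (Dg ψ τ).subtype := (Subgroup.closure_le _).2 (by
    rintro _ (⟨k, rfl⟩ | rfl)
    exacts [⟨_, h k, rfl⟩, ⟨_, hT, rfl⟩])
  obtain ⟨s, hs, e⟩ := this g.2
  exact Subtype.ext e ▸ hs

theorem relE_D (r : List (List ℕ)) : (Dce.relE (ιD ψ τ) J4L.yK (TD ψ τ) r).1 =
    (Dce.relE ψ J4L.yK τ r, Dce.relE ι J4L.yK T r) := by
  induction r with
  | nil => rfl
  | cons s r ih => rw [Dce.relE, Subgroup.coe_mul, Subgroup.coe_mul, ih]; rfl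

theorem π_ev (w : List ℕ) : πD ψ τ (ev (Dce.gD (ιD ψ τ) J4L.yK (TD ψ τ) 11) w) = ev (Dce.gD ι J4L.yK T 11) w := by
  rw [map_ev]
  refine ev_congr fun x _ => ?_
  unfold Dce.gD
  split_ifs <;> rfl

theorem commD {u v : K} (h : τ * ψ u = ψ v * τ) (h' : T * ι u = ι v * T) :
    TD ψ τ * ιD ψ τ u = ιD ψ τ v * TD ψ τ := Subtype.ext (Prod.ext h h')

theorem TT : T * T = 1 := by
  have := J4G.hTT _ List.mem_cons_self
  rwa [ev_two, Dce.gD_t] at this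

variable {ψ} (φ : H0 →* G) (h : ∀ (b : K) (hb : ι b ∈ H0), φ ⟨ι b, hb⟩ = ψ b)
include h

theorem relE_φ {r : List (List ℕ)} (hr : ∀ s ∈ r, ev J4L.yK s ∈ B0) : ∃ hm : Dce.relE ι J4L.yK T r ∈ H0,
    Dce.relE ψ J4L.yK (φ ⟨T, T_mem⟩) r = φ ⟨_, hm⟩ := by
  induction r with
  | nil => exact ⟨H0.one_mem, φ.map_one.symm⟩
  | cons s r ih =>
    obtain ⟨hm, e⟩ := ih fun s hs => hr s (List.mem_cons_of_mem _ hs)
    have hs := mem_H0.2 (hr s List.mem_cons_self)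
    exact ⟨H0.mul_mem (H0.mul_mem hm T_mem) hs, by rw [Dce.relE, e, ← h _ hs, ← map_mul, ← map_mul]; rfl⟩

theorem lift0 [Finite G] (hm : ∀ w ∈ [[0], [1, 0, 1, 0, 2, 0, 2, 0, 1, 0, 1, 0, 1]], Commute (ψ (ev J4L.yK w)) (φ ⟨T, T_mem⟩)) :
    ∃ j : Cfsg.Spor.J4 →* G, (∀ k, j (ι k) = ψ k) ∧ j T = φ ⟨T, T_mem⟩ := by
  set τ := φ ⟨T, T_mem⟩ with hτ
  have e1 : ev J4L.yK [2, 0, 2, 0, 2, 0, 1, 0, 1, 0, 2, 0, 2] = (ev J4L.yK [1, 0, 1, 0, 2, 0, 2, 0, 1, 0, 1, 0, 1])⁻¹ :=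
    eq_inv_of_mul_eq_one_left (by
      rw [← ev_append]; exact J4L.paK.rels (ws := [_]) (by decide +kernel) _ List.mem_cons_self)
  have b1 : ι (ev J4L.yK [2, 0, 1, 0, 3, 0, 2, 0, 1]) ∈ H0 := mem_H0.2 (mem_B0_ev (by decide +kernel))
  have b2 : ι (ev J4L.yK [1, 0, 1, 0, 1, 0, 2, 0, 1, 0, 1, 0, 2, 0, 1, 0, 1, 0, 1, 0, 2, 0, 1, 0, 2, 0, 1, 0, 2, 0, 1, 0, 1, 0, 1, 0, 2, 0, 2, 0, 1, 0, 1, 0, 1, 0, 1, 0, 1, 0, 2, 0, 1, 0, 1, 0, 1, 0, 2, 0, 2, 0, 3, 0, 1, 0, 1, 0, 2, 0, 2, 0, 2, 0, 1, 0, 2, 0, 2, 0]) ∈ H0 :=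
    mem_H0.2 (mem_B0_ev (by decide +kernel))
  have c3 := commD ψ τ (u := ev J4L.yK [2, 0, 1, 0, 3, 0, 2, 0, 1]) (v := ev J4L.yK [1, 0, 1, 0, 1, 0, 2, 0, 1, 0, 1, 0, 2, 0, 1, 0, 1, 0, 1, 0, 2, 0, 1, 0, 2, 0, 1, 0, 2, 0, 1, 0, 1, 0, 1, 0, 2, 0, 2, 0, 1, 0, 1, 0, 1, 0, 1, 0, 1, 0, 2, 0, 1, 0, 1, 0, 1, 0, 2, 0, 2, 0, 3, 0, 1, 0, 1, 0, 2, 0, 2, 0, 2, 0, 1, 0, 2, 0, 2, 0]) (by
    rw [← h _ b1, ← h _ b2, hτ, ← map_mul, ← map_mul]; exact congrArg φ (Subtype.ext (J4G.cp 3))) (J4G.cp 3)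
  have c2 := commD ψ τ (u := ev J4L.yK [2, 0, 2, 0, 2, 0, 1, 0, 1, 0, 2, 0, 2]) (v := ev J4L.yK [2, 0, 2, 0, 2, 0, 1, 0, 1, 0, 2, 0, 2]) (by
    rw [e1, map_inv]; exact (hm _ (by simp)).inv_left.eq.symm) (J4G.cp 2)
  have c1 := commD ψ τ (u := ev J4L.yK [1, 0, 1, 0, 2, 0, 2, 0, 1, 0, 1, 0, 1]) (v := ev J4L.yK [1, 0, 1, 0, 2, 0, 2, 0, 1, 0, 1, 0, 1])
    (hm _ (by simp)).eq.symm (J4G.cp 1)
  have c0 := commD ψ τ (u := ev J4L.yK [0]) (v := ev J4L.yK [0]) (hm _ (by simp)).eq.symm (J4G.cp 0)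
  have cp := (((Dce.commP_nil.cons c3).cons c2).cons c1).cons c0
  have comm : ∀ x, 0 < Dce.tb J4F.sgc x → TD ψ τ * ιD ψ τ (J4L.yK x) = ιD ψ τ (J4L.yK (Dce.sgm J4F.sgc x)) * TD ψ τ :=
    cp.comm J4L.paK (ws := [[], [], [], [], [0, 1, 0, 1, 1, 0, 1, 0, 1, 1, 0, 2, 0, 2, 0, 2, 0, 1, 1], [1, 1, 0, 1, 0, 1, 0, 1, 0, 1, 1, 0, 2, 0, 1, 1, 0, 2, 0], [2, 0, 2, 0, 1, 0, 1, 0, 1, 1, 0, 2, 0, 2, 0, 1, 0, 1], [0, 2, 0, 2, 0, 1, 1, 0, 1, 1, 0, 1, 1, 0, 1, 0, 1, 0, 1, 0, 2, 0], [0, 1, 0, 2, 0, 2, 0, 2, 0, 1, 1, 0, 1, 1, 0, 1, 1, 0, 1, 0, 1, 0], [1, 0, 2, 0, 1, 1, 0, 2, 3, 0, 2, 0, 3, 1, 1, 0, 3, 2, 0, 1, 0, 1, 0], [], [], [], [], [], [], [], [], [], [], [], [], [], [], [], [], [], [], [], [], [], [], [], [], [], [], [], [], [], [], [], [], [], [], [], [], [], [], [], [], [], [], [], [], [], [], [], [], [], [], [], [], []]) (by decide +kernel)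
  have hr := Dce.hyp_rel (ι := ι) (y := J4L.yK) (T := T) (tl := 11) (rels := J4F.rels) (by decide +kernel)
    (Dce.rel_of_rot (rels_append J4G.hTT J4R.hb) (by decide +kernel))
  have hB : allL J4F.rels (fun r => allL r fun s =>
    andB (allL s fun x => Nat.blt x 4) (Nat.beq (app (lw s) 1) 1)) = true := by decide +kernel
  have hyp : Dce.Hyp (ιD ψ τ) J4L.yK (TD ψ τ) J4H.φ 2048 J4L.actK [0, 1, 2, 3] 11 J4F.ivc J4F.sgc [11] J4F.rels :=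
    ⟨J4L.paK, by decide, Dce.hyp_inv J4L.paK (by decide +kernel), by
      rw [ev_one, Dce.gD_t]
      exact Subtype.ext (Prod.ext (by
        show τ * τ = 1
        rw [hτ, ← map_mul, ← φ.map_one]; exact congrArg φ (Subtype.ext TT)) TT), comm, fun r hr' => by
      obtain ⟨hm, e⟩ := relE_φ φ h fun s hs => mem_B0_ev (allL_spec (allL_spec hB r hr') s hs)
      refine Subtype.ext ((relE_D ψ τ r).trans (Prod.ext ?_ (hr r hr')))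
      exact e.trans ((congrArg φ (Subtype.ext (hr r hr'))).trans φ.map_one)⟩
  have cert : Dce.Cert (ιD ψ τ) J4L.yK (TD ψ τ) 11 J4F.subs J4F.tab.at J4G.ψ 15180 0 J4F.sz.length J4F.nm J4F.sz :=
    hyp.cert J4F.steps J4G.rψ (by decide) (by decide)
      (fun k hk => Dce.hC_of_comm comm (xs := [4, 5, 6, 7, 8, 9]) (by decide +kernel)
        ((genW_sing _ _).le ((J4G.stabC k).2 hk))) (by decide) rfl (by decide) J4F.tree J4F.rows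
  have hp : ∀ i < 7, Dce.pw J4F.tab.at (getL J4F.nm 0 i) = Dce.pw J4D.tab.at (getL J4D.nm 0 i) := by decide +kernel
  have hs : ∀ w ∈ J4F.subs, ∀ x ∈ w, x ≠ 11 := by decide
  have o := (cert.orbs (genD ψ τ) (ιD ψ τ).range (fun k => ⟨k, rfl⟩) (fun w hw => ⟨_, (Dce.ev_gD (hs w hw)).symm⟩)
    (smul_basePt_eq_iff _) (fun x => QuotientGroup.induction_on x fun g => ⟨g, congrArg _ (mul_one g)⟩) (by
      rintro i hi j hj k _ ⟨k', rfl⟩ e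
      have e' := congrArg (πD ψ τ) e
      rw [map_mul, map_mul, π_ev, π_ev, hp i hi, hp j hj] at e'
      refine J4G.main0.1.dis i hi j hj _ ⟨k, ?_⟩ (Dce.O_self _ _)
      simp only [Dce.P]
      rw [← e', mul_smul, mul_smul, (smul_basePt_eq_iff _ _).2 (show πD ψ τ (ιD ψ τ k') ∈ ι.range from ⟨k', rfl⟩)]
      rfl)).1
  have hs : Function.Surjective (πD ψ τ) :=
    MonoidHom.range_eq_top.1 (J4G.gen _ (fun k => ⟨ιD ψ τ k, rfl⟩) ⟨TD ψ τ, rfl⟩)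
  have hb := hs.bijective_of_nat_card_le (by
    rw [← (ιD ψ τ).range.card_mul_index, o.index, J4G.main.2.2.2.2.1]
    exact Nat.mul_le_mul ((cardLe_range _ J4H.card (by decide)).2) (by decide))
  let e := MulEquiv.ofBijective _ hb
  refine ⟨((MonoidHom.fst _ _).comp (Dg ψ τ).subtype).comp e.symm.toMonoidHom, fun k => ?_, ?_⟩
  · show ((e.symm (e (ιD ψ τ k)) : Dg ψ τ) : G × Cfsg.Spor.J4).1 = _
    rw [e.symm_apply_apply]; rfl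
  · show ((e.symm (e (TD ψ τ)) : Dg ψ τ) : G × Cfsg.Spor.J4).1 = _
    rw [e.symm_apply_apply]; rfl

end

theorem lift {G : Type*} [Group G] [Finite G] (ψ : K →* G) (φ : H0 →* G)
    (h : ∀ (b : K) (hb : ι b ∈ H0), φ ⟨ι b, hb⟩ = ψ b)
    (hm : ∀ w ∈ [[0], [1, 0, 1, 0, 2, 0, 2, 0, 1, 0, 1, 0, 1]], Commute (ψ (ev J4L.yK w)) (φ ⟨T, T_mem⟩)) :
    ∃ j : Cfsg.Spor.J4 →* G, (∀ k, j (ι k) = ψ k) ∧ j T = φ ⟨T, T_mem⟩ := by
  let e : Shrink.{0} G ≃* G := Shrink.mulEquiv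
  have : Finite (Shrink.{0} G) := Finite.of_equiv _ e.symm.toEquiv
  obtain ⟨j, h1, h2⟩ := lift0 (ψ := e.symm.toMonoidHom.comp ψ) (e.symm.toMonoidHom.comp φ)
    (fun b hb => congrArg e.symm (h b hb)) fun w hw => (hm w hw).map e.symm
  exact ⟨e.toMonoidHom.comp j, fun k => (congrArg e (h1 k)).trans (e.apply_symm_apply _),
    (congrArg e h2).trans (e.apply_symm_apply _)⟩

end Cfsg.Agent.J4T.C
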