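import Cfsg.Agent.J4T.C2

/-! Rigidity of `T` (helper23). -/

set_option maxRecDepth 100000

namespace Cfsg.Agent.J4T.C

open Cfsg.Agent.Spor Equiv

theorem ψ_eq {a b : K} (h : ∀ n < 2048, lm a n = lm b n) : J4C.ψ a = J4C.ψ b := by
  ext p
  rcases lt_or_ge p 2048 with hp | hp
  · have := h _ (crd_lt hp)
    rw [lm, lm, icr_crd hp] at this
    exact crd_inj (J4C.rX.lt _ hp) (J4C.rX.lt _ hp) this
  · rw [J4C.rX.fix a hp, J4C.rX.fix b hp]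

theorem lm_of_ψ {a b : K} (h : J4C.ψ a = J4C.ψ b) (n : ℕ) : lm a n = lm b n := by rw [lm, lm, h]

theorem mul_inv_mem {a b : K} (h : J4C.ψ a = J4C.ψ b) : a * b⁻¹ ∈ V :=
  MonoidHom.mem_ker.2 (by rw [map_mul, map_inv, h, mul_inv_cancel])

theorem yK_g {x : ℕ} (hx : x < 4) : J4L.yK x = J4H.g x := by interval_cases x <;> rfl

/-- Endomorphisms of `K` inducing the identity on `K / V`. -/
theorem exists_end (ren : List (List ℕ)) (h1 : allL (J4H.rels.map (renW ren)) (fun w => allL [0, 1, 2, 3] fun b =>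
      Nat.beq (runA J4L.actK w b) b) = true)
    (h2 : allN 4 (fun x => andB (allL (getL ren [] x) fun x => Nat.blt x 4) (Nat.beq (lw (getL ren [] x)) (mat x))) = true) :
    ∃ σ : K →* K, (∀ k, J4C.ψ (σ k) = J4C.ψ k) ∧ ∀ w, allL w (fun x => Nat.blt x 4) = true →
      σ (ev J4L.yK w) = ev J4L.yK (renW ren w) := by
  obtain ⟨σ, h⟩ := J4H.lifts _ _ (renG_rels (g := J4L.yK) (ren := ren) (J4L.paK.rels h1))
  have h3 : ∀ x < 4, σ (J4L.yK x) = renG J4L.yK ren x := fun x hx => by rw [yK_g hx, h x hx]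
  refine ⟨σ, fun k => ?_, fun w hw => ?_⟩
  · refine genL_le (H := (J4C.ψ.comp σ).eqLocus J4C.ψ) (fun x hx => ?_) (rφ.top.ge (Subgroup.mem_top k))
    have hx' := List.mem_range.1 hx
    have h4 := (andB_eq_true _ _).1 (allN_spec h2 x hx')
    refine ψ_eq fun n hn => ?_
    rw [h3 x hx', renG, lm_ev h4.1 hn, Nat.eq_of_beq_eq_true h4.2, lm, gen_ψ hx' (icr_lt hn), crd_icr hn]
  · rw [map_ev, ← ev_renG]; exact ev_congr fun x hx => h3 x (Dce.blt_spec (allL_spec hw x hx))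

theorem exists_pr : ∃ pr : K →* K, (∀ k, J4C.ψ (pr k) = J4C.ψ k) ∧ ∀ k, co (pr k) = 0 := by
  obtain ⟨σ, h1, h2⟩ := exists_end [[0], [1], [2], []] (by decide +kernel) (by decide +kernel)
  refine ⟨σ, h1, fun k => ?_⟩
  have : k ∈ ((MulAction.stabilizer (Perm ℕ) 0).comap J4H.φ).comap σ :=
    genL_le (fun x hx => show J4H.φ (σ (J4L.yK x)) 0 = 0 by
      have hx' := List.mem_range.1 hx
      rw [← ev_one J4L.yK, h2 _ (by interval_cases x <;> rfl), J4L.paK.run _ 0 (by decide)]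
      interval_cases x <;> decide +kernel) (rφ.top.ge (Subgroup.mem_top k))
  rw [co, show J4H.φ (σ k) 0 = 0 from this, crd_zero]

theorem mem_V_of_fix {a : K} (h : ∀ b ∈ [1, 2, 3], lm a (crd b) = crd b) : a ∈ V := by
  obtain ⟨pr, h1, h2⟩ := exists_pr
  have : pr a = 1 := J4H.base _ fun b hb => by
    have hb' : b < 2048 := by revert b; decide
    refine crd_inj (rφ.lt _ hb') hb' ?_
    rw [aff _ hb', h2, Nat.xor_zero, lm_of_ψ (h1 a)]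
    rcases List.mem_cons.1 hb with rfl | hb
    · rw [crd_zero, lm_zero]
    · exact h b hb
  exact MonoidHom.mem_ker.2 (by rw [← h1, this, map_one])

theorem mem_V_of_V9 {c : K} (h : ∀ n < 512, lm c n = n) : c ∈ V := by
  let g := ev J4L.yK [2, 0, 1, 0, 2, 0, 2, 0, 2, 0, 1]
  have h1 : g⁻¹ * c * g ∈ V := mem_V_of_fix fun b hb => by
    have hb' : crd b < 2048 := crd_lt (by revert b; decide)
    have h2 : lm g (crd b) < 512 := by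
      rw [lm_ev (by decide +kernel) hb']; revert b; decide +kernel
    rw [lm_mul _ _ hb', lm_mul _ _ (lm_lt _ hb'), h _ h2, ← lm_mul _ _ hb', inv_mul_cancel, lm_one hb']
  simpa [mul_assoc] using V_normal.conj_mem _ h1 g

theorem fix_of_basis {k : K} {m : ℕ} (hm : m ≤ 11) (h : ∀ i < m, lm k (2 ^ i) = 2 ^ i) : ∀ n < 2 ^ m, lm k n = n :=
  have e : ∀ a < 2 ^ m, a < 2048 := fun _ ha => ha.trans_le (Nat.pow_le_pow_right (by decide) hm)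
  lin_ext (f := lm k) (g := id) (fun a ha b hb => lm_xor k (e a ha) (e b hb)) (fun _ _ _ _ => rfl) h

/-- `k` centralises `Z₃`. -/
def CW (k : K) : Prop := ∀ n < 8, lm k n = n

theorem CW_ev {w : List ℕ} (h : andB (allL w fun x => Nat.blt x 4)
    (allN 8 fun n => Nat.beq (app (lw w) n) n) = true) : CW (ev J4L.yK w) := fun n hn => by
  rw [andB_eq_true] at h
  rw [lm_ev h.1 (by omega)]; exact Nat.eq_of_beq_eq_true (allN_spec h.2 n hn)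

theorem CW.mem {k : K} (h : CW k) : k ∈ B0 := mem_B0.2 (h 1 (by decide))

theorem CW.conj {k m : K} (h : CW k) (hm : ∀ n < 8, lm m n < 8) : CW (m⁻¹ * k * m) := fun n hn => by
  have hn' : n < 2048 := by omega
  rw [lm_mul _ _ hn', lm_mul _ _ (lm_lt _ hn'), h _ (hm n hn), ← lm_mul _ _ hn', inv_mul_cancel, lm_one hn']

theorem T_comm_conj {m v : K} (hm : T * ι m = ι m * T) (hv : T * ι v = ι v * T) :
    T * ι (m * v * m⁻¹) = ι (m * v * m⁻¹) * T := by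
  rw [map_mul, map_mul, map_inv]
  exact ((Commute.mul_right hm hv).mul_right (Commute.inv_right hm)).eq

theorem T_W : ∀ n < 8, ∀ v ∈ V, co v = n → T * ι v = ι v * T := by
  have h0 : T * ι v0 = ι v0 * T := Subgroup.mem_centralizer_singleton_iff.1 T_mem
  have c0 : T * ι (ev J4L.yK [0]) = ι (ev J4L.yK [0]) * T := J4G.cp 0
  have c1 : T * ι (ev J4L.yK [1, 0, 1, 0, 2, 0, 2, 0, 1, 0, 1, 0, 1]) = ι (ev J4L.yK [1, 0, 1, 0, 2, 0, 2, 0, 1, 0, 1, 0, 1]) * T := J4G.cp 1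
  have k : ∀ {m v : K} {n : ℕ}, T * ι m = ι m * T → v ∈ V → T * ι v = ι v * T → lm m (co v) = n →
      ∀ u ∈ V, co u = n → T * ι u = ι u * T := fun {m v n} hm hv h e u hu e' => by
    rw [ext_V hu (V_normal.conj_mem v hv m) (by rw [co_conj m hv, e, e'])]; exact T_comm_conj hm h
  have h1 := V_normal.conj_mem _ v0_V (ev J4L.yK [1, 0, 1, 0, 2, 0, 2, 0, 1, 0, 1, 0, 1])
  have h2 := V_normal.conj_mem _ h1 (ev J4L.yK [1, 0, 1, 0, 2, 0, 2, 0, 1, 0, 1, 0, 1])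
  have h3 : lm (ev J4L.yK [1, 0, 1, 0, 2, 0, 2, 0, 1, 0, 1, 0, 1]) (co (ev J4L.yK [1, 0, 1, 0, 2, 0, 2, 0, 1, 0, 1, 0, 1] * v0 *
      (ev J4L.yK [1, 0, 1, 0, 2, 0, 2, 0, 1, 0, 1, 0, 1])⁻¹)) = 4 := by
    rw [co_conj _ v0_V, co_v0, lm_ev (by decide +kernel) (lm_lt _ (by decide)), lm_ev (by decide +kernel) (by decide)]
    decide +kernel
  refine xind (n := 3) (P := fun n => ∀ v ∈ V, co v = n → T * ι v = ι v * T)
    (fun v hv e => by rw [eq_one hv e]; simp) (fun i hi => ?_) fun a ha b hb h4 h5 v hv e => ?_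
  · interval_cases i
    · exact fun v hv e => by rw [ext_V hv v0_V (e.trans co_v0.symm)]; exact h0
    · refine k c0 h2 (T_comm_conj c1 (T_comm_conj c1 h0)) ?_
      rw [co_conj _ h1, h3, lm_ev (by decide +kernel) (by decide)]; decide +kernel
    · exact k c1 h1 (T_comm_conj c1 h0) h3
  · obtain ⟨p, hp, rfl⟩ := exists_vec (show a < 2048 by omega)
    obtain ⟨q, hq, rfl⟩ := exists_vec (show b < 2048 by omega)
    rw [ext_V hv (V.mul_mem hp hq) (by rw [e, co_V_mul hp]), map_mul]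
    exact (Commute.mul_right (h4 p hp rfl) (h5 q hq rfl)).eq

theorem inC {w : List ℕ} (h : andB (chkLet (List.range 10) [w]) (chkPt J4O.nets w 0 0) = true) :
    ∃ k', T * ι (ev J4L.yK w) = ι k' * T := by
  rw [andB_eq_true] at h
  exact Dce.hC_of_comm J4G.comm (xs := [4, 5, 6, 7, 8, 9]) (by decide +kernel)
    ((genW_sing _ _).le ((J4G.stabC _).2 (J4G.rψ.apply_of_chkPt h.1 h.2)))

def dws : List (List ℕ) := t0w :: [[1, 0, 1, 0, 1, 0, 1, 0, 2, 0, 3, 0, 1, 0, 2, 0, 2, 0, 2, 0, 2], [2, 0, 1, 0, 3, 2, 0, 3, 0, 1, 0, 2, 0, 1], [0, 2, 0, 1, 0, 3, 2, 0, 3, 0, 1, 0, 2, 0, 1, 0], [3, 0, 3, 0], [3, 2, 0, 3, 0, 1], [3, 0, 2, 0, 3, 0, 1, 0], [2, 0, 1, 0, 3, 0, 2, 0, 1], [3, 2, 0, 2, 0, 3, 0, 1, 0, 1], [1, 0, 3, 2, 0, 3, 0, 1, 0, 2]] ++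
  [[1, 0, 1, 0, 2, 0, 2, 0, 1, 0, 1, 0, 1, 0, 1, 0, 1, 0, 2, 0, 2, 0, 1, 0, 1, 0, 1, 1, 0, 1, 0, 2, 0, 2, 0, 1, 0, 1, 0, 1, 0, 1, 0, 1, 0, 2, 0, 2, 0, 1, 0, 1, 0, 1, 1, 0, 1, 0, 2, 0, 2, 0, 1, 0, 1, 0, 1, 0, 1, 0, 1, 0, 2, 0, 2, 0, 1, 0, 1, 0, 1], [0, 1, 0, 1, 0, 2, 0, 2, 0, 1, 0, 1, 0, 1, 1, 0, 1, 0, 2, 0, 2, 0, 1, 0, 1, 0, 1, 0, 1, 0, 1, 0, 2, 0, 2, 0, 1, 0, 1, 0, 1, 1, 0, 1, 0, 2, 0, 2, 0, 1, 0, 1, 0, 1, 0, 1, 0, 1, 0, 2, 0, 2, 0, 1, 0, 1, 0, 1, 1, 0, 1, 0, 2, 0, 2, 0, 1, 0, 1, 0, 1]]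

/-- The centraliser of `C_K(Z₃) ∩ K^T` is `Z₃`. -/
theorem cent_D {c : Cfsg.Spor.J4} (h : ∀ k, CW k → (∃ k', T * ι k = ι k' * T) → c * ι k = ι k * c) :
    ∃ v ∈ V, co v < 8 ∧ c = ι v := by
  have hc : allL dws (fun w => andB (andB (allL w fun x => Nat.blt x 4) (allN 8 fun n => Nat.beq (app (lw w) n) n))
    (andB (chkLet (List.range 10) [w]) (chkPt J4O.nets w 0 0))) = true := by decide +kernel
  have h1 : ∀ w ∈ dws, c * ι (ev J4L.yK w) = ι (ev J4L.yK w) * c := fun w hw =>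
    have := (andB_eq_true _ _).1 (allL_spec hc w hw)
    h _ (CW_ev this.1) (inC this.2)
  obtain ⟨v, rfl⟩ := cent_t0 (Subgroup.mem_centralizer_singleton_iff.2 (h1 _ List.mem_cons_self))
  have h2 : ∀ w ∈ dws, v * ev J4L.yK w = ev J4L.yK w * v := fun w hw => ι_inj (by rw [map_mul, map_mul, h1 w hw])
  have h3 : ∀ i < 9, getL dws [] (i + 1) ∈ dws ∧ andB (allL (getL dws [] (i + 1)) fun x => Nat.blt x 4)
      (Nat.beq (lw (getL dws [] (i + 1))) one12) = true ∧ crd (runA J4L.actK (getL dws [] (i + 1)) 0) = 2 ^ i := by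
    decide +kernel
  have hv : v ∈ V := mem_V_of_V9 (fix_of_basis (m := 9) (by decide) fun i hi => by
    have := (comm_iff (mem_V_ev (h3 i hi).2.1)).1 (h2 _ (h3 i hi).1)
    rwa [co_ev, (h3 i hi).2.2] at this)
  refine ⟨v, hv, ?_, rfl⟩
  have h4 := (comm_iff hv).1 (h2 (getL dws [] 10) (by decide +kernel)).symm
  have h5 := (comm_iff hv).1 (h2 (getL dws [] 11) (by decide +kernel)).symm
  rw [lm_ev (by decide +kernel) (co_lt v)] at h4 h5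
  have h6 : seq (lw (getL dws [] 10)) (fun A => seq (lw (getL dws [] 11)) fun B => allN 2048 fun n =>
    Nat.blt n 8 || !(Nat.beq (app A n) n && Nat.beq (app B n) n)) = true := by decide +kernel
  rw [seq_eq, seq_eq] at h6
  have := allN_spec h6 _ (co_lt v)
  rw [h4, h5, Nat.beq_refl] at this
  simpa [Nat.blt_eq] using this

theorem tri : T * ι (J4L.yK 3) * T * ι (J4L.yK 3) * T * ι (ev J4L.yK [0, 1, 0, 1, 0, 3, 0, 1, 0, 1, 0, 3, 0, 1, 0, 2, 0, 1, 0, 2, 0, 2, 0, 2, 0, 1, 0, 1, 0, 2, 0, 1, 0, 2, 0, 2, 0, 1, 0, 1, 0, 2, 0, 2, 0, 2, 0, 1, 0, 1, 0, 1, 0, 2, 0]) = 1 := by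
  have h := Dce.hyp_rel (ι := ι) (y := J4L.yK) (T := T) (tl := 11)
    (rels := [[[0, 1, 0, 1, 0, 3, 0, 1, 0, 1, 0, 3, 0, 1, 0, 2, 0, 1, 0, 2, 0, 2, 0, 2, 0, 1, 0, 1, 0, 2, 0, 1, 0, 2, 0, 2, 0, 1, 0, 1, 0, 2, 0, 2, 0, 2, 0, 1, 0, 1, 0, 1, 0, 2, 0], [3], [3]]])
    (by decide +kernel) (Dce.rel_of_rot J4R.hb (by decide +kernel)) _ List.mem_cons_self
  simpa only [Dce.relE, one_mul, ev_one] using h

theorem cube {M : Type*} [Group M] {t c a b : M} (h : t * c * a * (t * c) * a * (t * c) * b = 1)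
    (h' : t * a * t * a * t * b = 1) (c1 : Commute c a) (c2 : Commute c t) (c3 : c * c = 1) : c = 1 := by
  have e1 : c * a * c⁻¹ = a := by rw [c1.eq]; group
  have e2 : c * t * c⁻¹ = t := by rw [c2.eq]; group
  have e3 : c⁻¹ = c := inv_eq_of_mul_eq_one_left c3
  have e4 : t * c * a * (t * c) * a * (t * c) * b = t * (c * a * c⁻¹) * (c * t * c⁻¹) * (c * c) * a * (t * c) * b := by
    group
  rw [e4, e1, e2, c3, mul_one, ← h', mul_left_inj, mul_assoc (t * a * t), mul_assoc (t * a * t), mul_right_inj,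
    mul_right_inj, mul_eq_left] at h
  exact h

variable {G : Type*} [Group G] {ψ : K →* G} {φ : H0 →* G} (hφ : Function.Injective φ)
  (hC : Subgroup.centralizer {φ ⟨z0, z0_mem⟩} = φ.range) (h : ∀ (b : K) (hb : ι b ∈ H0), φ ⟨ι b, hb⟩ = ψ b)
include hφ hC h

theorem rigid {m : K} (hT : T * ι m = ι m * T) (h1 : ∀ n < 8, lm m n < 8) (h2 : ∀ n < 8, lm m⁻¹ n < 8) :
    Commute (ψ m) (φ ⟨T, T_mem⟩) := by
  have hT' : T * ι m⁻¹ = ι m⁻¹ * T := by rw [map_inv]; exact (Commute.inv_right hT).eq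
  have cT : ∀ {a b : K}, a ∈ B0 → T * ι a = ι b * T → b ∈ B0 ∧ φ ⟨T, T_mem⟩ * ψ a = ψ b * φ ⟨T, T_mem⟩ :=
    fun {a b} ha e => by
      have ha' := mem_H0.2 ha
      have hb : ι b ∈ H0 := by
        rw [← mul_inv_eq_iff_eq_mul] at e; exact e ▸ H0.mul_mem (H0.mul_mem T_mem ha') (H0.inv_mem T_mem)
      exact ⟨mem_H0.1 hb, by rw [← h a ha', ← h b hb, ← map_mul, ← map_mul]; exact congrArg φ (Subtype.ext e)⟩
  -- the conjugate lies in the image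
  obtain ⟨T', hT1⟩ : ψ m * φ ⟨T, T_mem⟩ * (ψ m)⁻¹ ∈ φ.range := by
    rw [← hC, Subgroup.mem_centralizer_singleton_iff, show φ ⟨z0, z0_mem⟩ = ψ v0 from h v0 z0_mem]
    have := (cT (V_le_B0 (V_normal.conj_mem _ v0_V m⁻¹))
      (T_comm_conj hT' (Subgroup.mem_centralizer_singleton_iff.1 T_mem))).2
    simp only [map_mul, map_inv, inv_inv] at this
    calc _ = ψ m * (φ ⟨T, T_mem⟩ * ((ψ m)⁻¹ * ψ v0 * ψ m)) * (ψ m)⁻¹ := by group
      _ = _ := by rw [this]; group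
  obtain ⟨v, hv, hv8, e⟩ := cent_D (c := T⁻¹ * T') fun k hk ⟨k', e⟩ => by
    obtain ⟨hk', e1⟩ := cT hk.mem e
    have e2 := (cT (b := m⁻¹ * k' * m) (hk.conj h1).mem (by
      simp only [map_mul] at hT' ⊢
      rw [← mul_assoc, ← mul_assoc, hT', mul_assoc _ T, e, mul_assoc, mul_assoc, hT]; group)).2
    simp only [map_mul, map_inv] at e2
    have e3 : φ T' * ψ k = ψ k' * φ T' := by
      rw [hT1]
      calc _ = ψ m * (φ ⟨T, T_mem⟩ * ((ψ m)⁻¹ * ψ k * ψ m)) * (ψ m)⁻¹ := by group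
        _ = _ := by rw [e2]; group
    rw [← h k (mem_H0.2 hk.mem), ← h k' (mem_H0.2 hk'), ← map_mul, ← map_mul] at e3
    have e4 : (T' : Cfsg.Spor.J4) * ι k = ι k' * T' := congrArg Subtype.val (hφ e3)
    rw [mul_assoc, e4, ← mul_assoc, ← mul_assoc, eq_mul_inv_of_mul_eq e.symm]; group
  have e5 : (T' : Cfsg.Spor.J4) = T * ι v := by rw [← e]; group
  have d1 : CW (m⁻¹⁻¹ * J4L.yK 3 * m⁻¹) := (show CW (ev J4L.yK [3]) from CW_ev (by decide +kernel)).conj h2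
  have d3 : CW (m⁻¹⁻¹ * ev J4L.yK [0, 1, 0, 1, 0, 3, 0, 1, 0, 1, 0, 3, 0, 1, 0, 2, 0, 1, 0, 2, 0, 2, 0, 2, 0, 1, 0, 1, 0, 2, 0, 1, 0, 2, 0, 2, 0, 1, 0, 1, 0, 2, 0, 2, 0, 2, 0, 1, 0, 1, 0, 1, 0, 2, 0] * m⁻¹) :=
    (CW_ev (by decide +kernel)).conj h2
  have b1 : ι (J4L.yK 3) ∈ H0 := mem_H0.2 (show CW (ev J4L.yK [3]) from CW_ev (by decide +kernel)).mem
  have b3 : ι (ev J4L.yK [0, 1, 0, 1, 0, 3, 0, 1, 0, 1, 0, 3, 0, 1, 0, 2, 0, 1, 0, 2, 0, 2, 0, 2, 0, 1, 0, 1, 0, 2, 0, 1, 0, 2, 0, 2, 0, 1, 0, 1, 0, 2, 0, 2, 0, 2, 0, 1, 0, 1, 0, 1, 0, 2, 0]) ∈ H0 :=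
    mem_H0.2 (CW_ev (by decide +kernel)).mem
  have r0 := tri
  generalize J4L.yK 3 = a at d1 b1 r0
  generalize ev J4L.yK [0, 1, 0, 1, 0, 3, 0, 1, 0, 1, 0, 3, 0, 1, 0, 2, 0, 1, 0, 2, 0, 2, 0, 2, 0, 1, 0, 1, 0, 2, 0, 1, 0, 2, 0, 2, 0, 1, 0, 1, 0, 2, 0, 2, 0, 2, 0, 1, 0, 1, 0, 1, 0, 2, 0] = b at d3 b3 r0
  rw [inv_inv] at d1 d3
  have r1 : φ ⟨T, T_mem⟩ * ψ a * φ ⟨T, T_mem⟩ * ψ a * φ ⟨T, T_mem⟩ * ψ b = 1 := by
    rw [← h a b1, ← h b b3, ← φ.map_one]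
    simp only [← map_mul]
    exact congrArg φ (Subtype.ext r0)
  have r2 : φ T' * ψ (m * a * m⁻¹) * φ T' * ψ (m * a * m⁻¹) * φ T' * ψ (m * b * m⁻¹) = 1 := by
    rw [hT1]
    simp only [map_mul, map_inv]
    calc _ = ψ m * (φ ⟨T, T_mem⟩ * ψ a * φ ⟨T, T_mem⟩ * ψ a * φ ⟨T, T_mem⟩ * ψ b) * (ψ m)⁻¹ := by group
      _ = _ := by rw [r1]; group
  rw [← h _ (mem_H0.2 d1.mem), ← h _ (mem_H0.2 d3.mem), ← φ.map_one] at r2
  simp only [← map_mul] at r2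
  have r3 : (T' : Cfsg.Spor.J4) * ι (m * a * m⁻¹) * T' * ι (m * a * m⁻¹) * T' * ι (m * b * m⁻¹) = 1 :=
    congrArg Subtype.val (hφ r2)
  have r4 : T * ι (m * a * m⁻¹) * T * ι (m * a * m⁻¹) * T * ι (m * b * m⁻¹) = 1 := by
    have hT2 : ι m * T * (ι m)⁻¹ = T := by rw [← hT]; group
    simp only [map_mul, map_inv]
    calc _ = ι m * T * (ι m)⁻¹ * (ι m * ι a * (ι m)⁻¹) * (ι m * T * (ι m)⁻¹) * (ι m * ι a * (ι m)⁻¹) *
          (ι m * T * (ι m)⁻¹) * (ι m * ι b * (ι m)⁻¹) := by rw [hT2]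
      _ = ι m * (T * ι a * T * ι a * T * ι b) * (ι m)⁻¹ := by group
      _ = _ := by rw [r0]; group
  have c1 : Commute (ι v) (ι (m * a * m⁻¹)) := Commute.map ((comm_iff hv).2 (d1 _ hv8)).symm ι
  have c2 : Commute (ι v) T := (T_W _ hv8 v hv rfl).symm
  have c3 : ι v * ι v = 1 := by rw [← map_mul, V_sq hv, map_one]
  have c4 : ι v = 1 := cube (e5 ▸ r3) r4 c1 c2 c3
  rw [c4, mul_one] at e5
  rw [show T' = ⟨T, T_mem⟩ from Subtype.ext e5] at hT1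
  exact mul_inv_eq_iff_eq_mul.1 hT1.symm

theorem rigid' : ∀ w ∈ [[0], [1, 0, 1, 0, 2, 0, 2, 0, 1, 0, 1, 0, 1]], Commute (ψ (ev J4L.yK w)) (φ ⟨T, T_mem⟩) := by
  have k : ∀ w : List ℕ, andB (allL w fun x => Nat.blt x 4) (allN 8 fun n => Nat.blt (app (lw w) n) 8) = true →
      ∀ n < 8, lm (ev J4L.yK w) n < 8 := fun w hw n hn => by
    rw [andB_eq_true] at hw
    rw [lm_ev hw.1 (by omega)]; exact Dce.blt_spec (allN_spec hw.2 n hn)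
  have i : ∀ w w' : List ℕ, allL [w ++ w'] (fun w => allL [0, 1, 2, 3] fun b => Nat.beq (runA J4L.actK w b) b) = true →
      (ev J4L.yK w)⁻¹ = ev J4L.yK w' := fun w w' hw => (eq_inv_of_mul_eq_one_left (by
        rw [← ev_append]; exact J4L.paK.rels hw _ List.mem_cons_self)).symm
  refine List.forall_mem_cons.2 ⟨rigid hφ hC h (J4G.cp 0) (k _ (by decide +kernel)) ?_,
    List.forall_mem_cons.2 ⟨rigid hφ hC h (J4G.cp 1) (k _ (by decide +kernel)) ?_, fun _ h => nomatch h⟩⟩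
  · rw [i _ [0] (by decide +kernel)]; exact k _ (by decide +kernel)
  · rw [i _ [2, 0, 2, 0, 2, 0, 1, 0, 1, 0, 2, 0, 2] (by decide +kernel)]; exact k _ (by decide +kernel)

end Cfsg.Agent.J4T.C
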