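import Cfsg.Agent.S0051
import Mathlib.GroupTheory.PGroup

/-! Extending an embedding of an odd index subgroup on its normal elementary abelian subgroup (helper23). -/

namespace Cfsg.Agent.J4T.C

theorem exists_ext {K G : Type*} [Group K] [Group G] [Finite K] [Finite G] {V B : Subgroup K} [hV : V.Normal]
    (hVB : V ≤ B) (f : B →* G) (hsq : ∀ v ∈ V, v * v = 1) (hB : Odd B.index)
    (hc : ∀ n : G, (∀ v : B, v.1 ∈ V → n * f v = f v * n) → ∃ v : B, v.1 ∈ V ∧ n = f v)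
    (hN : ∀ k : K, ∃ n : G, ∀ v w : B, v.1 ∈ V → w.1 = k * v * k⁻¹ → n * f v * n⁻¹ = f w)
    (pr : K →* K) (h1 : ∀ k, k * (pr k)⁻¹ ∈ V) (h2 : ∀ v ∈ V, pr v = 1) :
    ∃ ψ : K →* G, (∀ v : B, v.1 ∈ V → ψ v = f v) ∧ ∀ b : B, ∃ v : B, v.1 ∈ V ∧ ψ b = f (v * b) := by
  let Fb : Subgroup (G × K) :=
    { carrier := {p | ∀ v w : B, v.1 ∈ V → w.1 = p.2 * v * p.2⁻¹ → p.1 * f v * p.1⁻¹ = f w}
      mul_mem' := fun {p q} hp hq v w hv e => by
        have := hp ⟨_, hVB (hV.conj_mem _ hv q.2)⟩ w (hV.conj_mem _ hv q.2) (by rw [e]; simp [mul_assoc])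
        rw [← this, ← hq v ⟨_, hVB (hV.conj_mem _ hv q.2)⟩ hv rfl]; simp [mul_assoc]
      one_mem' := fun v w _ e => by rw [show w = v from Subtype.ext (by simpa using e)]; simp
      inv_mem' := fun {p} hp v w hv e => by
        rw [← hp w v (e ▸ hV.conj_mem _ hv _) (by rw [e]; simp [mul_assoc])]; simp [mul_assoc] }
  let π : Fb →* K := (MonoidHom.snd G K).comp Fb.subtype
  have hπ : Function.Surjective π := fun k => let ⟨n, hn⟩ := hN k; ⟨⟨(n, k), hn⟩, rfl⟩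
  have k1 : ∀ p : π.ker, p * p = 1 := fun p => by
    have e : p.1.1.2 = 1 := p.2
    obtain ⟨v, hv, e'⟩ := hc p.1.1.1 fun v hv => mul_inv_eq_iff_eq_mul.1 (p.1.2 v v hv (by rw [e]; simp))
    refine Subtype.ext (Subtype.ext (Prod.ext ?_ ?_))
    · show p.1.1.1 * p.1.1.1 = 1
      rw [e', ← map_mul, show v * v = 1 from Subtype.ext (hsq _ hv), map_one]
    · show p.1.1.2 * p.1.1.2 = 1
      rw [e, one_mul]
  have : IsMulCommutative π.ker := ⟨⟨fun a b => by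
    have := k1 (a * b)
    rw [← inv_eq_of_mul_eq_one_left this, mul_inv_rev, inv_eq_of_mul_eq_one_left (k1 a),
      inv_eq_of_mul_eq_one_left (k1 b)]⟩⟩
  let a : B →* Fb := (f.prod B.subtype).codRestrict _ fun b v w _ e => by
    rw [show w = b * v * b⁻¹ from Subtype.ext e]; simp
  have : Fact (Nat.Prime 2) := ⟨Nat.prime_two⟩
  obtain ⟨H, hH⟩ := S0051.result π.ker (B.comap π) (fun p hp => show π p ∈ B by rw [hp]; exact B.one_mem)
    (by
      obtain ⟨n, hn⟩ := IsPGroup.iff_card.1 (show IsPGroup 2 π.ker from fun p => ⟨1, by rw [pow_one, sq, k1]⟩)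
      rw [hn, B.index_comap_of_surjective hπ]
      exact (Nat.coprime_two_left.2 hB).pow_left _) a.range
    (by rintro _ ⟨b, rfl⟩; exact b.2)
    (eq_bot_iff.2 (by rintro _ ⟨⟨b, rfl⟩, hb⟩; rw [show b = 1 from Subtype.ext hb, map_one]; rfl))
    (le_antisymm (sup_le (fun p hp => show π p ∈ B by rw [hp]; exact B.one_mem) (by rintro _ ⟨b, rfl⟩; exact b.2))
      fun p hp => by
        rw [← inv_mul_cancel_right p (a ⟨π p, hp⟩)]
        exact Subgroup.mul_mem_sup (show π _ = 1 by rw [map_mul, map_inv]; exact mul_inv_cancel _) ⟨_, rfl⟩)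
  let e : H ≃* K := MulEquiv.ofBijective (π.comp H.subtype) ⟨(injective_iff_map_eq_one _).2 fun p hp =>
    Subtype.ext (Subgroup.disjoint_def.1 hH.disjoint hp p.2), fun k => by
      obtain ⟨p, rfl⟩ := hπ k
      obtain ⟨⟨x, y⟩, rfl⟩ := hH.2 p
      exact ⟨y, by rw [map_mul, show π x = 1 from x.2, one_mul]; rfl⟩⟩
  let ψ0 : K →* G := ((MonoidHom.fst G K).comp (Fb.subtype.comp H.subtype)).comp e.symm.toMonoidHom
  have h0 : ∀ (k) (v w : B), v.1 ∈ V → w.1 = k * v * k⁻¹ → ψ0 k * f v * (ψ0 k)⁻¹ = f w := fun k v w hv e' =>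
    (e.symm k).1.2 v w hv (by rw [show (e.symm k).1.1.2 = k from e.apply_symm_apply k, e'])
  let ψ : K →* G := MonoidHom.mk' (fun k => f ⟨_, hVB (h1 k)⟩ * ψ0 (pr k)) fun x y => by
    have := h0 (pr x) ⟨_, hVB (h1 y)⟩ ⟨_, hVB (hV.conj_mem _ (h1 y) (pr x))⟩ (h1 y) rfl
    rw [show (⟨_, hVB (h1 (x * y))⟩ : B) = ⟨_, hVB (h1 x)⟩ * ⟨_, hVB (hV.conj_mem _ (h1 y) (pr x))⟩ from
      Subtype.ext (by simp [mul_assoc]), map_mul, ← this]
    simp [mul_assoc]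
  have h3 : ∀ v : B, v.1 ∈ V → ψ v = f v := fun v hv => by
    show f _ * ψ0 (pr v) = _
    simp [h2 v hv]
  refine ⟨ψ, h3, fun b => ?_⟩
  obtain ⟨v, hv, e'⟩ := hc (ψ b * (f b)⁻¹) fun v hv => by
    have e1 := h3 (b⁻¹ * v * b) (by simpa using hV.conj_mem _ hv (b : K)⁻¹)
    simp only [Subgroup.coe_mul, Subgroup.coe_inv, map_mul, map_inv, h3 v hv] at e1
    calc _ = ψ b * ((f b)⁻¹ * f v * f b) * (f b)⁻¹ := by group
      _ = _ := by rw [← e1]; group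
  exact ⟨v, hv, by rw [map_mul, ← e']; simp⟩

end Cfsg.Agent.J4T.C
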