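import Cfsg.Agent.J4T.C4
import Cfsg.Agent.J4T.C5

/-! helper23: step C of the recognition of `J4`. -/

namespace Cfsg.Agent.J4T

open Cfsg.Agent.Spor C

theorem lift {G : Type*} [Group G] [Finite G] (ψ : K →* G) (φ : H0 →* G)
    (h : ∀ (b : K) (hb : ι b ∈ H0), φ ⟨ι b, hb⟩ = ψ b)
    (hm : ∀ w ∈ [[0], [1, 0, 1, 0, 2, 0, 2, 0, 1, 0, 1, 0, 1]], Commute (ψ (ev J4L.yK w)) (φ ⟨T, T_mem⟩)) :
    ∃ j : Cfsg.Spor.J4 →* G, (∀ k, j (ι k) = ψ k) ∧ j T = φ ⟨T, T_mem⟩ := C.lift ψ φ h hm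

noncomputable def C.ιB : B0 →* H0 := (ι.comp B0.subtype).codRestrict _ fun b => mem_H0.2 b.2

theorem stepC {G : Type*} [Group G] [Finite G] (φ : H0 →* G) (hφ : Function.Injective φ)
    (hC : Subgroup.centralizer {φ ⟨z0, z0_mem⟩} = φ.range)
    (hN1 : ∀ n ∈ Subgroup.normalizer (((V0.subgroupOf H0).map φ : Subgroup G) : Set G), ∃ k : K, ∀ v w : H0,
      (v : Cfsg.Spor.J4) ∈ V0 → (w : Cfsg.Spor.J4) = ι k * v * (ι k)⁻¹ → n * φ v * n⁻¹ = φ w)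
    (hN2 : ∀ k : K, ∃ n : G, ∀ v w : H0,
      (v : Cfsg.Spor.J4) ∈ V0 → (w : Cfsg.Spor.J4) = ι k * v * (ι k)⁻¹ → n * φ v * n⁻¹ = φ w) :
    ∃ j : Cfsg.Spor.J4 →* G, φ.range ≤ j.range ∧
      Subgroup.normalizer (((V0.subgroupOf H0).map φ : Subgroup G) : Set G) ≤ j.range ∧
      (∀ v : H0, (v : Cfsg.Spor.J4) ∈ V0 → j v = φ v) ∧ j z0 = φ ⟨z0, z0_mem⟩ ∧
      V0.map j = (V0.subgroupOf H0).map φ := by
  have hc : ∀ n : G, (∀ v : B0, v.1 ∈ V → n * φ (ιB v) = φ (ιB v) * n) → ∃ v : B0, v.1 ∈ V ∧ n = φ (ιB v) :=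
    fun n hn => by
      obtain ⟨x, rfl⟩ : n ∈ φ.range := hC ▸ Subgroup.mem_centralizer_singleton_iff.2 (hn ⟨v0, V_le_B0 v0_V⟩ v0_V)
      obtain ⟨v, hv, e⟩ : x.1 ∈ V0 := cent_V0 ▸ Subgroup.mem_centralizer_iff.2 (by
        rintro _ ⟨v, hv, rfl⟩
        have := hn ⟨v, V_le_B0 hv⟩ hv
        rw [← map_mul, ← map_mul] at this
        exact (congrArg Subtype.val (hφ this)).symm)
      exact ⟨⟨v, V_le_B0 hv⟩, hv, congrArg φ (Subtype.ext e.symm)⟩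
  obtain ⟨pr, p1, p2⟩ := exists_pr
  obtain ⟨ψ, s1, s2⟩ := exists_ext V_le_B0 (φ.comp ιB) (fun _ => V_sq) (by rw [index_B0]; decide) hc
    (fun k => let ⟨n, hn⟩ := hN2 k; ⟨n, fun v w hv e => hn (ιB v) (ιB w) ⟨v, hv, rfl⟩ (by
      show ι w = ι k * ι v * (ι k)⁻¹; rw [e, map_mul, map_mul, map_inv])⟩)
    pr (fun k => mul_inv_mem (p1 k).symm) fun v hv => eq_one (MonoidHom.mem_ker.2 ((p1 v).trans hv)) (p2 v)
  choose u u1 u2 using fun x => s2 ⟨gg x, gg_mem x⟩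
  obtain ⟨σ, t1, t2, t3, t4⟩ := classify (α := fun x => B0.subtype (u x * ⟨gg x, gg_mem x⟩))
    (fun x _ => by show J4C.ψ (u x * gg x) = _; rw [map_mul, MonoidHom.mem_ker.1 (u1 x), one_mul]) fun w _ hw => by
      have : φ (ιB (ev (fun x => u x * ⟨gg x, gg_mem x⟩) w)) = 1 := by
        rw [← MonoidHom.comp_apply, map_ev, ← funext u2, ← map_ev, hw, map_one]
      rw [← map_ev]
      exact ι_inj ((congrArg Subtype.val (hφ (this.trans φ.map_one.symm))).trans ι.map_one.symm)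
  have t5 : ∀ x, ψ (B0.subtype (u x * ⟨gg x, gg_mem x⟩)) = φ ⟨ι (gg x), mem_H0.2 (gg_mem x)⟩ := fun x => by
    show ψ (u x * gg x) = φ.comp ιB ⟨gg x, gg_mem x⟩
    rw [map_mul, s1 _ (u1 x), u2, ← map_mul, ← mul_assoc, show u x * u x = 1 from Subtype.ext (V_sq (u1 x)), one_mul]
  obtain ⟨γ, g1, g2⟩ : ∃ γ : H0 ≃* H0, (∀ v (h : ι v ∈ H0), v ∈ V → γ ⟨ι v, h⟩ = ⟨ι v, h⟩) ∧
      ∀ x < 2, φ (γ ⟨ι (gg x), mem_H0.2 (gg_mem x)⟩) = ψ (σ (gg x)) := by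
    rcases t4 with t4 | t4
    · refine ⟨MulEquiv.refl _, fun _ _ _ => rfl, fun x hx => ?_⟩
      interval_cases x
      exacts [by rw [t3, t5]; rfl, by rw [t4, t5]; rfl]
    · obtain ⟨γ, g1, g2, g3⟩ := exists_twist
      refine ⟨γ, g1, fun x hx => ?_⟩
      interval_cases x
      exacts [by rw [t3, t5, g2], by rw [t4, map_mul, t5, g3, map_mul, s1 ⟨v0, V_le_B0 v0_V⟩ v0_V]; rfl]
  have hV : ∀ v (h : ι v ∈ H0), v ∈ V → ψ (σ v) = φ ⟨ι v, h⟩ := fun v h hv => by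
    rw [t2 v hv]; exact s1 ⟨v, V_le_B0 hv⟩ hv
  have h : ∀ (b : K) (hb : ι b ∈ H0), φ.comp γ.toMonoidHom ⟨ι b, hb⟩ = ψ.comp σ b := fun b hb => by
    obtain ⟨_, h, rfl⟩ := B0_le (S := (((φ.comp γ.toMonoidHom).comp ιB).eqLocus ((ψ.comp σ).comp B0.subtype)).map
      B0.subtype) (fun v hv => ⟨⟨v, V_le_B0 hv⟩, (congrArg φ (g1 v _ hv)).trans (hV v _ hv).symm, rfl⟩)
      (fun x hx => ⟨⟨_, gg_mem x⟩, g2 x hx, rfl⟩) (mem_H0.1 hb)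
    exact h
  obtain ⟨j, j1, j2⟩ := lift _ _ h (rigid' (hφ.comp γ.injective) (by
    rw [MonoidHom.range_comp, MonoidHom.range_eq_top.2 γ.surjective, ← MonoidHom.range_eq_map, ← hC]
    exact congrArg (fun a => Subgroup.centralizer {φ a}) (g1 v0 z0_mem v0_V)) h)
  have j3 : ∀ x : H0, j x = φ (γ x) := fun x => by
    obtain ⟨_, h, e⟩ := H0_le (S := ((j.comp H0.subtype).eqLocus (φ.comp γ.toMonoidHom)).map H0.subtype)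
      (fun b hb => ⟨⟨_, mem_H0.2 hb⟩, (j1 b).trans (h b _).symm, rfl⟩) ⟨⟨T, T_mem⟩, j2, rfl⟩ x.2
    exact Subtype.ext e ▸ h
  have j4 : ∀ v : H0, (v : Cfsg.Spor.J4) ∈ V0 → j v = φ v := by
    rintro ⟨_, h⟩ ⟨v, hv, rfl⟩
    exact (j1 v).trans (hV v h hv)
  refine ⟨j, ?_, fun n hn => ?_, j4, j4 ⟨z0, z0_mem⟩ ⟨v0, v0_V, rfl⟩, le_antisymm ?_ ?_⟩
  · rintro _ ⟨x, rfl⟩
    exact ⟨γ.symm x, by rw [j3, γ.apply_symm_apply]⟩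
  · obtain ⟨k, hk⟩ := hN1 n hn
    obtain ⟨v, hv, e⟩ := hc ((j (ι k))⁻¹ * n) fun v hv => by
      have h1 := V_normal.conj_mem _ hv k
      have h2 := hk (ιB v) (ιB ⟨_, V_le_B0 h1⟩) ⟨v, hv, rfl⟩ (by
        show ι (k * v * k⁻¹) = ι k * ι v * (ι k)⁻¹; rw [map_mul, map_mul, map_inv])
      rw [← j4 (ιB ⟨_, V_le_B0 h1⟩) ⟨_, h1, rfl⟩, show (ιB ⟨_, V_le_B0 h1⟩).1 = ι k * (ιB v).1 * (ι k)⁻¹ by
        show ι (k * v * k⁻¹) = ι k * ι v * (ι k)⁻¹; rw [map_mul, map_mul, map_inv], map_mul, map_mul, map_inv,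
        j4 _ ⟨v, hv, rfl⟩] at h2
      calc _ = (j (ι k))⁻¹ * (n * φ (ιB v) * n⁻¹) * n := by group
        _ = _ := by rw [h2]; group
    exact ⟨ι k * ιB v, by rw [map_mul, j4 _ ⟨v, hv, rfl⟩, ← e]; group⟩
  · rintro _ ⟨v, hv, rfl⟩
    exact ⟨⟨v, V0_le_H0 hv⟩, hv, (j4 _ hv).symm⟩
  · rintro _ ⟨v, hv, rfl⟩
    exact ⟨v, hv, j4 v hv⟩

end Cfsg.Agent.J4T
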