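import Cfsg.Agent.J4T.St

/-! An extraspecial group of order `2^13` with a fixed-point-free automorphism `p` of order 3 has a frame
(`exists_Fr`); change of frame by a unitary matrix (`Fr.change`); the action `μ` on `E/⟨z⟩` (`Fr.exists_μ`). -/

set_option autoImplicit false

namespace Cfsg.Agent.J4T
open Cfsg.Agent.Comp Subgroup LES

variable {G : Type*} [Group G] {z p : G} {Q : Subgroup G}

theorem mkFr {σ : ℕ → G} (zz : z * z = 1) (cz : ∀ v < 4096, Commute (σ v) z)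
    (mul : ∀ v < 4096, ∀ w < 4096, σ v * σ w = σ (v ^^^ w) * z ^ bt v w) (z1 : z ≠ 1)
    (inj : ∀ v < 4096, σ v = 1 ∨ σ v = z → v = 0) (op : orderOf p = 3) (pz : Commute p z)
    (pσ : ∀ v < 4096, p * σ v * p⁻¹ = σ (app cW v)) : Fr z p fun x => σ (x % 4096) * z ^ (x / 4096) := by
  have zx : ∀ a < 2, ∀ b < 2, z ^ (a ^^^ b) = z ^ a * z ^ b := fun a ha b hb => by
    interval_cases a <;> interval_cases b <;> simp [zz]
  have xm : ∀ x y, (x ^^^ y) % 4096 = x % 4096 ^^^ y % 4096 := fun x y => Nat.xor_mod_two_pow (n := 12)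
  have xd : ∀ x y, (x ^^^ y) / 4096 = x / 4096 ^^^ y / 4096 := fun x y => Nat.xor_div_two_pow (n := 12)
  have s1 : ∀ b < 2, b <<< 12 % 4096 = 0 ∧ b <<< 12 / 4096 = b := fun b hb => by interval_cases b <;> decide
  have hb : ∀ x < 8192, ∀ y < 8192, bt (x % 4096) (y % 4096) = bt x y := fun x hx y hy => by
    rcases split_z hx with h | ⟨v, h, rfl⟩ <;> rcases split_z hy with h' | ⟨w, h', rfl⟩ <;>
      simp [xm, bt_xor, bt_xor', bt_z, bt_z', Nat.mod_eq_of_lt h, Nat.mod_eq_of_lt h']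
  have σ0 : σ 0 = 1 := by simpa [bt_zero] using mul 0 (by norm_num) 0 (by norm_num)
  have hmul : ∀ x < 8192, ∀ y < 8192, σ (x % 4096) * z ^ (x / 4096) * (σ (y % 4096) * z ^ (y / 4096)) =
      σ (emul x y % 4096) * z ^ (emul x y / 4096) := fun x hx y hy => by
    have h1 : x / 4096 < 2 := by omega
    have h2 : y / 4096 < 2 := by omega
    rw [emul_eq, xm, xm, xd, xd, (s1 _ (bt_lt _ _)).1, (s1 _ (bt_lt _ _)).2, Nat.xor_zero,
      zx _ (xlt2 h1 h2) _ (bt_lt _ _), zx _ h1 _ h2, mul_assoc, ← mul_assoc (z ^ _),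
      ← ((cz _ (Nat.mod_lt _ (by norm_num))).pow_right _).eq, ← mul_assoc, ← mul_assoc,
      mul _ (Nat.mod_lt _ (by norm_num)) _ (Nat.mod_lt _ (by norm_num)), hb x hx y hy]
    simp only [mul_assoc, ← pow_add]; congr 2; ring
  refine ⟨hmul, fun x hx y hy e => ?_, by simp [σ0], op, fun x hx => ?_⟩
  · have h := hmul x hx y hy
    have h' := hmul y hy y hy
    rw [e, h', emul_eq, emul_eq, Nat.xor_self, Nat.zero_xor, (s1 _ (bt_lt _ _)).1, (s1 _ (bt_lt _ _)).2, σ0, xm, xd,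
      (s1 _ (bt_lt _ _)).1, (s1 _ (bt_lt _ _)).2, Nat.xor_zero, one_mul] at h
    have h1 : (x ^^^ y) / 4096 ^^^ bt x y < 2 := xlt2 (by have := xlt hx hy; omega) (bt_lt _ _)
    have h3 : (x ^^^ y) % 4096 = 0 := inj _ (Nat.mod_lt _ (by norm_num)) (by
      have h2 := bt_lt y y
      rw [eq_comm, ← eq_mul_inv_iff_mul_eq] at h
      rw [h]
      generalize bt y y = a at *
      generalize (x ^^^ y) / 4096 ^^^ bt x y = b at *
      have zi : z⁻¹ = z := inv_eq_of_mul_eq_one_right zz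
      interval_cases a <;> interval_cases b <;> simp [zi, zz])
    have h4 : x % 4096 = y % 4096 := by rw [xm] at h3; exact Nat.eq_of_xor_eq_zero h3
    rw [h4, mul_left_cancel_iff] at e
    have h5 : x / 4096 < 2 := by omega
    have h6 : y / 4096 < 2 := by omega
    have : x / 4096 = y / 4096 := by
      generalize x / 4096 = a at *; generalize y / 4096 = b at *
      interval_cases a <;> interval_cases b
      exacts [rfl, absurd (by simpa using e.symm) z1, absurd (by simpa using e) z1, rfl]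
    omega
  · rw [← mul_assoc p, mul_assoc (p * _), ((pz.pow_right _).inv_left).eq.symm, ← mul_assoc,
      pσ _ (Nat.mod_lt _ (by norm_num))]
    rcases split_z hx with h | ⟨v, h, rfl⟩
    · rw [(kact_W x h).1, Nat.mod_eq_of_lt h, Nat.mod_eq_of_lt (app_lt _ _), Nat.div_eq_of_lt h,
        Nat.div_eq_of_lt (app_lt _ _)]
    · rw [kact_z, (kact_W v h).1, xm, xm, xd, xd, Nat.mod_eq_of_lt h, Nat.mod_eq_of_lt (app_lt _ _),
        Nat.div_eq_of_lt h, Nat.div_eq_of_lt (app_lt _ _)]; simp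

def βP : ℕ → ℕ → ℕ → ℕ
  | 0, _, _ => 0
  | n + 1, v, w => bt (v % 4) (w % 4) ^^^ βP n (v / 4) (w / 4)
def WP : ℕ → ℕ → ℕ
  | 0, _ => 0
  | n + 1, v => app cW (v % 4) + 4 * WP n (v / 4)

theorem xm4 (x y : ℕ) : (x ^^^ y) % 4 = x % 4 ^^^ y % 4 := Nat.xor_mod_two_pow (n := 2)
theorem xd4 (x y : ℕ) : (x ^^^ y) / 4 = x / 4 ^^^ y / 4 := Nat.xor_div_two_pow (n := 2)
theorem βP_lt (n : ℕ) : ∀ v w, βP n v w < 2 := by
  induction n with
  | zero => intro v w; simp [βP]
  | succ n ih => intro v w; exact xlt2 (bt_lt _ _) (ih _ _)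
theorem βP_xor (n : ℕ) : ∀ a b c, βP n (a ^^^ b) c = βP n a c ^^^ βP n b c ∧
    βP n c (a ^^^ b) = βP n c a ^^^ βP n c b := by
  induction n with
  | zero => intro a b c; simp [βP]
  | succ n ih =>
    intro a b c
    simp only [βP, xm4, xd4, bt_xor, bt_xor', (ih _ _ _).1, (ih _ _ _).2]
    constructor <;> ac_rfl
theorem βP_eq : ∀ v < 4096, ∀ w < 4096, βP 6 v w = bt v w :=
  bilin_ext (n := 12) (fun _ _ _ _ _ _ => (βP_xor ..).1) (fun _ _ _ _ _ _ => (βP_xor ..).2)
    (fun _ _ _ _ _ _ => bt_xor ..) (fun _ _ _ _ _ _ => bt_xor' ..) (by decide +kernel)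
theorem WP_eq : ∀ v < 4096, WP 6 v = app cW v :=
  all4096 (f := fun v => Nat.beq (WP 6 v) (app cW v)) (by decide +kernel) fun _ => nbeq.1

theorem exists_pair [Finite G] {D : Subgroup G} (h : ES D z) (p3 : p ^ 3 = 1) (pz : Commute p z)
    (pD : ∀ x ∈ D, p * x * p⁻¹ ∈ D) (fp : ∀ x ∈ D, Commute p x → x = 1 ∨ x = z) :
    ∃ a ∈ D, ∃ b ∈ D, a * a = z ∧ b * b = z ∧ b * a = a * b * z ∧ p * a * p⁻¹ = b ∧ p * b * p⁻¹ = a * b := by
  have zz := h.zz
  have cz : ∀ x, p * (x * z) * p⁻¹ = p * x * p⁻¹ * z := fun x => by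
    rw [mul_assoc (p * x), pz.inv_left.eq]; group
  have hp : p * z * p⁻¹ = z := by simpa using cz 1
  obtain ⟨a, ha, aa⟩ : ∃ a ∈ D, a * a = z := by
    by_contra hn
    push Not at hn
    obtain ⟨x, hx, y, hy, hxy⟩ := h.nab
    have s : ∀ x ∈ D, x⁻¹ = x := fun x hx => inv_eq_of_mul_eq_one_right ((h.sq x hx).resolve_right (hn x hx))
    exact hxy (by rw [Commute, SemiconjBy, ← s _ (mul_mem hx hy), mul_inv_rev, s x hx, s y hy])
  have sq : ∀ x, x * x = z → p * x * p⁻¹ * (p * x * p⁻¹) = z := fun x e => by rw [← hp, ← e]; group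
  have p3' : ∀ x, p * (p * (p * x * p⁻¹) * p⁻¹) * p⁻¹ = x := fun x => by
    have : p * (p * (p * x * p⁻¹) * p⁻¹) * p⁻¹ = p ^ 3 * x * (p ^ 3)⁻¹ := by simp only [pow_succ, pow_zero, one_mul, mul_inv_rev, mul_assoc]
    rw [this, p3]; simp
  obtain ⟨b, hb⟩ : ∃ b, b = p * a * p⁻¹ := ⟨_, rfl⟩
  obtain ⟨c, hc⟩ : ∃ c, c = p * b * p⁻¹ := ⟨_, rfl⟩
  have bD : b ∈ D := hb ▸ pD a ha
  have cD : c ∈ D := hc ▸ pD b bD
  have bb : b * b = z := hb ▸ sq a aa
  have cc : c * c = z := hc ▸ sq b bb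
  have e1 : p * (a * b * c) * p⁻¹ = a⁻¹ * (a * b * c) * a⁻¹⁻¹ := by
    have : p * (a * b * c) * p⁻¹ = b * c * (p * c * p⁻¹) := by rw [hc, hb]; group
    rw [this, hc, hb, p3']; group
  have e2 : a * b * c = 1 ∨ a * b * c = z := by
    have hD := mul_mem (mul_mem ha bD) cD
    refine fp _ hD ?_
    rcases h.comm _ (inv_mem ha) _ hD with e | e
    · exact cj_eq_iff_comm.1 (e1.trans e)
    · have := p3' (a * b * c)
      rw [e1, e, cz, e1, e, cz, cz, e1, e, mul_assoc, mul_assoc, zz, mul_one, mul_eq_left] at this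
      exact absurd this h.z1
  have zi : z⁻¹ = z := inv_eq_of_mul_eq_one_right zz
  have az := (h.zc a ha).eq
  have bz := (h.zc b bD).eq
  have ai : a⁻¹ = a * z := by rw [inv_eq_iff_mul_eq_one, ← mul_assoc, aa, zz]
  have bi : b⁻¹ = b * z := by rw [inv_eq_iff_mul_eq_one, ← mul_assoc, bb, zz]
  have e3 : (a * b)⁻¹ = b * a := by
    rw [mul_inv_rev, ai, bi, mul_assoc, ← mul_assoc z, ← az, mul_assoc, zz, mul_one]
  have e4 : c = b * a ∨ c = b * a * z := by
    rcases e2 with e | e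
    · left; rw [← e3]; exact (eq_inv_of_mul_eq_one_right e)
    · right; rw [← e3, ← e]; group
  have ba : b * a = a * b * z := by
    rcases h.comm b bD a ha with e | e
    · exfalso
      have e' : b * a = a * b := mul_inv_eq_iff_eq_mul.1 e
      have : b * a * (b * a) = 1 := by rw [mul_assoc, ← mul_assoc a, ← e', mul_assoc b, aa, ← mul_assoc, bb, zz]
      rcases e4 with e | e <;> rw [e] at cc
      · exact h.z1 (cc.symm.trans this)
      · rw [mul_assoc, ← mul_assoc z, ← (h.zc _ (mul_mem bD ha)).eq, mul_assoc _ z, zz, mul_one, this] at cc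
        exact h.z1 cc.symm
    · rw [mul_inv_eq_iff_eq_mul.1 e, mul_assoc, ← bz, mul_assoc]
  rcases e4 with e | e
  · refine ⟨a * z, mul_mem ha h.zQ, b * z, mul_mem bD h.zQ, ?_, ?_, ?_, hb ▸ cz a, ?_⟩
    · rw [mul_assoc, ← mul_assoc z, ← az, mul_assoc, zz, mul_one, aa]
    · rw [mul_assoc, ← mul_assoc z, ← bz, mul_assoc, zz, mul_one, bb]
    · rw [mul_assoc b, ← mul_assoc z, ← az, mul_assoc a, zz, mul_one, mul_assoc a z, ← mul_assoc z, ← bz, mul_assoc b,
        zz, mul_one, ba]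
    · rw [cz, ← hc, e, ba, mul_assoc (a * b), zz, mul_one, mul_assoc a z, ← mul_assoc z, ← bz, mul_assoc b, zz, mul_one]
  · exact ⟨a, ha, b, bD, aa, bb, ba, hb.symm, by rw [← hc, e, ba, mul_assoc, zz, mul_one]⟩

theorem exists_sig [Finite G] (h : ES Q z) (p3 : p ^ 3 = 1) (pz : Commute p z)
    (fp : ∀ x ∈ Q, Commute p x → x = 1 ∨ x = z) (n : ℕ) : ∀ D ≤ Q, z ∈ D → (∀ x ∈ D, p * x * p⁻¹ ∈ D) →
    (∀ x ∈ D, (∀ y ∈ D, Commute x y) → x = 1 ∨ x = z) → 2 * 4 ^ n ≤ Nat.card D →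
    ∃ σ : ℕ → G, (∀ v, σ v ∈ D) ∧ (∀ v w, σ v * σ w = σ (v ^^^ w) * z ^ βP n v w) ∧
      (∀ v, p * σ v * p⁻¹ = σ (WP n v)) ∧ ∀ v < 4 ^ n, σ v = 1 ∨ σ v = z → v = 0 := by
  induction n with
  | zero => exact fun D _ _ _ _ _ => ⟨fun _ => 1, fun _ => one_mem _, by simp [βP], by simp, by simp⟩
  | succ n ih =>
    intro D hD zD pD cD hc
    have zz := h.zz
    have hn : ∃ x ∈ D, ∃ y ∈ D, ¬ Commute x y := by
      by_contra hn
      push Not at hn
      have : Nat.card D ≤ Nat.card Bool := Nat.card_le_card_of_surjective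
        (fun b : Bool => if b then (⟨z, zD⟩ : D) else 1) fun x => by
          rcases cD x x.2 (hn x x.2) with e | e
          · exact ⟨false, Subtype.ext e.symm⟩
          · exact ⟨true, Subtype.ext e.symm⟩
      have : 0 < 4 ^ n := by positivity
      simp only [Nat.card_eq_fintype_card, Fintype.card_bool, pow_succ] at *; omega
    have hE : ES D z := ⟨h.z2, zD, fun y hy => h.zc y (hD hy), cD, fun x hx y hy => h.comm x (hD hx) y (hD hy),
      fun x hx => h.sq x (hD hx), hn⟩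
    obtain ⟨a, ha, b, hb, aa, bb, ba, pa, pb⟩ := exists_pair hE p3 pz pD fun x hx => fp x (hD hx)
    have az := (hE.zc a ha).eq
    have bz := (hE.zc b hb).eq
    have nab : ¬ Commute a b := fun e => h.z1 (by rwa [← e.eq, left_eq_mul] at ba)
    obtain ⟨q, hq⟩ : ∃ q : ℕ → G, ∀ t, q t = a ^ (t % 2) * b ^ (t / 2) := ⟨_, fun _ => rfl⟩
    have qD : ∀ t, q t ∈ D := fun t => hq t ▸ mul_mem (pow_mem ha _) (pow_mem hb _)
    have r1 : ∀ x, a * (a * x) = z * x := fun x => by rw [← mul_assoc, aa]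
    have r2 : ∀ x, b * (b * x) = z * x := fun x => by rw [← mul_assoc, bb]
    have r3 : ∀ x, b * (a * x) = a * (b * (z * x)) := fun x => by rw [← mul_assoc, ba]; group
    have r4 : ∀ x, z * (a * x) = a * (z * x) := fun x => by rw [← mul_assoc, ← az, mul_assoc]
    have r5 : ∀ x, z * (b * x) = b * (z * x) := fun x => by rw [← mul_assoc, ← bz, mul_assoc]
    have r6 : ∀ x, z * (z * x) = x := fun x => by rw [← mul_assoc, zz, one_mul]
    have b4 : ∀ s < 4, ∀ t < 4, bt s t = (s % 2 * (t % 2) + s / 2 * (t / 2) + s / 2 * (t % 2)) % 2 := by decide +kernel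
    have qq : ∀ s < 4, ∀ t < 4, ∀ x, q s * (q t * x) = q (s ^^^ t) * (z ^ bt s t * x) := fun s hs t ht x => by
      rw [b4 s hs t ht]
      interval_cases s <;> interval_cases t <;> simp [hq, mul_assoc, r1, r2, r3, r4, r5, r6]
    have w4 : ∀ s < 4, app cW s = if s = 0 then 0 else if s = 3 then 1 else s + 1 := by decide +kernel
    have pq : ∀ s < 4, p * q s * p⁻¹ = q (app cW s) := fun s hs => by
      rw [w4 s hs]
      interval_cases s
      · simp [hq]
      · simpa [hq] using pa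
      · simpa [hq] using pb
      · have : p * (a * b) * p⁻¹ = p * a * p⁻¹ * (p * b * p⁻¹) := by group
        simp only [hq]; norm_num
        rw [this, pa, pb, r3, ← bz, r2, zz, mul_one]
    let D' := D ⊓ centralizer {a, b}
    have mD' : ∀ x, x ∈ D' ↔ x ∈ D ∧ Commute x a ∧ Commute x b := fun x => by
      simp only [D', mem_inf, mem_centralizer_iff, Set.mem_insert_iff, Set.mem_singleton_iff, forall_eq_or_imp,
        forall_eq]
      exact and_congr_right fun _ => and_congr eq_comm eq_comm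
    have cq : ∀ x ∈ D', ∀ t, Commute x (q t) := fun x hx t => hq t ▸
      (((mD' x).1 hx).2.1.pow_right _).mul_right (((mD' x).1 hx).2.2.pow_right _)
    have dec : ∀ y ∈ D, ∃ t < 4, (q t)⁻¹ * y ∈ D' := fun y hy => by
      have k : ∀ t, (Commute (q t) a ↔ Commute y a) → (Commute (q t) b ↔ Commute y b) → (q t)⁻¹ * y ∈ D' :=
        fun t h1 h2 => (mD' _).2 ⟨mul_mem (inv_mem (qD t)) hy, hE.comm_of_iff (qD t) hy ha h1,
          hE.comm_of_iff (qD t) hy hb h2⟩
      have n1 : ¬ Commute b a := fun e => nab e.symm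
      have n2 : ¬ Commute (a * b) a := fun e => n1 (by simpa using (Commute.refl a).inv_left.mul_left e)
      have n3 : ¬ Commute (a * b) b := fun e => nab (by simpa using e.mul_left (Commute.refl b).inv_left)
      by_cases h1 : Commute y a <;> by_cases h2 : Commute y b
      · exact ⟨0, by norm_num, k 0 (by simp [hq, h1]) (by simp [hq, h2])⟩
      · exact ⟨1, by norm_num, k 1 (by simp [hq, h1]) (by simp [hq, h2, nab])⟩
      · exact ⟨2, by norm_num, k 2 (by simp [hq, h1, n1]) (by simp [hq, h2])⟩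
      · exact ⟨3, by norm_num, k 3 (by simp [hq, h1, n2]) (by simp [hq, h2, n3])⟩
    have hc' : Nat.card D ≤ Nat.card (Fin 4 × D') := Nat.card_le_card_of_surjective
      (fun x : Fin 4 × D' => (⟨q x.1 * x.2, mul_mem (qD _) x.2.2.1⟩ : D)) fun y => by
        obtain ⟨t, ht, e⟩ := dec y y.2
        exact ⟨(⟨t, ht⟩, ⟨_, e⟩), Subtype.ext (by simp)⟩
    obtain ⟨σ, h1, h2, h3, h4⟩ := ih D' (inf_le_left.trans hD)
      ((mD' z).2 ⟨zD, (hE.zc a ha).symm, (hE.zc b hb).symm⟩)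
      (fun x hx => by
        obtain ⟨k1, k2, k3⟩ := (mD' x).1 hx
        have c1 : Commute (p * x * p⁻¹) b := by rw [← pa]; exact k2.conj p
        have c2 : Commute (p * x * p⁻¹) (a * b) := by rw [← pb]; exact k3.conj p
        exact (mD' _).2 ⟨pD x k1, by simpa using c2.mul_right c1.inv_right, c1⟩)
      (fun x hx hy => cD x hx.1 fun y hy' => by
        obtain ⟨t, -, e⟩ := dec y hy'
        simpa using (cq x hx t).mul_right (hy _ e))
      (by simp only [Nat.card_prod, Nat.card_eq_fintype_card (α := Fin 4), Fintype.card_fin, pow_succ] at *; omega)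
    have l4 : ∀ v, v % 4 < 4 := fun v => Nat.mod_lt _ (by norm_num)
    have zx : ∀ a < 2, ∀ b < 2, z ^ (a ^^^ b) = z ^ a * z ^ b := fun a ha b hb => by
      interval_cases a <;> interval_cases b <;> simp [zz]
    refine ⟨fun v => q (v % 4) * σ (v / 4), fun v => mul_mem (qD _) (h1 _).1, fun v w => ?_, fun v => ?_,
      fun v hv e => ?_⟩
    · simp only [βP, xm4, xd4]
      rw [mul_assoc, ← mul_assoc (σ _), (cq _ (h1 _) _).eq, mul_assoc, qq _ (l4 _) _ (l4 _), h2,
        zx _ (bt_lt _ _) _ (βP_lt _ _ _), ← mul_assoc (z ^ _), ← ((hE.zc _ (h1 _).1).pow_right _).eq]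
      simp only [mul_assoc]
    · have hw : app cW (v % 4) < 4 := by rw [w4 _ (l4 v)]; have := l4 v; split_ifs <;> omega
      have : p * (q (v % 4) * σ (v / 4)) * p⁻¹ = p * q (v % 4) * p⁻¹ * (p * σ (v / 4) * p⁻¹) := by group
      simp only [WP]
      rw [this, pq _ (l4 _), h3, show (app cW (v % 4) + 4 * WP n (v / 4)) % 4 = app cW (v % 4) by omega,
        show (app cW (v % 4) + 4 * WP n (v / 4)) / 4 = WP n (v / 4) by omega]
    · have k : ∀ x ∈ D, Commute (σ (v / 4)) x → Commute (q (v % 4)) x := fun x hx hc => by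
        have : Commute (q (v % 4) * σ (v / 4)) x := by
          rcases e with e | e <;> simp only [e]
          exacts [Commute.one_left _, (hE.zc x hx).symm]
        simpa using this.mul_left hc.inv_left
      have ka := k a ha ((mD' _).1 (h1 _)).2.1
      have kb := k b hb ((mD' _).1 (h1 _)).2.2
      have h0 : v % 4 = 0 := by
        have := l4 v
        generalize v % 4 = t at *
        interval_cases t
        · rfl
        · exact absurd (by simpa [hq] using kb) nab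
        · exact absurd (by simpa [hq] using ka.symm) nab
        · exact absurd (by simpa [hq] using (Commute.refl a).inv_left.mul_left ka |>.symm) nab
      simp only [h0, hq, Nat.zero_mod, pow_zero, Nat.zero_div, one_mul] at e
      have := h4 (v / 4) (by rw [pow_succ] at hv; omega) e
      omega

theorem exists_Fr [Finite G] (h : ES Q z) (op : orderOf p = 3) (pz : Commute p z) (pQ : ∀ x ∈ Q, p * x * p⁻¹ ∈ Q)
    (fp : ∀ x ∈ Q, Commute p x → x = 1 ∨ x = z) (hc : Nat.card Q = 8192) :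
    ∃ θ, Fr z p θ ∧ ∀ g, g ∈ Q ↔ ∃ x < 8192, θ x = g := by
  obtain ⟨σ, h1, h2, h3, h4⟩ := exists_sig h (op ▸ pow_orderOf_eq_one p) pz fp 6 Q le_rfl h.zQ pQ h.cen (by omega)
  have F := mkFr (σ := σ) h.zz (fun v _ => h.zc _ (h1 v)) (fun v hv w hw => by rw [h2, βP_eq v hv w hw]) h.z1 h4 op pz
    fun v hv => by rw [h3, WP_eq v hv]
  have hm : ∀ x : ℕ, σ (x % 4096) * z ^ (x / 4096) ∈ Q := fun x => mul_mem (h1 _) (pow_mem h.zQ _)
  refine ⟨_, F, fun g => ⟨fun hg => ?_, fun ⟨x, _, e⟩ => e ▸ hm x⟩⟩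
  have : Function.Bijective fun x : Fin 8192 => (⟨_, hm x⟩ : Q) :=
    (Function.Injective.bijective_of_nat_card_le
      (fun x y e => Fin.ext (F.inj _ x.2 _ y.2 (congrArg Subtype.val e))) (by simp [hc]))
  obtain ⟨x, e⟩ := this.2 ⟨g, hg⟩
  exact ⟨x, x.2, congrArg Subtype.val e⟩

theorem bt_W : ∀ v < 4096, ∀ w < 4096, bt (app cW v) (app cW w) = bt v w :=
  bilin_ext (n := 12) (f := fun v w => bt (app cW v) (app cW w)) (fun _ _ _ _ _ _ => by simp only [app_xor, bt_xor])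
    (fun _ _ _ _ _ _ => by simp only [app_xor, bt_xor']) (fun _ _ _ _ _ _ => bt_xor ..) (fun _ _ _ _ _ _ => bt_xor' ..)
    (by decide +kernel)

theorem Fr.change {θ : ℕ → G} (F : Fr z p θ) {c : ℕ} {u : MulAut (XV 12)} (hc : IR c u) (hw : Commute u wA) :
    ∃ θ', Fr z p θ' ∧ (∀ v < 4096, θ' v = θ (app c v) * z ^ ell c v) ∧
      ∀ g, (∃ x < 8192, θ' x = g) ↔ ∃ x < 8192, θ x = g := by
  have cw : ∀ v < 4096, app c (app cW v) = app cW (app c v) := fun v hv => by
    rw [← app_mulM _ _ hv, ← app_mulM _ _ hv,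
      isCanon_IR.canon (isGrp_IR.mul hc IR_wA) (hw.eq ▸ isGrp_IR.mul IR_wA hc)]
  obtain ⟨γ, hγ⟩ : ∃ γ : ℕ → ℕ → ℕ, ∀ v w, γ v w = bt v w ^^^ bt (app c v) (app c w) := ⟨_, fun _ _ => rfl⟩
  have g1 : ∀ a b w, γ (a ^^^ b) w = γ a w ^^^ γ b w := fun a b w => by simp only [hγ, app_xor, bt_xor]; ac_rfl
  have g2 : ∀ a b w, γ w (a ^^^ b) = γ w a ^^^ γ w b := fun a b w => by simp only [hγ, app_xor, bt_xor']; ac_rfl
  have g3 : ∀ v < 4096, ∀ w < 4096, γ v w = γ w v := fun v hv w hw => by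
    have := hc.1.bf hc.2 hv hw
    rw [bf_eq, bf_eq] at this
    apply Nat.eq_of_xor_eq_zero
    rw [hγ, hγ, ← Nat.xor_self (bt v w ^^^ bt w v)]; nth_rewrite 2 [← this]; ac_rfl
  have g4 : ∀ v < 4096, ∀ w < 4096, γ (app cW v) (app cW w) = γ v w := fun v hv w hw => by
    rw [hγ, hγ, cw v hv, cw w hw, bt_W v hv w hw, bt_W _ (app_lt _ _) _ (app_lt _ _)]
  have g5 : ∀ v, ell c v = γ v (app cW v) := fun v => by rw [hγ, ell_eq]
  have g6 : ∀ v < 4096, ∀ w < 4096, ell c (v ^^^ w) = ell c v ^^^ ell c w ^^^ γ v w := fun v hv w hw => by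
    have : γ w (app cW v) = γ v w ^^^ γ v (app cW w) := by
      rw [g3 w hw _ (app_lt _ _), ← g2, ← (kact_W w hw).2, ← g4 v hv _ (app_lt _ _), (kact_W _ (app_lt cW w)).2,
        (kact_W w hw).2, Nat.xor_comm w, Nat.xor_xor_cancel_left]
    rw [g5, g5, g5, app_xor, g1, g2, g2, this, ← Nat.xor_zero (_ ^^^ γ v w), ← Nat.xor_self (γ v (app cW w))]; ac_rfl
  have F' := mkFr (p := p) (σ := fun v => θ (app c v) * z ^ ell c v) F.zz
    (fun v _ => (F.cz (app_lt' _ _)).mul_left ((Commute.refl z).pow_left _)) (fun v hv w hw => by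
      rw [mul_assoc, ← mul_assoc (z ^ _), ← ((F.cz (app_lt' _ _)).pow_right _).eq, ← mul_assoc, ← mul_assoc,
        F.mul' (app_lt' _ _) (app_lt' _ _), app_xor, g6 v hv w hw, hγ,
        F.zxor (xlt2 (ell_lt _ _) (ell_lt _ _)) (xlt2 (bt_lt _ _) (bt_lt _ _)), F.zxor (ell_lt _ _) (ell_lt _ _),
        F.zxor (bt_lt _ _) (bt_lt _ _)]
      rw [← mul_one (_ * z ^ ell c w), ← F.zbb (bt v w)]
      simp only [mul_assoc, ← pow_add]; congr 2; ring) F.z1 (fun v hv e => by
      have : app c v = 0 := by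
        rcases e with e | e
        · exact (F.cancel (app_lt _ _) (by norm_num) (ell_lt _ _) two_pos (e.trans (by simp [F.θ0]))).1
        · exact (F.cancel (app_lt _ _) (by norm_num) (ell_lt _ _) one_lt_two (e.trans (by simp [F.θ0]))).1
      have h2 : u ⟨v, hv⟩ = 1 := XV.ext ((hc.1.2 _).trans this)
      exact congrArg XV.val ((map_eq_one_iff u u.injective).1 h2)) F.op F.pz fun v hv => by
      rw [← mul_assoc p, mul_assoc (p * _), ((F.pz.pow_right _).inv_left).eq.symm, ← mul_assoc, F.pθ' (app_lt _ _),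
        cw v hv, g5, g5, g4 v hv _ (app_lt _ _)]
  refine ⟨_, F', fun v hv => by simp [Nat.mod_eq_of_lt hv, Nat.div_eq_of_lt hv], fun g => ⟨?_, ?_⟩⟩
  · rintro ⟨x, hx, rfl⟩
    have : x / 4096 < 2 := by omega
    refine ⟨_, xlt (app_lt' c (x % 4096)) (sh_lt (xlt2 (ell_lt c (x % 4096)) this)), ?_⟩
    rw [F.θb (app_lt' _ _) (xlt2 (ell_lt _ _) this), F.zxor (ell_lt _ _) this, mul_assoc]
  · rintro ⟨x, hx, rfl⟩
    have hv : x % 4096 < 4096 := Nat.mod_lt _ (by norm_num)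
    have h2 : x / 4096 < 2 := by omega
    obtain ⟨v, e⟩ := u.surjective ⟨_, hv⟩
    have e1 : app c v.val = x % 4096 := (hc.1.2 v).symm.trans (congrArg XV.val e)
    have h3 := xlt2 (ell_lt c v.val) h2
    have h4 : v.val < 4096 := v.lt
    refine ⟨v.val + 4096 * (ell c v.val ^^^ x / 4096), by omega, ?_⟩
    rw [show ∀ b, (v.val + 4096 * b) % 4096 = v.val from fun b => by omega,
      show ∀ b, (v.val + 4096 * b) / 4096 = b from fun b => by omega, F.zxor (ell_lt _ _) h2, e1, mul_assoc,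
      ← mul_assoc (z ^ _), F.zbb, one_mul, ← F.θb (by omega) h2]
    congr 1
    rcases split_z hx with h | ⟨w, h, rfl⟩
    · simp [Nat.mod_eq_of_lt h, Nat.div_eq_of_lt h]
    · rw [show 4096 = 2 ^ 12 from rfl, Nat.xor_mod_two_pow, Nat.xor_div_two_pow]
      simp [Nat.mod_eq_of_lt h, Nat.div_eq_of_lt h]

theorem Fr.exists_μ {θ : ℕ → G} (F : Fr z p θ) (hn : ∀ h : centralizer ({z} : Set G), ∀ x < 8192,
    ∃ y < 8192, θ y = h.1 * θ x * h.1⁻¹) : ∃ μ : centralizer ({z} : Set G) →* MulAut (XV 12),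
    ∀ h v, ∃ b < 2, h.1 * θ v.val * h.1⁻¹ = θ (μ h v).val * z ^ b := by
  have l : ∀ v : XV 12, v.val < 8192 := fun v => v.lt.trans (by norm_num)
  have h1 : ∀ (h : centralizer ({z} : Set G)) (v : XV 12), ∃ u : XV 12, ∃ b < 2,
      h.1 * θ v.val * h.1⁻¹ = θ u.val * z ^ b := fun h v => by
    obtain ⟨y, hy, e⟩ := hn h _ (l v)
    rcases split_z hy with h | ⟨w, h, rfl⟩
    · exact ⟨⟨y, h⟩, 0, two_pos, by simp [e]⟩
    · exact ⟨⟨w, h⟩, 1, one_lt_two, by rw [← e, F.θz (by omega), pow_one]⟩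
  choose f hf using h1
  have un : ∀ h v (u : XV 12), ∀ b < 2, h.1 * θ v.val * h.1⁻¹ = θ u.val * z ^ b → f h v = u := fun h v u b hb e => by
    obtain ⟨b', hb', e'⟩ := hf h v
    exact XV.ext (F.cancel (XV.lt _) (XV.lt _) hb' hb (e'.symm.trans e)).1
  have hz : ∀ (h : centralizer ({z} : Set G)) b y, h.1 * (y * z ^ b) * h.1⁻¹ = h.1 * y * h.1⁻¹ * z ^ b :=
    fun h b y => by
      have : Commute h.1 z := mem_centralizer_singleton_iff.1 h.2
      rw [mul_assoc (h.1 * y), ((this.pow_right b).inv_left).eq]; group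
  let A : MulDistribMulAction (centralizer ({z} : Set G)) (XV 12) :=
    { smul := f
      one_smul v := un 1 v v 0 two_pos (by simp)
      mul_smul g h v := by
        obtain ⟨b, hb, e⟩ := hf h v
        obtain ⟨b', hb', e'⟩ := hf g (f h v)
        refine un _ _ _ _ (xlt2 hb' hb) ?_
        rw [F.zxor hb' hb, ← mul_assoc (θ _)]
        refine Eq.trans ?_ (congrArg (· * z ^ b) e')
        rw [← hz, ← e]; simp [mul_assoc]
      smul_one h := un _ _ _ 0 two_pos (by simp [F.θ0])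
      smul_mul h v w := by
        obtain ⟨b, hb, e⟩ := hf h v
        obtain ⟨b', hb', e'⟩ := hf h w
        refine un _ _ _ _ (xlt2 (xlt2 (xlt2 (bt_lt (f h v).val (f h w).val) hb) hb') (bt_lt v.val w.val)) ?_
        have e2 : θ (v * w).val = θ v.val * θ w.val * z ^ bt v.val w.val := by
          rw [F.mul' (l v) (l w), mul_assoc, F.zbb, mul_one, XV.mul_val]
        have e3 : h.1 * (θ v.val * θ w.val) * h.1⁻¹ = h.1 * θ v.val * h.1⁻¹ * (h.1 * θ w.val * h.1⁻¹) := by group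
        rw [e2, hz, e3, e, e', F.zxor (xlt2 (xlt2 (bt_lt _ _) hb) hb') (bt_lt _ _), F.zxor (xlt2 (bt_lt _ _) hb) hb',
          F.zxor (bt_lt _ _) hb, mul_assoc (θ _), ← mul_assoc (z ^ b), ← ((F.cz (l _)).pow_right b).eq,
          ← mul_assoc (θ _), ← mul_assoc (θ _), ← mul_assoc (θ _), F.mul' (l _) (l _)]
        simp only [mul_assoc]; rfl }
  exact ⟨MulDistribMulAction.toMulAut _ (XV 12), hf⟩

end Cfsg.Agent.J4T
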