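import Cfsg.Agent.J4T.Hyp
import Cfsg.Agent.LES.Core

/-! Basic consequences of `Fr` and `St`: `Fr.θz`, `Fr.conjE`, `Fr.kact_of` / `St.kact` (action of `N_H(p)`), `St.le`,
`St.card_Xs`, `St.decomp` (`h = θ x * k`), `St.exK` (an element of `N_H(p)` for every code in `Xs`). -/

set_option autoImplicit false

namespace Cfsg.Agent.J4T
open Cfsg.Agent.Comp Subgroup

theorem sh_lt {b : ℕ} (hb : b < 2) : b <<< 12 < 8192 := by interval_cases b <;> decide
theorem xlt {a b : ℕ} (ha : a < 8192) (hb : b < 8192) : a ^^^ b < 8192 := Nat.xor_lt_two_pow (n := 13) ha hb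
theorem xlt12 {a b : ℕ} (ha : a < 4096) (hb : b < 4096) : a ^^^ b < 4096 := Nat.xor_lt_two_pow (n := 12) ha hb
theorem xlt2 {a b : ℕ} (ha : a < 2) (hb : b < 2) : a ^^^ b < 2 := Nat.xor_lt_two_pow (n := 1) ha hb
theorem emul_eq (x y : ℕ) : emul x y = x ^^^ y ^^^ (bt x y <<< 12) := rfl
theorem einv_eq (x : ℕ) : einv x = x ^^^ (bt x x <<< 12) := rfl
theorem ell_eq (M v : ℕ) : ell M v = bt v (app cW v) ^^^ bt (app M v) (app M (app cW v)) := by
  unfold ell; rw [force_eq]; rfl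
theorem kact_eq (M x : ℕ) : kact M x = app M x ^^^ (x &&& 4096) ^^^ (ell M x <<< 12) := rfl
theorem ell_lt (M v : ℕ) : ell M v < 2 := by rw [ell_eq]; exact xlt2 (bt_lt _ _) (bt_lt _ _)
theorem emul_lt {x y : ℕ} (hx : x < 8192) (hy : y < 8192) : emul x y < 8192 := xlt (xlt hx hy) (sh_lt (bt_lt _ _))
theorem einv_lt {x : ℕ} (hx : x < 8192) : einv x < 8192 := xlt hx (sh_lt (bt_lt _ _))
theorem app_lt' (c x : ℕ) : app c x < 8192 := (app_lt c x).trans (by norm_num)
theorem kact_lt (M x : ℕ) : kact M x < 8192 :=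
  xlt (xlt (app_lt' _ _) (Nat.and_lt_two_pow _ (n := 13) (by norm_num))) (sh_lt (ell_lt _ _))
theorem app_z (c : ℕ) : app c 4096 = 0 := by
  have hx : ∀ x y, Nat.xor x y = x ^^^ y := fun _ _ => rfl
  simp [app, mulK, force_eq, hx, tK]
theorem and_z {x : ℕ} (hx : x < 4096) : x &&& 4096 = 0 := by
  rw [show 4096 = 2 ^ 12 from rfl, Nat.and_two_pow, Nat.testBit_lt_two_pow hx]; simp
theorem split_z {x : ℕ} (hx : x < 8192) : x < 4096 ∨ ∃ v < 4096, x = v ^^^ 4096 := by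
  by_cases h : x < 4096
  · exact .inl h
  · refine .inr ⟨x ^^^ 4096, Nat.lt_pow_two_of_testBit (n := 12) _ fun j hj => ?_, (Nat.xor_xor_cancel_right ..).symm⟩
    rw [show 4096 = 2 ^ 12 from rfl, Nat.testBit_xor]
    rcases hj.eq_or_lt with rfl | hj
    · rw [Nat.testBit_two_pow_self, Nat.testBit_of_two_pow_le_and_two_pow_add_one_gt (by omega) (by omega)]; rfl
    · rw [Nat.testBit_two_pow_of_ne hj.ne, Nat.testBit_lt_two_pow (hx.trans_le (Nat.pow_le_pow_right (n := 2) (i := 13) two_pos hj))]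
      rfl
theorem ell_z (M x : ℕ) : ell M (x ^^^ 4096) = ell M x := by
  simp only [ell_eq, app_xor, app_z, bt_xor, bt_z, Nat.xor_zero]
theorem kact_z (M x : ℕ) : kact M (x ^^^ 4096) = kact M x ^^^ 4096 := by
  simp only [kact_eq, ell_z, app_xor, app_z, Nat.xor_zero, Nat.and_xor_distrib_right, Nat.and_self]; ac_rfl
theorem kact_W : ∀ x < 4096, kact cW x = app cW x ∧ app cW (app cW x) = x ^^^ app cW x :=
  all4096 (f := fun x => band (Nat.beq (kact cW x) (app cW x)) (Nat.beq (app cW (app cW x)) (Nat.xor x (app cW x))))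
    (by decide +kernel) fun v h => by simp only [band_eq, Bool.and_eq_true, nbeq] at h; exact h

variable {G : Type*} [Group G] {z p : G} {θ : ℕ → G}

namespace Fr
variable (F : Fr z p θ)
include F

theorem θ0 : θ 0 = 1 := by
  have := F.mul 0 (by norm_num) 0 (by norm_num)
  rwa [show emul 0 0 = 0 by decide +kernel, mul_eq_left] at this
theorem θz {x : ℕ} (hx : x < 8192) : θ (x ^^^ 4096) = θ x * z := by
  rw [← F.hz, F.mul x hx 4096 (by norm_num), emul_eq, bt_z']; simp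
theorem cz {x : ℕ} (hx : x < 8192) : Commute (θ x) z := by
  rw [Commute, SemiconjBy, ← F.θz hx, ← F.hz, F.mul _ (by norm_num) x hx, emul_eq, bt_z, Nat.xor_comm]; simp
theorem zz : z * z = 1 := by rw [← F.θ0, ← Nat.xor_self 4096, F.θz (by norm_num), F.hz]
theorem z1 : z ≠ 1 := fun h => by
  have := F.inj 4096 (by norm_num) 0 (by norm_num) (by rw [F.hz, h, F.θ0]); omega
theorem oz : orderOf z = 2 := orderOf_eq_prime (by rw [pow_two, F.zz]) F.z1
theorem θb {x b : ℕ} (hx : x < 8192) (hb : b < 2) : θ (x ^^^ b <<< 12) = θ x * z ^ b := by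
  interval_cases b
  · simp
  · simpa using F.θz hx
theorem zxor {a b : ℕ} (ha : a < 2) (hb : b < 2) : z ^ (a ^^^ b) = z ^ a * z ^ b := by
  interval_cases a <;> interval_cases b <;> simp [F.zz]
theorem mul' {x y : ℕ} (hx : x < 8192) (hy : y < 8192) : θ x * θ y = θ (x ^^^ y) * z ^ bt x y := by
  rw [F.mul x hx y hy, emul_eq, F.θb (xlt hx hy) (bt_lt _ _)]
theorem zbb (b : ℕ) : z ^ b * z ^ b = 1 := by rw [← (Commute.refl z).mul_pow, F.zz, one_pow]
theorem inv {x : ℕ} (hx : x < 8192) : (θ x)⁻¹ = θ (einv x) := by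
  rw [einv_eq, F.θb hx (bt_lt _ _), inv_eq_iff_mul_eq_one, ← mul_assoc, F.mul' hx hx, Nat.xor_self, F.θ0, one_mul,
    F.zbb]
theorem conjE {e x : ℕ} (he : e < 8192) (hx : x < 8192) : θ e * θ x * (θ e)⁻¹ = θ (x ^^^ bf e x <<< 12) := by
  rw [F.θb hx (bf_lt _ _), mul_inv_eq_iff_eq_mul, mul_assoc, ((F.cz he).pow_right _).eq.symm, ← mul_assoc,
    F.mul' he hx, F.mul' hx he, Nat.xor_comm e, mul_assoc, ← F.zxor (bt_lt _ _) (bf_lt _ _), bf_eq,
    Nat.xor_comm (bt e x), Nat.xor_xor_cancel_left]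
theorem cancel {u v a b : ℕ} (hu : u < 4096) (hv : v < 4096) (ha : a < 2) (hb : b < 2)
    (h : θ u * z ^ a = θ v * z ^ b) : u = v ∧ a = b := by
  rw [← F.θb (by omega) ha, ← F.θb (by omega) hb] at h
  have e := F.inj _ (xlt (by omega) (sh_lt ha)) _ (xlt (by omega) (sh_lt hb)) h
  have e1 := congrArg (· &&& 4096) e
  simp only [Nat.and_xor_distrib_right, and_z hu, and_z hv, Nat.zero_xor] at e1
  have : a = b := by interval_cases a <;> interval_cases b <;> simp_all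
  subst this
  exact ⟨by simpa using congrArg (· ^^^ a <<< 12) e, rfl⟩
theorem comm_iff {x y : ℕ} (hx : x < 8192) (hy : y < 8192) : Commute (θ x) (θ y) ↔ bf x y = 0 := by
  rw [Commute, SemiconjBy, ← mul_inv_eq_iff_eq_mul, F.conjE hx hy, F.θb hy (bf_lt _ _), mul_eq_left]
  have := bf_lt x y
  generalize bf x y = b at *
  interval_cases b <;> simp [F.z1]
theorem sq {x : ℕ} (hx : x < 8192) : θ x * θ x = z ^ bt x x := by rw [F.mul' hx hx, Nat.xor_self, F.θ0, one_mul]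
theorem pz : Commute p z := by
  have := F.pθ 4096 (by norm_num)
  rwa [show kact cW 4096 = 4096 by decide +kernel, F.hz, mul_inv_eq_iff_eq_mul] at this
theorem pθ' {x : ℕ} (hx : x < 4096) : p * θ x * p⁻¹ = θ (app cW x) := by rw [F.pθ x (by omega), (kact_W x hx).1]
theorem ppow (j : ℕ) : ∀ u < 4096, ∃ v < 4096, p ^ j * θ u * (p ^ j)⁻¹ = θ v := by
  induction j with
  | zero => exact fun u hu => ⟨u, hu, by simp⟩
  | succ j ih =>
    intro u hu
    obtain ⟨v, hv, e⟩ := ih u hu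
    exact ⟨_, app_lt _ _, by rw [← F.pθ' hv, ← e, pow_succ']; group⟩

theorem kact_of [Finite G] {k : G} {c : ℕ} (hz : Commute k z) (hk : k * p * k⁻¹ ∈ zpowers p)
    (h : ∀ x < 4096, ∃ b < 2, k * θ x * k⁻¹ = θ (app c x) * z ^ b) {x : ℕ} (hx : x < 8192) :
    k * θ x * k⁻¹ = θ (kact c x) := by
  have hzb : ∀ b (g : G), Commute g z → ∀ y, g * (y * z ^ b) * g⁻¹ = g * y * g⁻¹ * z ^ b := fun b g hg y => by
    rw [mul_assoc (g * y), ((hg.pow_right b).inv_left).eq]; group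
  obtain ⟨j, hj⟩ := (mem_powers_iff_mem_zpowers).2 hk
  have step : ∀ x < 4096, ∀ b < 2, k * θ x * k⁻¹ = θ (app c x) * z ^ b →
      k * θ (app cW x) * k⁻¹ = θ (app c (app cW x)) * z ^ b := fun x hx b hb e => by
    obtain ⟨b', hb', e'⟩ := h _ (app_lt cW x)
    obtain ⟨v, hv, e2⟩ := F.ppow j _ (app_lt c x)
    have : k * θ (app cW x) * k⁻¹ = θ v * z ^ b := by
      rw [← F.pθ' hx, ← e2, ← hzb b _ (F.pz.pow_left j), ← e]; simp only [hj]; group
    rw [e', (F.cancel (app_lt _ _) hv hb' hb (e'.symm.trans this)).2]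
  have key : ∀ x < 4096, k * θ x * k⁻¹ = θ (kact c x) := fun x hx => by
    obtain ⟨b, hb, e⟩ := h x hx
    have e1 := step x hx b hb e
    have e2 := step _ (app_lt cW x) b hb e1
    rw [(kact_W x hx).2] at e2
    have e3 : k * (θ x * θ (app cW x)) * k⁻¹ = k * θ x * k⁻¹ * (k * θ (app cW x) * k⁻¹) := by group
    rw [F.mul' (by omega) (app_lt' _ _), hzb _ _ hz, e2, e, e1, mul_assoc (θ (app c x)), ← mul_assoc (z ^ b),
      ← ((F.cz (app_lt' _ _)).pow_right b).eq, mul_assoc (θ (app c (app cW x))) (z ^ b), F.zbb, mul_one,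
      F.mul' (app_lt' _ _) (app_lt' _ _), app_xor, mul_assoc, ← F.zxor hb (bt_lt _ _)] at e3
    have e4 := (F.cancel (xlt12 (app_lt _ _) (app_lt _ _)) (xlt12 (app_lt _ _) (app_lt _ _))
      (xlt2 hb (bt_lt _ _)) (bt_lt _ _) e3).2
    rw [kact_eq, and_z hx, Nat.xor_zero, F.θb (app_lt' _ _) (ell_lt _ _), e, ell_eq, ← e4, Nat.xor_comm b,
      Nat.xor_xor_cancel_left]
  rcases split_z hx with h | ⟨v, hv, rfl⟩
  · exact key x h
  · rw [kact_z, F.θz (by omega), F.θz (kact_lt _ _), ← key v hv]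
    simpa using hzb 1 k hz (θ v)
end Fr

namespace St
variable {μ : centralizer ({z} : Set G) →* MulAut (XV 12)} (S : St z p θ μ)
include S

theorem θE {x : ℕ} (hx : x < 8192) : θ x ∈ twoCoreOfCentralizer z := (S.core _).2 ⟨x, hx, rfl⟩
theorem θH {x : ℕ} (hx : x < 8192) : θ x ∈ centralizer ({z} : Set G) :=
  mem_centralizer_singleton_iff.2 (S.toFr.cz hx).eq
theorem pH : p ∈ centralizer ({z} : Set G) := mem_centralizer_singleton_iff.2 S.toFr.pz.eq
theorem zH : z ∈ centralizer ({z} : Set G) := mem_centralizer_singleton_iff.2 rfl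
theorem μθ {x : ℕ} (hx : x < 8192) : μ ⟨θ x, S.θH hx⟩ = 1 := (S.ker _).2 (S.θE hx)
theorem μ_mem (h : centralizer ({z} : Set G)) : μ h ∈ Xs := S.range ▸ ⟨h, rfl⟩
theorem exists_IR (h : centralizer ({z} : Set G)) : ∃ c, IR c (μ h) := J4T.exists_IR (Xs_le (S.μ_mem h))

theorem act' (h : centralizer ({z} : Set G)) {c : ℕ} (hc : MR 12 c (μ h)) {x : ℕ} (hx : x < 8192) :
    ∃ b < 2, h * θ x * h⁻¹ = θ (app c x) * z ^ b := by
  rcases S.act h c hc x hx with e | e
  · exact ⟨0, by norm_num, by simpa using e⟩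
  · exact ⟨1, by norm_num, by rw [e, S.toFr.θz (app_lt' _ _), pow_one]⟩

theorem kact [Finite G] {k : centralizer ({z} : Set G)} (hk : k.1 ∈ normalizer (zpowers p : Set G)) {c : ℕ}
    (hc : MR 12 c (μ k)) {x : ℕ} (hx : x < 8192) : k * θ x * k⁻¹ = θ (J4T.kact c x) :=
  S.toFr.kact_of (mem_centralizer_singleton_iff.1 k.2) ((mem_normalizer_iff.1 hk p).1 (mem_zpowers p))
    (fun x hx => S.act' k hc (by omega)) hx

theorem card_E : Nat.card (twoCoreOfCentralizer z) = 8192 := by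
  have : Function.Bijective fun x : Fin 8192 => (⟨θ x, S.θE x.2⟩ : twoCoreOfCentralizer z) :=
    ⟨fun x y e => Fin.ext (S.inj _ x.2 _ y.2 (congrArg Subtype.val e)), fun g => by
      obtain ⟨x, hx, e⟩ := (S.core _).1 g.2; exact ⟨⟨x, hx⟩, Subtype.ext e⟩⟩
  rw [← Nat.card_eq_of_bijective _ this]; simp

theorem card_Xs : Nat.card Xs = 2661120 := by
  have h1 := card_ker_mul μ
  have : μ.ker = (twoCoreOfCentralizer z).subgroupOf _ := by ext h; exact S.ker h
  rw [S.range, S.cardH, this, Nat.card_congr (subgroupOfEquivOfLe fun g hg => by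
    obtain ⟨x, hx, rfl⟩ := (S.core _).1 hg; exact S.θH hx).toEquiv, S.card_E, mul_comm] at h1
  exact Nat.eq_of_mul_eq_mul_left (by norm_num) h1

theorem decomp (h : centralizer ({z} : Set G)) : ∃ x < 8192, ∃ k : centralizer ({z} : Set G),
    k.1 ∈ normalizer (zpowers p : Set G) ∧ μ k = μ h ∧ h.1 = θ x * k := by
  obtain ⟨k, hk, e⟩ := S.frat _ (S.μ_mem h)
  obtain ⟨x, hx, e'⟩ := (S.core _).1 ((S.ker (h * k⁻¹)).1 (by rw [map_mul, map_inv, e, mul_inv_cancel]))
  exact ⟨x, hx, k, hk, e, by rw [e']; simp⟩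

theorem exK {L : List ℕ} {K : Subgroup (MulAut (XV 12))} (hL : CodesIn IR L K) (hK : K ≤ Xs) {c : ℕ} (hc : c ∈ L) :
    ∃ k : centralizer ({z} : Set G), k.1 ∈ normalizer (zpowers p : Set G) ∧ IR c (μ k) := by
  obtain ⟨g, hg, h⟩ := hL c hc
  obtain ⟨k, hk, e⟩ := S.frat g (hK hg)
  exact ⟨k, hk, e ▸ h⟩

theorem es : LES.ES (twoCoreOfCentralizer z) z := by
  have F := S.toFr
  refine ⟨F.oz, F.hz ▸ S.θE (by norm_num), fun y hy => ?_, fun x hx h => ?_, fun x hx y hy => ?_, fun x hx => ?_,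
    θ 1, S.θE (by norm_num), θ 2, S.θE (by norm_num), by rw [F.comm_iff (by norm_num) (by norm_num)]; decide +kernel⟩
  · obtain ⟨x, hx, rfl⟩ := (S.core _).1 hy; exact F.cz hx
  · obtain ⟨x, hx', rfl⟩ := (S.core _).1 hx
    have key : ∀ v < 4096, (∀ i < 12, bf v (2 ^ i) = 0) → v = 0 := fun v hv h => by
      rw [← pack_bf v hv]
      exact (pack_congr (v' := fun _ => 0) fun i hi => h _ (by interval_cases i <;> decide)).trans
        (by decide +kernel)
    have h' : ∀ i < 12, bf x (2 ^ i) = 0 := fun i hi =>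
      have := (pow_lt12 hi).trans (show 4096 < 8192 by norm_num)
      (F.comm_iff hx' this).1 (h _ (S.θE this))
    rcases split_z hx' with hv | ⟨v, hv, rfl⟩
    · left; rw [key x hv h', F.θ0]
    · right
      rw [key v hv fun i hi => by simpa only [bf_eq, bt_xor, bt_xor', bt_z, bt_z', Nat.xor_zero] using h' i hi,
        Nat.zero_xor, F.hz]
  · obtain ⟨x, hx', rfl⟩ := (S.core _).1 hx
    obtain ⟨y, hy', rfl⟩ := (S.core _).1 hy
    rw [F.conjE hx' hy', F.θb hy' (bf_lt _ _)]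
    have := bf_lt x y
    generalize bf x y = b at *
    interval_cases b <;> simp
  · obtain ⟨x, hx', rfl⟩ := (S.core _).1 hx
    rw [F.sq hx']
    have := bt_lt x x
    generalize bt x x = b at *
    interval_cases b <;> simp

theorem le [Finite G] : LES.LE (twoCoreOfCentralizer z) z :=
  LES.LE.of_core S.toFr.oz S.es.isExtraspecial S.cent

/-- an element of `H` centralising `E` is `1` or `z`. -/
theorem eq_of_cent [Finite G] {g : G} (h : ∀ x < 8192, g * θ x * g⁻¹ = θ x) : g = 1 ∨ g = z :=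
  S.le.cQ g fun y hy => by
    obtain ⟨x, hx, rfl⟩ := (S.core _).1 hy; exact mul_inv_eq_iff_eq_mul.1 (h x hx)

/-- elements of `N_H(p)` with the same matrix agree up to `z`. -/
theorem eq_of_μ [Finite G] {k k' : centralizer ({z} : Set G)} (hk : k.1 ∈ normalizer (zpowers p : Set G))
    (hk' : k'.1 ∈ normalizer (zpowers p : Set G)) (e : μ k = μ k') : k.1 = k' ∨ k.1 = k' * z := by
  obtain ⟨c, hc⟩ := S.exists_IR k
  rcases S.eq_of_cent (g := k'.1⁻¹ * k.1) (fun x hx => by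
    have h1 := S.kact hk hc.1 hx
    have h2 := S.kact hk' (e ▸ hc.1) hx
    rw [← h2] at h1
    have : k'.1⁻¹ * k.1 * θ x * (k'.1⁻¹ * k.1)⁻¹ = k'.1⁻¹ * (k * θ x * k⁻¹) * k' := by simp [mul_assoc]
    rw [this, h1]; simp [mul_assoc]) with h | h
  · left; rw [inv_mul_eq_one.1 h]
  · right; exact inv_mul_eq_iff_eq_mul.1 h

theorem μp : μ ⟨p, S.pH⟩ = wA := by
  obtain ⟨c, hc⟩ := S.exists_IR ⟨p, S.pH⟩
  refine hc.1.func (col_ext hc.1.1 IR_wA.1.1 (fun i hi => ?_) ▸ IR_wA.1)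
  obtain ⟨b, hb, e⟩ := S.act' _ hc.1 ((pow_lt12 hi).trans (show 4096 < 8192 by norm_num))
  have e' := S.toFr.pθ' (pow_lt12 hi)
  rw [← app_pow _ hi, ← app_pow _ hi]
  exact (S.toFr.cancel (app_lt _ _) (app_lt _ _) hb two_pos (by rw [← e, pow_zero, mul_one, ← e']; rfl)).1
end St

end Cfsg.Agent.J4T
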