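import Cfsg.Agent.J4T.XsF

/-! The subgroup `V = 2^11` of `H`: relations `KR` (elements of `N_H(p)` by their matrices) and `VR` (action on `V`),
the structure `Bt` (generators `x i` of `N_H(p) ∩ N(V)`, coordinates `ν` on `V`, the two possible actions `f = 0, 3`). -/

set_option autoImplicit false

namespace Cfsg.Agent.J4T
open Cfsg.Agent.Comp Subgroup

variable {G : Type*} [Group G] {z p : G} {θ : ℕ → G} {μ : centralizer ({z} : Set G) →* MulAut (XV 12)}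

def KR (p : G) (μ : centralizer ({z} : Set G) →* MulAut (XV 12)) (c : ℕ) (g : G) : Prop :=
  ∃ h : g ∈ centralizer ({z} : Set G), g ∈ normalizer (zpowers p : Set G) ∧ IR c (μ ⟨g, h⟩)

theorem isGrp_KR : IsGrp (KR p μ) mulM invM one12 :=
  ⟨fun _ g _ h ⟨a, b, c⟩ ⟨a', b', c'⟩ => ⟨mul_mem a a', mul_mem b b', by
    have := isGrp_IR.mul c c'; rwa [← map_mul] at this⟩,
   fun _ g ⟨a, b, c⟩ => ⟨inv_mem a, inv_mem b, by have := isGrp_IR.inv c; rwa [← map_inv] at this⟩,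
   one_mem _, one_mem _, by have := isGrp_IR.one; rwa [← map_one μ] at this⟩

theorem KR.cz {c : ℕ} {g : G} (h : KR p μ c g) : Commute g z := mem_centralizer_singleton_iff.1 h.1

def VR (ν : XV 11 →* G) (c : ℕ) (g : G) : Prop := ∃ a, MR 11 c a ∧ ∀ v, g * ν v * g⁻¹ = ν (a v)

theorem isGrp_VR {ν : XV 11 →* G} : IsGrp (VR ν) mulM (invN 11) one11 :=
  ⟨fun _ g _ h ⟨a, b, c⟩ ⟨a', b', c'⟩ => ⟨_, isGrp11.mul b b', fun v => by rw [MulAut.mul_apply, ← c, ← c']; group⟩,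
   fun _ g ⟨a, b, c⟩ => ⟨_, isGrp11.inv b, fun v => by
    have := c (a⁻¹ v); rw [← MulAut.mul_apply, mul_inv_cancel, MulAut.one_apply] at this; rw [← this]; group⟩,
   _, isGrp11.one, by simp⟩

theorem VR.act {ν : XV 11 →* G} {c : ℕ} {g : G} (h : VR ν c g) {v : ℕ} (hv : v < 2048) :
    g * ν (XV.mk' 11 v) * g⁻¹ = ν (XV.mk' 11 (app c v)) := by
  obtain ⟨a, h1, h2⟩ := h; rw [h2, h1.mk'_eq hv]

theorem VR.norm [Finite G] {ν : XV 11 →* G} {c : ℕ} {g : G} (h : VR ν c g) : g ∈ normalizer (ν.range : Set G) :=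
  let ⟨_, _, h2⟩ := h
  mem_normalizer_fintype fun _ ⟨v, e⟩ => ⟨_, e ▸ (h2 v).symm⟩

theorem VR.of_basis {ν : XV 11 →* G} (hν : Function.Injective ν) {c : ℕ} {g : G} (hc : c < 2 ^ (12 * 11))
    (h : ∀ i < 11, col c i < 2048 ∧ g * ν (XV.mk' 11 (2 ^ i)) * g⁻¹ = ν (XV.mk' 11 (col c i))) : VR ν c g := by
  have l := app_lt_of (n := 11) (by norm_num) fun i hi => (h i hi).1
  let f : XV 11 →* XV 11 := MonoidHom.mk' (fun v => ⟨app c v.val, l _ v.lt⟩) fun _ _ => XV.ext (app_xor ..)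
  have mk : ∀ a < 2 ^ 11, ∀ b < 2 ^ 11, XV.mk' 11 (a ^^^ b) = XV.mk' 11 a * XV.mk' 11 b := fun a ha b hb => by
    ext; rw [XV.mul_val, XV.mk'_val ha, XV.mk'_val hb, XV.mk'_val (Nat.xor_lt_two_pow ha hb)]
  have key : ∀ v, g * ν v * g⁻¹ = ν (f v) := fun v => by
    have := xind (n := 11) (P := fun v => g * ν (XV.mk' 11 v) * g⁻¹ = ν (XV.mk' 11 (app c v)))
      (by have : XV.mk' 11 0 = 1 := rfl
          simp [app_zero, this])
      (fun i hi => by simp only [app_pow c (show i < 12 by omega), (h i hi).2])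
      (fun a ha b hb e1 e2 => by
        rw [app_xor, mk a ha b hb, mk _ (l a ha) _ (l b hb), map_mul, map_mul, ← e1, ← e2]; group) v.val v.lt
    simp only [XV.mk'_self] at this
    rw [this]; congr 1; ext; exact XV.mk'_val (l _ v.lt)
  have fi : Function.Injective f := fun u v e => hν (by
    have := key u; rw [e, ← key v] at this; simpa using this)
  exact ⟨MulEquiv.ofBijective f (Finite.injective_iff_bijective.1 fi), ⟨hc, fun _ => rfl⟩, key⟩

theorem exists_VR {ν : XV 11 →* G} (hν : Function.Injective ν) {g : G} (h : g ∈ normalizer (ν.range : Set G)) :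
    ∃ c, VR ν c g := by
  have : ∀ i, ∃ v : XV 11, ν v = g * ν (XV.mk' 11 (2 ^ i)) * g⁻¹ := fun i => (mem_normalizer_iff.1 h _).1 ⟨_, rfl⟩
  choose f hf using this
  have l : ∀ i < 11, (f i).val < 4096 := fun i _ => lt4096 (by norm_num) _
  exact ⟨pack 12 11 fun i => (f i).val, VR.of_basis hν (pack_lt l) fun i hi => by
    rw [col_pack l hi, XV.mk'_self, hf]; exact ⟨XV.lt _, rfl⟩⟩

theorem VR.canon {ν : XV 11 →* G} (hν : Function.Injective ν) {c c' : ℕ} {g : G} (h : VR ν c g) (h' : VR ν c' g) :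
    c = c' := by
  obtain ⟨a, h1, h2⟩ := h; obtain ⟨b, h3, h4⟩ := h'
  have : a = b := MulEquiv.ext fun v => hν (by rw [← h2, h4])
  exact h1.canon (by norm_num) (this ▸ h3)

def rho (x : ℕ → G) (m : ℕ) : G := x 3 ^ bit m 0 * x 4 ^ bit m 1 * x 5 ^ bit m 2 * x 6 ^ bit m 3

theorem KR_rho {x : ℕ → G} (hx : ∀ i, KR p μ (nthL one12 LB i) (x i)) (m : ℕ) : KR p μ (rcode m) (rho x m) :=
  isGrp_KR.mul (isGrp_KR.mul (isGrp_KR.mul (isGrp_KR.pow (hx 3) _) (isGrp_KR.pow (hx 4) _)) (isGrp_KR.pow (hx 5) _))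
    (isGrp_KR.pow (hx 6) _)

theorem pow_bit {r : G} (h : r * r = 1) (a b i : ℕ) : r ^ bit a i * r ^ bit b i = r ^ bit (a ^^^ b) i := by
  simp only [bit_eq, Nat.testBit_xor]
  cases a.testBit i <;> cases b.testBit i <;> simp [h]

theorem rho_mul {x : ℕ → G} (h : ∀ i < 4, x (3 + i) * x (3 + i) = 1)
    (hc : ∀ i < 4, ∀ j < 4, Commute (x (3 + i)) (x (3 + j))) (a b : ℕ) : rho x a * rho x b = rho x (a ^^^ b) := by
  have c : ∀ i < 4, ∀ j < 4, ∀ m n, Commute (x (3 + i) ^ m) (x (3 + j) ^ n) := fun i hi j hj m n =>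
    (hc i hi j hj).pow_pow m n
  rw [rho, rho, rho, Commute.mul_mul_mul_comm (((c 3 (by decide) 0 (by decide) _ _).mul_right
      (c 3 (by decide) 1 (by decide) _ _)).mul_right (c 3 (by decide) 2 (by decide) _ _)),
    Commute.mul_mul_mul_comm ((c 2 (by decide) 0 (by decide) _ _).mul_right (c 2 (by decide) 1 (by decide) _ _)),
    Commute.mul_mul_mul_comm (c 1 (by decide) 0 (by decide) _ _), pow_bit (h 0 (by decide)), pow_bit (h 1 (by decide)),
    pow_bit (h 2 (by decide)), pow_bit (h 3 (by decide))]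

theorem three_sq {a b c : G} (zz : z * z = 1) (az : Commute a z) (bz : Commute b z) (cz : Commute c z) (aa : a * a = z)
    (bb : b * b = z) (cc : c * c = z) (ab : a * b * (a * b) = z) (ac : a * c * (a * c) = z)
    (bc : b * c * (b * c) = z) : a * b * c * (a * b * c) = 1 := by
  have k : ∀ {a b : G}, Commute b z → a * a = z → b * b = z → a * b * (a * b) = z → ∀ y, b * (a * y) = a * (b * (z * y)) :=
    fun {a b} bz aa bb ab y => by
      have : a * (b * a) * b = a * (a * b * z) * b := by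
        rw [mul_assoc a b z, bz.eq, ← mul_assoc a a, aa, ← mul_assoc z, zz, one_mul, bb, ← ab]; group
      rw [← mul_assoc, mul_left_cancel (mul_right_cancel this)]; group
  have h1 := k bz aa bb ab; have h2 := k cz aa cc ac; have h3 := k cz bb cc bc
  have r : ∀ {a : G}, a * a = z → ∀ y, a * (a * y) = z * y := fun h y => by rw [← mul_assoc, h]
  have s : ∀ {a : G}, Commute a z → ∀ y, z * (a * y) = a * (z * y) := fun h y => by rw [← mul_assoc, ← h.eq, mul_assoc]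
  rw [← mul_one (a * b * c * _)]
  simp only [mul_assoc, h1, h2, h3, r aa, r bb, r cc, s az, s bz, s cz, ← mul_assoc z z, zz, one_mul, mul_one]
  rw [← cz.eq, ← mul_assoc, cc, zz]

def cD : ℕ := 0x78040020010004001403c018034006005
def cP : ℕ := 0x40020010008004003002000c00803b01e
def cK (f : ℕ) : ℕ := Nat.xor 0x8038068028004000e03f01201b03e00c
  (pack 12 11 fun i => bif' (Nat.ble 7 i) (Nat.shiftLeft (bit f (Nat.sub i 7)) 6) 0)
def LV (f : ℕ) : List ℕ := [cD, cK f, cP, one11, one11, one11, one11]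

/-- the data of step B. -/
structure Bt (z p : G) (θ : ℕ → G) (μ : centralizer ({z} : Set G) →* MulAut (XV 12)) (x : ℕ → G) (ν : XV 11 →* G)
    (f : ℕ) : Prop extends St z p θ μ where
  hx : ∀ i, KR p μ (nthL one12 LB i) (x i)
  hv : ∀ i, VR ν (nthL one11 (LV f) i) (x i)
  hν : ∀ a : XV 11, ν a = θ (ut (a.val % 128)) * rho x (a.val / 128)
  injν : Function.Injective ν
  hf : f = 0 ∨ f = 3

namespace St
variable [Finite G] (S : St z p θ μ)
include S

theorem KR_eq {c : ℕ} {g g' : G} (h : KR p μ c g) (h' : KR p μ c g') : g = g' ∨ g = g' * z :=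
  let ⟨a, b, c⟩ := h; let ⟨a', b', c'⟩ := h'
  S.eq_of_μ (k := ⟨g, a⟩) (k' := ⟨g', a'⟩) b b' (isCanon_IR.func c c')
theorem KR_act {c : ℕ} {g : G} (h : KR p μ c g) {x : ℕ} (hx : x < 8192) : g * θ x * g⁻¹ = θ (J4T.kact c x) :=
  let ⟨a, b, c⟩ := h; S.kact (k := ⟨g, a⟩) b c.1 hx
omit [Finite G] in
theorem exKR {L : List ℕ} {K : Subgroup (MulAut (XV 12))} (hL : CodesIn IR L K) (hK : K ≤ Xs) {c : ℕ} (hc : c ∈ L) :
    ∃ g, KR p μ c g := let ⟨k, h1, h2⟩ := S.exK hL hK hc; ⟨k, k.2, h1, h2⟩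
omit [Finite G] in
theorem KR_p : KR p μ cW p := ⟨S.pH, le_normalizer (mem_zpowers p), S.μp ▸ IR_wA⟩
theorem KR_z : KR p μ one12 z := ⟨S.zH, mem_normalizer_zpowers (by
    rw [← S.toFr.pz.eq, mul_inv_cancel_right]; exact mem_zpowers p), by
  rw [(S.ker ⟨z, S.zH⟩).2 S.es.zQ]; exact isGrp_IR.one⟩
theorem KR_mulz {c : ℕ} {g : G} (h : KR p μ c g) : KR p μ c (g * z) := by
  obtain ⟨a, b, c⟩ := h
  obtain ⟨a', b', c'⟩ := S.KR_z
  refine ⟨mul_mem a a', mul_mem b b', ?_⟩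
  have := isCanon_IR.func c' isGrp_IR.one
  rwa [← mul_one (μ _), ← this, ← map_mul] at c

omit [Finite G] in
theorem comm_p {g : G} (h : p * g * p⁻¹ = g ∨ p * g * p⁻¹ = g * z) : p * g * p⁻¹ = g := by
  refine h.resolve_right fun h => S.toFr.z1 ?_
  have cz : ∀ x, p * (x * z) * p⁻¹ = p * x * p⁻¹ * z := fun x => by
    rw [mul_assoc (p * x), S.toFr.pz.inv_left.eq]; group
  have : p * (p * (p * g * p⁻¹) * p⁻¹) * p⁻¹ = p ^ 3 * g * (p ^ 3)⁻¹ := by
    simp only [pow_succ, pow_zero, one_mul, mul_inv_rev, mul_assoc]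
  rw [← S.op, pow_orderOf_eq_one, h, cz, h, cz, cz, h, mul_assoc, mul_assoc, S.toFr.zz] at this
  simpa using this

theorem exists_x : ∃ x : ℕ → G, (∀ i, KR p μ (nthL one12 LB i) (x i)) ∧ x 2 = p ∧
    (∀ i < 3, x 0 * x (3 + i) * (x 0)⁻¹ = x (4 + i)) ∧ x 0 * x 6 * (x 0)⁻¹ = x 3 * x 4 * x 5 * x 6 ∧
    ∀ i, 7 ≤ i → x i = 1 := by
  obtain ⟨d, hd⟩ := S.exKR codesB Bs_le (c := cd) (by simp [LB])
  obtain ⟨k, hk⟩ := S.exKR codesB Bs_le (c := ck) (by simp [LB])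
  have key : ∀ r, KR p μ cr1 r → KR p μ cr2 (d * r * d⁻¹) ∧ KR p μ cr3 (d * (d * r * d⁻¹) * d⁻¹) ∧
      KR p μ cr4 (d * (d * (d * r * d⁻¹) * d⁻¹) * d⁻¹) := fun r hr => by
    have h2 := isGrp_KR.conj hd hr
    rw [show conjC mulM invM cd cr1 = cr2 by decide +kernel] at h2
    have h3 := isGrp_KR.conj hd h2
    rw [show conjC mulM invM cd cr2 = cr3 by decide +kernel] at h3
    have h4 := isGrp_KR.conj hd h3
    rw [show conjC mulM invM cd cr3 = cr4 by decide +kernel] at h4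
    exact ⟨h2, h3, h4⟩
  obtain ⟨r, hr, e⟩ : ∃ r, KR p μ cr1 r ∧ d * (d * (d * (d * r * d⁻¹) * d⁻¹) * d⁻¹) * d⁻¹ =
      r * (d * r * d⁻¹) * (d * (d * r * d⁻¹) * d⁻¹) * (d * (d * (d * r * d⁻¹) * d⁻¹) * d⁻¹) := by
    obtain ⟨r, hr⟩ := S.exKR codesB Bs_le (c := cr1) (by simp [LB])
    obtain ⟨h2, h3, h4⟩ := key r hr
    have h5 := isGrp_KR.conj hd h4
    rw [show conjC mulM invM cd cr4 = mulM (mulM (mulM cr1 cr2) cr3) cr4 by decide +kernel] at h5
    rcases S.KR_eq h5 (isGrp_KR.mul (isGrp_KR.mul (isGrp_KR.mul hr h2) h3) h4) with e | e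
    · exact ⟨r, hr, e⟩
    · refine ⟨r * z, S.KR_mulz hr, ?_⟩
      have cz : ∀ x, d * (x * z) * d⁻¹ = d * x * d⁻¹ * z := fun x => by
        rw [mul_assoc (d * x), hd.cz.inv_left.eq]; group
      simp only [cz]
      rw [e]
      generalize d * r * d⁻¹ = a at *
      generalize d * a * d⁻¹ = b at *
      generalize d * b * d⁻¹ = c at *
      have s : ∀ {a : G}, Commute a z → ∀ y, z * (a * y) = a * (z * y) := fun h y => by
        rw [← mul_assoc, ← h.eq, mul_assoc]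
      simp only [mul_assoc, s h2.cz, s h3.cz, s h4.cz, S.toFr.zz, mul_one]
  obtain ⟨h2, h3, h4⟩ := key r hr
  use fun i => [d, k, p, r, d * r * d⁻¹, d * (d * r * d⁻¹) * d⁻¹, d * (d * (d * r * d⁻¹) * d⁻¹) * d⁻¹].getD i 1
  refine ⟨fun i => ?_, rfl, fun i hi => ?_, e, fun i hi => ?_⟩
  · rcases i with _ | _ | _ | _ | _ | _ | _ | i
    exacts [hd, hk, S.KR_p, hr, h2, h3, h4, isGrp_KR.one]
  · interval_cases i <;> rfl
  · obtain ⟨j, rfl⟩ := Nat.exists_eq_add_of_le' hi; rfl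

theorem r_elem {x : ℕ → G} (hx : ∀ i, KR p μ (nthL one12 LB i) (x i)) :
    (∀ i < 4, x (3 + i) * x (3 + i) = 1) ∧ ∀ i < 4, ∀ j < 4, Commute (x (3 + i)) (x (3 + j)) := by
  have F := S.toFr
  have h1 : x 3 * x 3 = 1 ∨ x 3 * x 3 = z := by
    have := isGrp_KR.mul (hx 3) (hx 3)
    rw [show mulM (nthL one12 LB 3) (nthL one12 LB 3) = one12 by decide +kernel] at this
    simpa using S.KR_eq this isGrp_KR.one
  have h0 : ∀ m < 15, conjC mulM invM (evalW mulM invM one12 LB (nthL [] [[], [0], [3, 3], [0, 0], [2], [0, 3, 3],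
    [3, 1], [3], [1, 1, 2], [0, 2], [0, 0, 2], [1, 3, 1], [1, 2], [2, 1], [1]] m)) (nthL one12 LB 3) = rcode (m + 1) := by
    decide +kernel
  have h2 : ∀ m < 15, rho x (m + 1) * rho x (m + 1) = x 3 * x 3 := fun m hm => by
    have h3 := isGrp_KR.evalW hx (nthL [] [[], [0], [3, 3], [0, 0], [2], [0, 3, 3],
      [3, 1], [3], [1, 1, 2], [0, 2], [0, 0, 2], [1, 3, 1], [1, 2], [2, 1], [1]] m)
    have h4 := isGrp_KR.conj h3 (hx 3)
    rw [h0 m hm] at h4
    generalize wordG x _ = k at *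
    have h5 : k * x 3 * k⁻¹ * (k * x 3 * k⁻¹) = x 3 * x 3 := by
      have : k * x 3 * k⁻¹ * (k * x 3 * k⁻¹) = k * (x 3 * x 3) * k⁻¹ := by group
      rw [this]
      rcases h1 with e | e <;> rw [e]
      · simp
      · rw [h3.cz.eq]; simp
    rcases S.KR_eq (KR_rho hx (m + 1)) h4 with e | e <;> rw [e]
    · exact h5
    · rw [mul_assoc, ← mul_assoc z, ← h4.cz.eq, mul_assoc _ z, F.zz, mul_one, h5]
  have e1 : rho x 2 = x 4 := by show x 3 ^ 0 * x 4 ^ 1 * x 5 ^ 0 * x 6 ^ 0 = _; simp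
  have e2 : rho x 4 = x 5 := by show x 3 ^ 0 * x 4 ^ 0 * x 5 ^ 1 * x 6 ^ 0 = _; simp
  have e3 : rho x 8 = x 6 := by show x 3 ^ 0 * x 4 ^ 0 * x 5 ^ 0 * x 6 ^ 1 = _; simp
  have e4 : rho x 3 = x 3 * x 4 := by show x 3 ^ 1 * x 4 ^ 1 * x 5 ^ 0 * x 6 ^ 0 = _; simp
  have e5 : rho x 5 = x 3 * x 5 := by show x 3 ^ 1 * x 4 ^ 0 * x 5 ^ 1 * x 6 ^ 0 = _; simp
  have e6 : rho x 9 = x 3 * x 6 := by show x 3 ^ 1 * x 4 ^ 0 * x 5 ^ 0 * x 6 ^ 1 = _; simp
  have e7 : rho x 6 = x 4 * x 5 := by show x 3 ^ 0 * x 4 ^ 1 * x 5 ^ 1 * x 6 ^ 0 = _; simp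
  have e8 : rho x 10 = x 4 * x 6 := by show x 3 ^ 0 * x 4 ^ 1 * x 5 ^ 0 * x 6 ^ 1 = _; simp
  have e9 : rho x 12 = x 5 * x 6 := by show x 3 ^ 0 * x 4 ^ 0 * x 5 ^ 1 * x 6 ^ 1 = _; simp
  have e10 : rho x 7 = x 3 * x 4 * x 5 := by show x 3 ^ 1 * x 4 ^ 1 * x 5 ^ 1 * x 6 ^ 0 = _; simp
  have k1 := h2 1 (by decide); have k2 := h2 3 (by decide); have k3 := h2 7 (by decide); have k4 := h2 2 (by decide)
  have k5 := h2 4 (by decide); have k6 := h2 8 (by decide); have k7 := h2 5 (by decide); have k8 := h2 9 (by decide)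
  have k9 := h2 11 (by decide); have k10 := h2 6 (by decide)
  simp only [Nat.reduceAdd, e1, e2, e3, e4, e5, e6, e7, e8, e9, e10] at k1 k2 k3 k4 k5 k6 k7 k8 k9 k10
  rcases h1 with h1 | h1 <;> rw [h1] at k1 k2 k3 k4 k5 k6 k7 k8 k9 k10
  · have cm : ∀ {a b : G}, a * a = 1 → b * b = 1 → a * b * (a * b) = 1 → Commute a b := fun {a b} h1 h2 h3 => by
      rw [Commute, SemiconjBy, eq_inv_of_mul_eq_one_left h3, mul_inv_rev, inv_eq_of_mul_eq_one_right h1,
        inv_eq_of_mul_eq_one_right h2]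
    refine ⟨fun i hi => by interval_cases i <;> assumption, fun i hi j hj => ?_⟩
    interval_cases i <;> interval_cases j <;>
      first | exact Commute.refl _ | (apply cm <;> assumption) | (symm; apply cm <;> assumption)
  · exact absurd (k10.symm.trans (three_sq F.zz (hx 3).cz (hx 4).cz (hx 5).cz h1 k1 k2 k4 k5 k7)) F.z1

theorem rho_U {x : ℕ → G} (hx : ∀ i, KR p μ (nthL one12 LB i) (x i)) (m : ℕ) {a : ℕ} (ha : a < 128) :
    Commute (rho x m) (θ (ut a)) := by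
  have : ∀ i < 4, Commute (x (3 + i)) (θ (ut a)) := fun i hi => by
    have := S.KR_act (hx (3 + i)) (ut_lt a)
    rw [ut_R _ (by interval_cases i <;> simp [LRg, LB, nthL_eq]) a ha] at this
    exact mul_inv_eq_iff_eq_mul.1 this
  exact (((((this 0 (by decide)).pow_left _).mul_left ((this 1 (by decide)).pow_left _))).mul_left
    ((this 2 (by decide)).pow_left _)).mul_left ((this 3 (by decide)).pow_left _)
end St

section
variable {x : ℕ → G} {ν : XV 11 →* G} (F : Fr z p θ) (hν : ∀ a : XV 11, ν a = θ (ut (a.val % 128)) * rho x (a.val / 128))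
include F hν

theorem νU {a : ℕ} (ha : a < 128) : ν (XV.mk' 11 a) = θ (ut a) := by
  rw [hν, XV.mk'_val (by omega), Nat.mod_eq_of_lt ha, Nat.div_eq_of_lt ha]
  show _ * (x 3 ^ 0 * x 4 ^ 0 * x 5 ^ 0 * x 6 ^ 0) = _; simp
theorem νR {m b : ℕ} (hm : m < 16) (hb : b < 2) : ν (XV.mk' 11 (128 * m + 64 * b)) = z ^ b * rho x m := by
  rw [hν, XV.mk'_val (by omega), show (128 * m + 64 * b) % 128 = 64 * b by omega,
    show (128 * m + 64 * b) / 128 = m by omega]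
  interval_cases b
  · rw [show ut (64 * 0) = 0 by decide +kernel, F.θ0, pow_zero]
  · rw [show ut (64 * 1) = 4096 by decide +kernel, F.hz, pow_one]
theorem νr {j : ℕ} (hj : j < 4) : ν (XV.mk' 11 (2 ^ (7 + j))) = x (3 + j) := by
  have := νR F hν (m := 2 ^ j) (b := 0) (Nat.pow_lt_pow_right (n := 4) one_lt_two hj) two_pos
  rw [pow_add, show 2 ^ 7 * 2 ^ j = 128 * 2 ^ j + 64 * 0 from rfl, this]
  interval_cases j
  · show z ^ 0 * (x 3 ^ 1 * x 4 ^ 0 * x 5 ^ 0 * x 6 ^ 0) = _; simp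
  · show z ^ 0 * (x 3 ^ 0 * x 4 ^ 1 * x 5 ^ 0 * x 6 ^ 0) = _; simp
  · show z ^ 0 * (x 3 ^ 0 * x 4 ^ 0 * x 5 ^ 1 * x 6 ^ 0) = _; simp
  · show z ^ 0 * (x 3 ^ 0 * x 4 ^ 0 * x 5 ^ 0 * x 6 ^ 1) = _; simp
end

theorem VR_V (ν : XV 11 →* G) (w : XV 11) : VR ν one11 (ν w) :=
  ⟨1, isGrp11.one, fun v => by rw [← map_mul, ← map_inv, ← map_mul, mul_comm w, mul_inv_cancel_right]; rfl⟩

def okK (M c : ℕ) : Bool := band (Nat.blt c (Nat.pow 2 132)) (band (allLt 7 fun i => band (Nat.blt (col c i) 128)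
  (Nat.beq (kact M (ut (Nat.pow 2 i))) (ut (col c i)))) (allLt 11 fun i => Nat.blt (col c i) 2048))

theorem St.VR_K [Finite G] (S : St z p θ μ) {x : ℕ → G} {ν : XV 11 →* G}
    (hν : ∀ a : XV 11, ν a = θ (ut (a.val % 128)) * rho x (a.val / 128)) (inj : Function.Injective ν) {M c : ℕ} {g : G}
    (hg : KR p μ M g) (h : okK M c = true) (h2 : ∀ j < 4, g * x (3 + j) * g⁻¹ = ν (XV.mk' 11 (col c (7 + j)))) :
    VR ν c g := by
  simp only [okK, band_eq, Bool.and_eq_true, nblt, allLt_iff, nbeq] at h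
  refine VR.of_basis inj h.1 fun i hi => ⟨h.2.2 i hi, ?_⟩
  by_cases h7 : i < 7
  · rw [νU S.toFr hν (Nat.pow_lt_pow_right (n := 7) one_lt_two h7), νU S.toFr hν (h.2.1 i h7).1, S.KR_act hg (ut_lt _),
      ← (h.2.1 i h7).2]; rfl
  · obtain ⟨j, rfl⟩ := Nat.exists_eq_add_of_le (not_lt.1 h7)
    rw [νr S.toFr hν (by omega), h2 j (by omega)]

theorem St.exists_Bt [Finite G] (S : St z p θ μ) : ∃ x ν f, Bt z p θ μ x ν f := by
  have F := S.toFr
  obtain ⟨x, hx, x2, hd, hd', x7⟩ := S.exists_x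
  obtain ⟨sq, cm⟩ := S.r_elem hx
  have l : ∀ a, a % 128 < 128 := fun a => Nat.mod_lt _ (by norm_num)
  let ν : XV 11 →* G := MonoidHom.mk' (fun a => θ (ut (a.val % 128)) * rho x (a.val / 128)) fun a b => by
    rw [(S.rho_U hx _ (l _)).mul_mul_mul_comm, rho_mul sq cm, F.mul _ (ut_lt _) _ (ut_lt _), ut_mul _ (l _) _ (l _),
      XV.mul_val, show 128 = 2 ^ 7 from rfl, Nat.xor_mod_two_pow, Nat.xor_div_two_pow]
  have hν : ∀ a : XV 11, ν a = θ (ut (a.val % 128)) * rho x (a.val / 128) := fun _ => rfl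
  clear_value ν
  have inj : Function.Injective ν := (injective_iff_map_eq_one ν).2 fun a e => by
    obtain ⟨h1, -, h2⟩ := KR_rho hx (a.val / 128)
    rw [hν] at e
    have h3 : μ ⟨_, h1⟩ = 1 := (S.ker _).2 (by
      show rho x _ ∈ _
      rw [eq_inv_of_mul_eq_one_right e]; exact inv_mem (S.θE (ut_lt _)))
    have h4 : ∀ m < 16, rcode m = one12 → m = 0 := by decide +kernel
    have h5 : a.val < 2048 := a.lt
    have h6 := h4 _ (by omega) (isCanon_IR.canon h2 (h3 ▸ isGrp_IR.one))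
    rw [h6, show rho x 0 = x 3 ^ 0 * x 4 ^ 0 * x 5 ^ 0 * x 6 ^ 0 from rfl, ← F.θ0] at e
    have h7 := ut_inj _ (l _) (F.inj _ (ut_lt _) _ (by norm_num) (by simpa [F.θ0] using e))
    exact XV.ext (by rw [XV.one_val]; omega)
  have vD : VR ν cD (x 0) := S.VR_K hν inj (hx 0) (by decide +kernel) fun j hj => by
    by_cases h : j < 3
    · rw [hd j h, show col cD (7 + j) = 2 ^ (7 + (j + 1)) by interval_cases j <;> decide +kernel, νr F hν (by omega)]
      congr 1; omega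
    · obtain rfl : j = 3 := by omega
      rw [hd', show col cD (7 + 3) = 128 * 15 + 64 * 0 by decide +kernel, νR F hν (by norm_num) two_pos]
      show _ = z ^ 0 * (x 3 ^ 1 * x 4 ^ 1 * x 5 ^ 1 * x 6 ^ 1); simp
  have pr : ∀ j < 4, p * x (3 + j) * p⁻¹ = x (3 + j) := fun j hj => by
    have h := isGrp_KR.conj S.KR_p (hx (3 + j))
    rw [show conjC mulM invM cW (nthL one12 LB (3 + j)) = nthL one12 LB (3 + j) by
      interval_cases j <;> decide +kernel] at h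
    exact S.comm_p (S.KR_eq h (hx _))
  have vP : VR ν cP (x 2) := x2 ▸ S.VR_K hν inj S.KR_p (by decide +kernel) fun j hj => by
    rw [pr j hj, show col cP (7 + j) = 2 ^ (7 + j) by interval_cases j <;> decide +kernel, νr F hν hj]
  have kb : ∀ j < 4, ∃ b < 2, x 1 * x (3 + j) * (x 1)⁻¹ = z ^ b * rho x (nthL 0 [5, 13, 7, 1] j) := fun j hj => by
    have h := isGrp_KR.conj (hx 1) (hx (3 + j))
    rw [show conjC mulM invM (nthL one12 LB 1) (nthL one12 LB (3 + j)) = rcode (nthL 0 [5, 13, 7, 1] j) by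
      interval_cases j <;> decide +kernel] at h
    rcases S.KR_eq h (KR_rho hx _) with e | e
    · exact ⟨0, two_pos, by simpa using e⟩
    · exact ⟨1, one_lt_two, by rw [e, (KR_rho hx _).cz.eq, pow_one]⟩
  obtain ⟨b0, l0, k0⟩ := kb 0 (by decide); obtain ⟨b1, l1, k1⟩ := kb 1 (by decide)
  obtain ⟨b2, l2, k2⟩ := kb 2 (by decide); obtain ⟨b3, l3, k3⟩ := kb 3 (by decide)
  have hc : ∀ b0 < 2, ∀ b1 < 2, ∀ b2 < 2, ∀ b3 < 2, okK ck (cK (b0 + 2 * b1 + 4 * b2 + 8 * b3)) = true ∧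
    ∀ j < 4, col (cK (b0 + 2 * b1 + 4 * b2 + 8 * b3)) (7 + j) = 128 * nthL 0 [5, 13, 7, 1] j + 64 * nthL 0 [b0, b1, b2, b3] j := by
    decide +kernel
  obtain ⟨f, hf, vK⟩ : ∃ f < 16, VR ν (cK f) (x 1) := ⟨_, by omega, S.VR_K hν inj (hx 1) (hc _ l0 _ l1 _ l2 _ l3).1
    fun j hj => by
      rw [(hc _ l0 _ l1 _ l2 _ l3).2 j hj]
      interval_cases j
      exacts [k0.trans (νR F hν (by decide) l0).symm, k1.trans (νR F hν (by decide) l1).symm,
        k2.trans (νR F hν (by decide) l2).symm, k3.trans (νR F hν (by decide) l3).symm]⟩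
  have hv : ∀ i, VR ν (nthL one11 (LV f) i) (x i) := fun i => by
    rcases i with _ | _ | _ | _ | _ | _ | _ | i
    exacts [vD, vK, vP, νr F hν (j := 0) (by decide) ▸ VR_V ν _, νr F hν (j := 1) (by decide) ▸ VR_V ν _,
      νr F hν (j := 2) (by decide) ▸ VR_V ν _, νr F hν (j := 3) (by decide) ▸ VR_V ν _,
      x7 (i + 7) (by omega) ▸ isGrp_VR.one]
  have key : ∀ w m j, m < 16 → evalW mulM invM one12 LB w = mulM (rcode m) (powC mulM one12 cW j) →
      ∀ i < 4, app (evalW mulM (invN 11) one11 (LV f) w) (2 ^ (7 + i)) = 2 ^ (7 + i) := fun w m j hm e i hi => by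
    have h1 := isGrp_KR.evalW hx w
    have h2 := isGrp_VR.evalW hv w
    have h3 : 2 ^ (7 + i) < 2048 := Nat.pow_lt_pow_right (n := 11) one_lt_two (by omega)
    have h4 := h2.act h3
    have c1 : Commute (rho x m * p ^ j) (x (3 + i)) := by
      refine Commute.mul_left ?_ (Commute.pow_left (mul_inv_eq_iff_eq_mul.1 (pr i hi)) _)
      exact (((((cm 0 (by decide) i hi).pow_left _).mul_left ((cm 1 (by decide) i hi).pow_left _))).mul_left
        ((cm 2 (by decide) i hi).pow_left _)).mul_left ((cm 3 (by decide) i hi).pow_left _)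
    have c2 : Commute (wordG x w) (x (3 + i)) := by
      rcases S.KR_eq (e ▸ h1) (isGrp_KR.mul (KR_rho hx m) (isGrp_KR.pow S.KR_p j)) with e | e <;> rw [e]
      exacts [c1, c1.mul_left (hx _).cz.symm]
    rw [νr F hν hi, c2.eq, mul_inv_cancel_right, ← νr F hν hi] at h4
    obtain ⟨a, ha, -⟩ := h2
    have := congrArg XV.val (inj h4)
    rwa [XV.mk'_val h3, XV.mk'_val (ha.app_lt h3), eq_comm] at this
  have hf' : ∀ f < 16, (∀ i < 4, app (evalW mulM (invN 11) one11 (LV f) [0, 2, 0, 2, 0, 2, 0, 2, 0, 2, 0, 2])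
      (2 ^ (7 + i)) = 2 ^ (7 + i)) → (∀ i < 4, app (evalW mulM (invN 11) one11 (LV f) [0, 2, 2, 0, 2, 2, 0, 2, 2, 0, 2, 2])
      (2 ^ (7 + i)) = 2 ^ (7 + i)) → (∀ i < 4, app (evalW mulM (invN 11) one11 (LV f)
      [0, 0, 0, 2, 0, 0, 0, 2, 0, 0, 0, 2, 0, 0, 0, 2]) (2 ^ (7 + i)) = 2 ^ (7 + i)) → f = 0 ∨ f = 3 := by
    decide +kernel
  exact ⟨x, ν, f, S, hx, hv, hν, inj, hf' f hf (key _ 0 0 (by decide) (by decide +kernel))
    (key _ 5 1 (by decide) (by decide +kernel)) (key _ 8 0 (by decide) (by decide +kernel))⟩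

end Cfsg.Agent.J4T
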