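import Cfsg.Agent.J4T.B1

/-! Step B, computation: the linear equations forcing the action of `y` on `V` (`Y_of_eqs`). -/

set_option autoImplicit false

namespace Cfsg.Agent.J4T
open Cfsg.Agent.Comp Subgroup Cfsg.Agent.BG LES

def cU7 : ℕ := 0x40010002c01c002040001
def EQ (f : ℕ) : List (ℕ × List ℕ × ℕ) := [(0, [2, 0, 2, 0, 0, 2, 0, 0, 0, 2, 4, 2], 0),
  (0, [2, 0, 2, 0, 0, 0, 2, 10, 2, 2], 0), (0, [2, 0, 2, 2, 2, 0, 0, 0, 0], 0), (235, [], 0), (158, [], 0),
  (0, [0, 2, 0, 0], bif' (Nat.beq f 0) 0 16), (0, [2, 2, 2, 4], 0), (0, [0, 0, 2, 0, 2, 4], bif' (Nat.beq f 0) 0 8),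
  (1, [], 18)]
def cc (f i : ℕ) : ℕ := mulM (actE (nthL (0, [], 0) (EQ f) i).1)
  (evalW mulM (fun _ => 0) one11 (LV f) (nthL (0, [], 0) (EQ f) i).2.1)
def alam (f l : ℕ) : ℕ := mulM (mulM (mulM (mulM (powC mulM one11 (cc f 0) (bit l 0)) (powC mulM one11 (cc f 1) (bit l 1)))
  (powC mulM one11 (cc f 2) (bit l 2))) (powC mulM one11 (cc f 3) (bit l 3))) (powC mulM one11 (cc f 4) (bit l 4))
def ac (f i : ℕ) : ℕ := alam f (nthL (0, [], 0) (EQ f) i).2.2
def cPm (f : ℕ) : ℕ := bif' (Nat.beq f 0) 0x70d68c71a08440010002c01c002040001 0x70d6cc71a08440010002c01c002040001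
def cPi (f : ℕ) : ℕ := bif' (Nat.beq f 0) 0x407cd0206210023bc3a450d6a1004001 0x407cf0206230023be3a650d6a3004001
def cN (C A : List ℕ) (t : ℕ) : ℕ := pack 12 11 fun i => bif' (Nat.blt i 7) (app cY (col cU7 i))
  (bif' (Nat.beq i 7) t (app (nthL 0 A (Nat.sub i 3)) (app (nthL 0 C (Nat.sub i 3)) t)))
def scan (f : ℕ) : Bool := forceL (mapL (cc f) (List.range 9)) fun C => forceL (mapL (ac f) (List.range 9)) fun A =>
  allLt 32 fun a => allLt 64 fun b => force (Nat.add (Nat.mul 64 a) b) fun t =>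
    force (mulM (cN C A t) (cPi f)) fun Y => bor (band (Nat.beq f 3) (Nat.beq Y cY))
    (anyLt 9 fun i => not (Nat.beq (mulM (nthL 0 C i) Y) (mulM (mulM (nthL 0 A i) Y) (nthL 0 C i))))
theorem scan_ok : scan 0 = true ∧ scan 3 = true := by decide +kernel

theorem evalW_even (inv inv' : ℕ → ℕ) (one : ℕ) (L w : List ℕ) (h : allL w (fun a => Nat.beq (Nat.land a 1) 0) = true) :
    evalW mulM inv one L w = evalW mulM inv' one L w := by
  induction w with
  | nil => rfl
  | cons a w ih =>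
    simp only [allL_iff, List.mem_cons, forall_eq_or_imp] at h ih
    have e : letterC inv one L a = letterC inv' one L a := by unfold letterC; rw [h.1]
    have := ih h.2
    cases w with
    | nil => exact e
    | cons b w => show mulM _ _ = mulM _ _; rw [e]; exact congrArg _ this

theorem nth_map (g : ℕ → ℕ) : ∀ i < 9, nthL 0 (mapL g (List.range 9)) i = g i := fun i hi => by
  interval_cases i <;> rfl

theorem Y_of_eqs {f Y : ℕ} (hf : f = 0 ∨ f = 3) {a : MulAut (XV 11)} (hY : MR 11 Y a)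
    (hU : ∀ j < 7, app Y (col cU7 j) = app cY (col cU7 j))
    (h : ∀ i < 9, mulM (cc f i) Y = mulM (mulM (ac f i) Y) (cc f i)) : f = 3 ∧ Y = cY := by
  have h1 : scan f = true := by rcases hf with rfl | rfl; exacts [scan_ok.1, scan_ok.2]
  have h2 : ∀ f, f = 0 ∨ f = 3 → mulM (cPm f) (cPi f) = one11 ∧ cPm f < 2 ^ (12 * 11) ∧ cPi f < 2 ^ (12 * 11) ∧
      (∀ i < 7, col (cPm f) i = col cU7 i) ∧ col (cPm f) 7 = 132 ∧
      ∀ i < 3, col (cPm f) (8 + i) = app (cc f (5 + i)) 132 ∧ mulM (ac f (5 + i)) (ac f (5 + i)) = one11 ∧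
        (∀ j < 11, col (cc f (5 + i)) j < 2048) := by
    rintro _ (rfl | rfl) <;> decide +kernel
  obtain ⟨k1, k2, k2', k3, k4, k5⟩ := h2 f hf
  simp only [scan, forceL_eq, allLt_iff, force_eq, bor_eq, band_eq, Bool.or_eq_true, Bool.and_eq_true, nbeq, anyLt_iff,
    Bool.not_eq_true', nbeq_false] at h1
  have e1 : mulM Y (cPm f) = cN (mapL (cc f) (List.range 9)) (mapL (ac f) (List.range 9)) (app Y 132) := by
    have l : ∀ i < 11, bif' (Nat.blt i 7) (app cY (col cU7 i)) (bif' (Nat.beq i 7) (app Y 132)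
      (app (nthL 0 (mapL (ac f) (List.range 9)) (Nat.sub i 3))
        (app (nthL 0 (mapL (cc f) (List.range 9)) (Nat.sub i 3)) (app Y 132)))) < 4096 := fun i _ => by
      simp only [bif'_eq]; split_ifs <;> exact app_lt _ _
    refine col_ext (mulM_lt _ k2) (pack_lt l) fun i hi => ?_
    rw [col_mulM _ _ (by omega), cN, col_pack l hi]
    simp only [bif'_eq, nblt, nbeq]
    split_ifs with c1 c2
    · rw [k3 i c1, hU i c1]
    · rw [c2, k4]
    · obtain ⟨j, rfl⟩ := Nat.exists_eq_add_of_le (show 8 ≤ i by omega)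
      have e := congrArg (app · 132) (h (5 + j) (by omega))
      simp only [app_mulM _ _ (show 132 < 4096 by norm_num), app_mulM _ _ (app_lt _ _)] at e
      rw [show Nat.sub (8 + j) 3 = 5 + j by show 8 + j - 3 = _; omega, nth_map _ _ (by omega), nth_map _ _ (by omega),
        (k5 j (by omega)).1, e, ← app_mulM _ _ (app_lt _ _), (k5 j (by omega)).2.1, one11_eq,
        app_oneN (by norm_num) _ (hY.app_lt (app_lt_of (by norm_num) (k5 j (by omega)).2.2 _ (by norm_num)))]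
  have e2 : mulM (mulM Y (cPm f)) (cPi f) = Y := col_ext (mulM_lt _ k2') hY.1 fun i hi => by
    rw [col_mulM _ _ (by omega), app_mulM _ _ (col_lt _ _), ← col_mulM _ _ (by omega), k1, one11_eq,
      ← app_pow _ (by omega), app_oneN (by norm_num) _ (Nat.pow_lt_pow_right one_lt_two hi), app_pow _ (by omega)]
  have l := hY.app_lt (show 132 < 2 ^ 11 by norm_num)
  have h3 := h1 (app Y 132 / 64) (by omega) (app Y 132 % 64) (by omega)
  rw [show Nat.add (Nat.mul 64 (app Y 132 / 64)) (app Y 132 % 64) = app Y 132 from Nat.div_add_mod _ 64, ← e1, e2] at h3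
  rcases h3 with h1 | ⟨i, hi, h1⟩
  · exact h1
  · rw [nth_map _ _ hi, nth_map _ _ hi] at h1; exact absurd (h i hi) h1

end Cfsg.Agent.J4T
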